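import Cfsg.Agent.Lib.Unitary.Wall4
import Cfsg.Agent.Lib.OreC.Fpf
import Cfsg.Agent.Lib.Ore.Tail
import Cfsg.Agent.Lib.GLC.Diag

/-! Commutators in special unitary groups: the basic reduction and triangular maps. -/

set_option autoImplicit false

namespace Cfsg.Lib.OreU

open Module Polynomial Matrix Cfsg.Lib.GLC Cfsg.Lib.Unitary Cfsg.Lib.OreC

variable {F V U U₁ U₂ U₃ : Type*} [Field F] [AddCommGroup V] [Module F V] [AddCommGroup U]
  [Module F U] [AddCommGroup U₁] [Module F U₁] [AddCommGroup U₂] [Module F U₂] [AddCommGroup U₃]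
  [Module F U₃] {σ : F →+* F} {q : ℕ} {B : V →ₛₗ[σ] V →ₗ[F] F}

/-- `g` preserves the form. -/
def Un (B : V →ₛₗ[σ] V →ₗ[F] F) (g : End F V) : Prop := ∀ u v, B (g u) (g v) = B u v

theorem Un.mul {g h : End F V} (hg : Un B g) (hh : Un B h) : Un B (g * h) := fun u v =>
  (hg _ _).trans (hh u v)

theorem un_one : Un B (1 : End F V) := fun _ _ => rfl

theorem Un.inj {g : End F V} (hg : Un B g) (h : IsHerm σ B) : Function.Injective g :=
  LinearMap.ker_eq_bot.1 (LinearMap.ker_eq_bot'.2 fun v hv => h.nondeg v fun w => by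
    rw [← hg, hv]; simp)

theorem Un.isUnit [Module.Finite F V] {g : End F V} (hg : Un B g) (h : IsHerm σ B) : IsUnit g :=
  (LinearMap.isUnit_iff_ker_eq_bot g).2 (LinearMap.ker_eq_bot.2 (hg.inj h))

theorem Un.exists_inv [Module.Finite F V] {g : End F V} (hg : Un B g) (h : IsHerm σ B) :
    ∃ k : End F V, Un B k ∧ (∀ v, g (k v) = v) ∧ ∀ v, k (g v) = v := by
  obtain ⟨u, rfl⟩ := hg.isUnit h
  have h1 : ∀ v, u.1 ((u⁻¹).1 v) = v := fun v => by rw [← End.mul_apply, u.mul_inv]; rfl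
  exact ⟨(u⁻¹).1, fun a b => by rw [← hg, h1, h1], h1,
    fun v => by rw [← End.mul_apply, u.inv_mul]; rfl⟩

theorem Un.det_mul [Finite F] [Module.Finite F V] {g : End F V} (hg : Un B g) (h : IsHerm σ B) :
    LinearMap.det g * σ (LinearMap.det g) = 1 :=
  h.det_mul_conj (g := LinearEquiv.ofInjectiveEndo g (hg.inj h)) hg

theorem Un.sd [Module.Finite F V] {g : End F V} (hg : Un B g) (h : IsHerm σ B) (hσ : IsBar q σ) :
    Unitary.SD σ g := h.sd hσ (g := LinearEquiv.ofInjectiveEndo g (hg.inj h)) hg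

variable (q) in
/-- Every special unitary matrix similar to `g` is a commutator. -/
def Cu (g : End F V) : Prop := ∀ (n : ℕ) (s : SU n F q), Sim (toLin' s.1.1) g → IsC s

theorem Cu.of_sim {g : End F V} {g' : End F U} (h : Cu q g) (e : Sim g' g) : Cu q g' :=
  fun n s hs => h n s (hs.trans e)

theorem cu_of_pair [Module.Finite F V] (hσ : IsBar q σ) (h : IsHerm σ B) {g y : End F V}
    (hg : Un B g) (hy : Un B y) (hs : Sim (g * y) y) (hd : LinearMap.det y = 1)
    (hc : detC y = ⊤) : Cu q g := fun n s hs' => by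
  have := hσ.finite
  obtain ⟨e, he⟩ := h.exists_isometry_std (n := n) (by simpa using hs'.finrank_eq.symm)
  have key : ∀ f : End F V, Un B f → LinearMap.det f = 1 →
      ∃ a : SU n F q, ∀ v, e (f v) = toLin' a.1.1 (e v) := fun f hf h1 => by
    have h2 : ∀ v, LinearMap.toMatrix' (e.conj f) *ᵥ v = e (f (e.symm v)) := fun v => by
      rw [← toLin'_apply, toLin'_toMatrix']; simp
    refine ⟨⟨⟨LinearMap.toMatrix' (e.conj f), ?_⟩, hσ.mem_SU.2 fun u v => ?_⟩, fun v => ?_⟩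
    · rw [LinearMap.det_toMatrix', ← h1]; exact LinearMap.det_conj f e
    · simp only [h2]; rw [he, hf, ← he]; simp
    · simp [h2]
  have hd' : LinearMap.det g = 1 := by simpa [hd] using hs.det_eq
  obtain ⟨G, hG⟩ := key g hg hd'
  obtain ⟨Y, hY⟩ := key y hy hd
  have h1 : Sim (g * y) (toLin' (G * Y).1.1) := ⟨e, fun v => by
    rw [End.mul_apply, hG, hY]; simp⟩
  have h2 : Sim y (toLin' Y.1.1) := ⟨e, hY⟩
  have h3 := isC_of_isConj (hσ.su_isConj_of_sim (h1.symm.trans (hs.trans h2)) (by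
    rw [← h1.detC_eq, hs.detC_eq, hc, hσ.map_barHom_top]))
  rw [mul_inv_cancel_right] at h3
  obtain ⟨k, hk⟩ := isConj_iff.1 ((hσ.gu_isConj_iff_sim (a := suToGU G) (b := suToGU s)).2
    (Sim.symm (hs'.trans ⟨e, hG⟩)))
  rw [← suToGU_diagSU] at hk
  exact suToGU_injective hk ▸ h3.map (diagSU k).toMonoidHom

theorem detC_prodMap [Module.Finite F V] [Module.Finite F U] {f : End F V} {g : End F U}
    (h : detC f = ⊤ ∨ detC g = ⊤) : detC (f.prodMap g) = ⊤ := by
  have k : ∀ {f : End F V} {g : End F U} {a : End F V} {b : End F U}, Commute a f → Commute b g →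
      Commute (a.prodMap b) (f.prodMap g) := fun h1 h2 => by
    rw [Commute, SemiconjBy, LinearMap.prodMap_mul, LinearMap.prodMap_mul, h1.eq, h2.eq]
  refine top_unique fun c _ => h.elim (fun h => ?_) fun h => ?_
  · obtain ⟨a, h1, h2⟩ : c ∈ detC f := h ▸ trivial
    exact ⟨a.prodMap 1, k h1 (.one_left g), by
      rw [LinearMap.det_prodMap, h2, map_one, mul_one]⟩
  · obtain ⟨a, h1, h2⟩ : c ∈ detC g := h ▸ trivial
    exact ⟨(1 : End F V).prodMap a, k (.one_left f) h1, by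
      rw [LinearMap.det_prodMap, h2, map_one, one_mul]⟩

theorem sim_of_exact {a : End F U₁} {b : End F V} {c : End F U₂} {ι : U₁ →ₗ[F] V}
    {π : V →ₗ[F] U₂} (hι : Function.Injective ι) (hπ : Function.Surjective π)
    (h : LinearMap.range ι = LinearMap.ker π) (h1 : ∀ u, ι (a u) = b (ι u))
    (h2 : ∀ v, π (b v) = c (π v)) {M N : F[X]} (hM : aeval a M = 0) (hN : aeval c N = 0)
    (hc : IsCoprime M N) : Sim b (a.prodMap c) := by
  obtain ⟨s, hs⟩ := π.exists_rightInverse_of_surjective (LinearMap.range_eq_top.2 hπ)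
  have hs' : ∀ w, π (s w) = w := fun w => LinearMap.congr_fun hs w
  obtain ⟨P, Q, e⟩ := hc
  have h3 : ∀ w, π (aeval b (P * M) (s w)) = w := fun w => by
    rw [← Ore.aeval_intertwine (fun v => (h2 v).symm), hs', eq_sub_of_add_eq e]
    simp [hN]
  have h4 : ∀ v, π v = 0 → aeval b (P * M) v = 0 := fun v hv => by
    obtain ⟨u, rfl⟩ : v ∈ LinearMap.range ι := h ▸ hv
    rw [Ore.aeval_intertwine (fun v => (h1 v).symm)]; simp [hM]
  have h5 : ∀ u, π (ι u) = 0 := fun u => LinearMap.mem_ker.1 (h ▸ ⟨u, rfl⟩)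
  refine Sim.symm ⟨LinearEquiv.ofBijective (ι.coprod (aeval b (P * M) ∘ₗ s)) ⟨?_, fun v => ?_⟩,
    fun v => ?_⟩
  · refine LinearMap.ker_eq_bot.1 (LinearMap.ker_eq_bot'.2 fun ⟨u, w⟩ hv => ?_)
    have h6 : w = 0 := by
      have := congrArg π hv
      rwa [LinearMap.coprod_apply, map_add, h5, LinearMap.comp_apply, h3, zero_add, map_zero] at this
    subst h6
    have h7 : u = 0 := hι (by simpa using hv)
    rw [h7]; rfl
  · obtain ⟨u, hu⟩ : v - aeval b (P * M) (s (π v)) ∈ LinearMap.range ι := by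
      rw [h, LinearMap.mem_ker, map_sub, h3, sub_self]
    exact ⟨(u, π v), by simp only [LinearMap.coprod_apply, hu]; simp⟩
  · have h6 := h4 (b (s v.2) - s (c v.2)) (by rw [map_sub, h2, hs', hs', sub_self])
    rw [map_sub, sub_eq_zero, ← End.mul_apply, ← (commute_aeval (Commute.refl b) _).eq] at h6
    change ι (a v.1) + aeval b (P * M) (s (c v.2)) = b (ι v.1 + aeval b (P * M) (s v.2))
    rw [h1, ← h6, map_add, End.mul_apply]

/-- `T` is block triangular with diagonal blocks `A`, `C`, `A'`. -/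
structure Tri (E : U₁ →ₗ[F] V) (D : U₂ →ₗ[F] V) (E' : U₃ →ₗ[F] V) (T : End F V) (A : End F U₁)
    (C : End F U₂) (A' : End F U₃) : Prop where
  inj : ∀ a c b, E a + D c + E' b = 0 → a = 0 ∧ c = 0 ∧ b = 0
  top : ∀ v, ∃ a c b, v = E a + D c + E' b
  h1 : ∀ a, T (E a) = E (A a)
  h2 : ∀ c, ∃ a, T (D c) = E a + D (C c)
  h3 : ∀ b, ∃ a c, T (E' b) = E a + D c + E' (A' b)

namespace Tri

variable {E : U₁ →ₗ[F] V} {D : U₂ →ₗ[F] V} {E' : U₃ →ₗ[F] V} {T : End F V} {A : End F U₁}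
  {C : End F U₂} {A' : End F U₃} (h : Tri E D E' T A C A')
include h

theorem exact : ∃ (π : V →ₗ[F] U₂ × U₃) (S : End F (U₂ × U₃)), Function.Injective E ∧
    Function.Surjective π ∧ LinearMap.range E = LinearMap.ker π ∧ (∀ v, π (T v) = S (π v)) ∧
    (∀ c, S (c, 0) = (C c, 0)) ∧ ∀ z, (S z).2 = A' z.2 := by
  let Φ := LinearEquiv.ofBijective (E.coprod (D.coprod E')) ⟨LinearMap.ker_eq_bot.1
    (LinearMap.ker_eq_bot'.2 fun ⟨a, c, b⟩ hv => by
      obtain ⟨rfl, rfl, rfl⟩ := h.inj a c b (by simpa [add_assoc] using hv); rfl),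
    fun v => by obtain ⟨a, c, b, rfl⟩ := h.top v; exact ⟨(a, c, b), by simp [add_assoc]⟩⟩
  let π := LinearMap.snd F U₁ (U₂ × U₃) ∘ₗ Φ.symm.toLinearMap
  have hπ : ∀ a c b, π (E a + D c + E' b) = (c, b) := fun a c b => by
    have : E a + D c + E' b = Φ (a, c, b) := add_assoc _ _ _
    simp [π, this]
  have h0 : ∀ a, π (E a) = 0 := fun a => by simpa [Prod.ext_iff] using hπ a 0 0
  refine ⟨π, π ∘ₗ T ∘ₗ D.coprod E', LinearMap.ker_eq_bot.1 (LinearMap.ker_eq_bot'.2 fun a ha =>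
    (h.inj a 0 0 (by simpa)).1), fun z => ⟨_, hπ 0 z.1 z.2⟩, Submodule.ext fun v => ⟨?_, fun hv => ?_⟩,
    fun v => ?_, fun c => ?_, fun z => ?_⟩
  · rintro ⟨a, rfl⟩; exact h0 a
  · obtain ⟨a, c, b, rfl⟩ := h.top v
    obtain ⟨rfl, rfl⟩ := Prod.mk.inj ((hπ a c b).symm.trans hv)
    exact ⟨a, by simp⟩
  · obtain ⟨a, c, b, rfl⟩ := h.top v
    rw [hπ, add_assoc, map_add, map_add, h.h1, h0]; simp
  · obtain ⟨a, ha⟩ := h.h2 c
    simpa [ha] using hπ a (C c) 0
  · obtain ⟨a, ha⟩ := h.h2 z.1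
    obtain ⟨a', c, hb⟩ := h.h3 z.2
    have : T (D z.1 + E' z.2) = E (a + a') + D (C z.1 + c) + E' (A' z.2) := by
      simp only [map_add, ha, hb]; abel
    simp only [LinearMap.comp_apply, LinearMap.coprod_apply, this, hπ]

theorem det [Module.Finite F V] :
    LinearMap.det T = LinearMap.det A * (LinearMap.det C * LinearMap.det A') := by
  obtain ⟨π, S, h1, h2, h3, h4, h5, h6⟩ := h.exact
  have := Module.Finite.of_surjective π h2
  rw [det_eq_of_exact h1 h2 h3 (fun u => (h.h1 u).symm) h4, det_eq_of_exact (b := S)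
    LinearMap.inl_injective LinearMap.snd_surjective (LinearMap.range_inl F U₂ U₃)
    (fun u => (h5 u).symm) h6]

theorem sim {M N R : F[X]} (hM : aeval A M = 0) (hN : aeval C N = 0) (hR : aeval A' R = 0)
    (c1 : IsCoprime M N) (c2 : IsCoprime M R) (c3 : IsCoprime N R) :
    Sim T (A.prodMap (C.prodMap A')) := by
  obtain ⟨π, S, h1, h2, h3, h4, h5, h6⟩ := h.exact
  have h7 : Sim S (C.prodMap A') := sim_of_exact LinearMap.inl_injective LinearMap.snd_surjective
    (LinearMap.range_inl F U₂ U₃) (fun u => (h5 u).symm) h6 hN hR c3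
  refine (sim_of_exact h1 h2 h3 (fun u => (h.h1 u).symm) h4 hM (N := N * R) ?_
    (c1.mul_right c2)).trans ((Sim.refl A).prodMap h7)
  rw [(h7.aeval _).eq_zero_iff, aeval_prodMap]; simp [hN, hR]

end Tri

variable {ι : Type*} [Fintype ι] [DecidableEq ι]

variable (σ) in
/-- `A'` is the inverse adjoint of `A`. -/
def Du (A A' : End F (ι → F)) : Prop := ∀ a b, stdForm σ ι (A a) (A' b) = stdForm σ ι a b

theorem exists_du (hσ : IsBar q σ) {A : End F (ι → F)} (hA : IsUnit A) : ∃ A', Du σ A A' := by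
  obtain ⟨g, hg⟩ := (MulEquiv.isUnit_map toLinAlgEquiv'.symm).2 hA
  refine ⟨toLin' ((ctGL σ g)⁻¹).1, fun a b => ?_⟩
  have : A = toLin' g.1 := by rw [hg]; exact (toLinAlgEquiv'.apply_symm_apply A).symm
  rw [this, toLin'_apply, toLin'_apply, stdForm_mulVec_left, mulVec_mulVec, ← ct_apply, ← ctGL_coe,
    Units.mul_inv, one_mulVec]

theorem Du.symm (hσ : IsBar q σ) {A A' : End F (ι → F)} (h : Du σ A A') : Du σ A' A :=
  fun a b => by rw [← hσ.isHerm.symm, h, hσ.isHerm.symm]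

theorem Du.exists_gl (hσ : IsBar q σ) {A A' : End F (ι → F)} (h : Du σ A A') :
    ∃ g : GL ι F, A = toLin' g.1 ∧ A' = toLin' ((ctGL σ g)⁻¹).1 := by
  have hA : IsUnit A := (LinearMap.isUnit_iff_ker_eq_bot A).2 (LinearMap.ker_eq_bot'.2 fun v hv =>
    hσ.isHerm.nondeg v fun w => by rw [← h, hv]; simp)
  obtain ⟨g, hg⟩ := (MulEquiv.isUnit_map toLinAlgEquiv'.symm).2 hA
  have h1 : A = toLin' g.1 := by rw [hg]; exact (toLinAlgEquiv'.apply_symm_apply A).symm
  refine ⟨g, h1, LinearMap.ext fun b => ?_⟩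
  have h2 : (ctGL σ g).1 *ᵥ A' b = b := sub_eq_zero.1 (hσ.isHerm.nondeg_right _ fun a => by
    rw [map_sub, ← h a b, h1, toLin'_apply, stdForm_mulVec_left, sub_eq_zero]; rfl)
  conv_rhs => rw [← h2, toLin'_apply, mulVec_mulVec, Units.inv_mul, one_mulVec]

theorem Du.typ (hσ : IsBar q σ) {A A' : End F (ι → F)} (h : Du σ A A') :
    typ A' = (typ A).map (dual σ) := by
  obtain ⟨g, rfl, rfl⟩ := h.exists_gl hσ
  exact hσ.typ_dual g

theorem Du.det (hσ : IsBar q σ) {A A' : End F (ι → F)} (h : Du σ A A') :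
    LinearMap.det A' = (σ (LinearMap.det A))⁻¹ := by
  obtain ⟨g, rfl, rfl⟩ := h.exists_gl hσ
  refine eq_inv_of_mul_eq_one_left ?_
  rw [LinearMap.det_toLin', LinearMap.det_toLin', ← det_ct, ← det_mul, ← ctGL_coe, Units.inv_mul,
    det_one]

theorem Du.aeval (hσ : IsBar q σ) {A A' : End F (ι → F)} (h : Du σ A A') {M : F[X]}
    (hM : aeval A M = 0) : aeval A' (dual σ M) = 0 := by
  refine (blocks_typ _).aeval_eq_zero_iff.2 fun P hP => ?_
  rw [h.typ hσ] at hP
  obtain ⟨Q, hQ, rfl⟩ := Multiset.mem_map.1 hP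
  exact _root_.map_dvd (dual σ) ((blocks_typ _).aeval_eq_zero_iff.1 hM Q hQ)

theorem Du.sim (hσ : IsBar q σ) {A A' C C' : End F (ι → F)} (h : Du σ A A') (h' : Du σ C C')
    (e : Sim A C) : Sim A' C' := sim_iff_typ_eq.2 (by rw [h.typ hσ, h'.typ hσ, e.typ_eq])

end Cfsg.Lib.OreU
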