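import Cfsg.Agent.Lib.OreU.Kit

/-! The field with four elements: bookkeeping of the Levi components. -/

set_option autoImplicit false

namespace Cfsg.Lib.OreU

open Module Polynomial Matrix Cfsg.Lib.GLC Cfsg.Lib.Unitary Cfsg.Lib.Ore

universe u

variable {F : Type u} [Field F] {σ : F →+* F} {G : F[X] → Prop} {μ ν ν' : Multiset F[X]}
  {P Q A : F[X]} {L Z E E' : Multiset F} {k k' : ℕ}

/-- A multiset which is closed under inversion. -/
def Bal (L : Multiset F) : Prop := (∀ x ∈ L, x ≠ 0) ∧ L.map (·⁻¹) = L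

theorem Bal.add (h : Bal L) (h' : Bal Z) : Bal (L + Z) :=
  ⟨fun x hx => (Multiset.mem_add.1 hx).elim (h.1 x) (h'.1 x), by rw [Multiset.map_add, h.2, h'.2]⟩

theorem bal_zero : Bal (0 : Multiset F) := ⟨by simp, rfl⟩

theorem bal_one : Bal ({1} : Multiset F) := ⟨by simp, by simp⟩

theorem bal_pair {x : F} (h : x ≠ 0) : Bal {x, x⁻¹} :=
  ⟨by simp [h], by simpa using Multiset.pair_comm _ _⟩

theorem Kit.ones (K : Kit σ G) (k : ℕ) (h : k ≠ 1) : FL G (lt (.replicate k 1)) := by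
  induction k using Nat.strong_induction_on with | _ k ih => ?_
  rcases k with _ | _ | _ | _ | k
  exacts [fl_zero, (h rfl).elim, K.f2, K.f3, by
    rw [show k + 1 + 1 + 1 + 1 = k + 2 + 2 from rfl, Multiset.replicate_add, lt_add]
    exact (ih _ (by omega) (by omega)).add K.f2]

theorem Kit.bal (K : Kit σ G) (hσ : IsBar 2 σ) (h : Bal L) (h1 : L.card ≠ 1) : FL G (lt L) := by
  induction e : L.card using Nat.strong_induction_on generalizing L with | _ n ih => ?_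
  by_cases h2 : ∀ x ∈ L, x = 1
  · rw [Multiset.eq_replicate_card.2 h2]; exact K.ones _ h1
  push Not at h2
  obtain ⟨x, hx, x1⟩ := h2
  have x0 := h.1 x hx
  have hx' : x⁻¹ ∈ L := h.2 ▸ Multiset.mem_map_of_mem _ hx
  obtain ⟨L, rfl⟩ := Multiset.exists_cons_of_mem hx
  obtain ⟨L, rfl⟩ := Multiset.exists_cons_of_mem
    ((Multiset.mem_cons.1 hx').resolve_left (ne_inv hσ x0 x1).symm)
  have h3 : Bal L := ⟨fun y hy => h.1 y (by simp [hy]), by
    have := h.2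
    rwa [Multiset.map_cons, Multiset.map_cons, inv_inv, Multiset.cons_swap, Multiset.cons_inj_right,
      Multiset.cons_inj_right] at this⟩
  by_cases h4 : L.card = 1
  · obtain ⟨y, rfl⟩ := Multiset.card_eq_one.1 h4
    have h5 : y⁻¹ = y := by simpa using h3.2
    obtain rfl : y = 1 := by_contra fun y1 => ne_inv hσ (h3.1 y (by simp)) y1 h5.symm
    rw [show x ::ₘ x⁻¹ ::ₘ {1} = {1, x, x⁻¹} by
      simp only [Multiset.insert_eq_cons, ← Multiset.singleton_add]; abel]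
    exact K.f1w x x0 x1
  · rw [show x ::ₘ x⁻¹ ::ₘ L = {x, x⁻¹} + L by simp, lt_add]
    exact (K.fw x x0 x1).add (ih _ (by simp at e; omega) h3 h4 rfl)

variable (σ G) in
/-- `ν` has a decomposition with a factorisable Levi component. -/
def Dn (ν : Multiset F[X]) : Prop := ∃ μ, FL G μ ∧ DB σ ν μ

variable (σ G) in
/-- `ν` has a decomposition whose Levi component consists of a factorisable part, a balanced
diagonal part of size at least `k`, and the diagonal part `E`. -/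
def Ac (ν : Multiset F[X]) (k : ℕ) (E : Multiset F) : Prop :=
  ∃ μ L, FL G μ ∧ Bal L ∧ k ≤ L.card ∧ DB σ ν (μ + lt (L + E))

theorem Ac.add (h : Ac σ G ν k E) (h' : Ac σ G ν' k' E') : Ac σ G (ν + ν') (k + k') (E + E') := by
  obtain ⟨μ, L, h1, h2, h3, h4⟩ := h
  obtain ⟨μ', L', h1', h2', h3', h4'⟩ := h'
  refine ⟨_, _, h1.add h1', h2.add h2', by rw [Multiset.card_add]; omega, ?_⟩
  convert h4.add h4' using 1
  simp only [lt_add]; abel

theorem Ac.mono (h : Ac σ G ν k E) (h' : k' ≤ k) : Ac σ G ν k' E :=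
  let ⟨μ, L, h1, h2, h3, h4⟩ := h; ⟨μ, L, h1, h2, h'.trans h3, h4⟩

theorem Ac.absorb (h : Ac σ G ν k (E + E')) (h' : Bal E) : Ac σ G ν (k + E.card) E' :=
  let ⟨μ, L, h1, h2, h3, h4⟩ := h
  ⟨μ, L + E, h1, h2.add h', by rw [Multiset.card_add]; omega, by rwa [add_assoc]⟩

theorem DB.ac (h : DB σ ν (lt E)) : Ac σ G ν 0 E :=
  ⟨0, 0, fl_zero, bal_zero, le_rfl, by simpa⟩

theorem Ac.dn (K : Kit σ G) (hσ : IsBar 2 σ) (h : Ac σ G ν 2 0) : Dn σ G ν :=
  let ⟨_, _, h1, h2, h3, h4⟩ := h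
  ⟨_, h1.add (K.bal hσ h2 (by omega)), by simpa using h4⟩

theorem Ac.dn' (K : Kit σ G) (hσ : IsBar 2 σ) {x : F} (hx : x ≠ 0) (h : Ac σ G ν k {x})
    (h' : Ac σ G ν' k' {x⁻¹}) : Dn σ G (ν + ν') :=
  (((h.add h').mono (Nat.zero_le _)).absorb (E' := 0) (bal_pair hx)).dn K hσ

theorem split_lt {V : Type*} [AddCommGroup V] [Module F V] {f : End F V} (hA : A.Monic)
    (h1 : L.Nodup) (h2 : ∀ a ∈ L, A.eval a ≠ 0) (h : Blocks f (((lt L).prod * A) ::ₘ μ)) :
    Blocks f ({A} + lt L + μ) := by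
  induction L using Multiset.induction_on generalizing μ with
  | empty => simpa [lt] using h
  | cons a L ih =>
    obtain ⟨h3, h4⟩ := Multiset.nodup_cons.1 h1
    rw [show lt (a ::ₘ L) = (X - C a) ::ₘ lt L by simp [lt]] at h ⊢
    rw [Multiset.prod_cons, mul_assoc] at h
    have := ih h4 (fun b hb => h2 b (by simp [hb])) (Multiset.cons_swap _ _ _ ▸ h.split
      (monic_X_sub_C a) ((monic_multiset_prod_of_monic _ _ fun _ _ => monic_X_sub_C _).mul hA)
      ((cop_prod (forall_lt.2 fun b hb => isCoprime_X_sub_C_of_isUnit_sub (sub_ne_zero.2 fun e : b = a =>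
        h3 (e ▸ hb)).isUnit)).symm.mul_right (cop_of_eval (h2 a (by simp)))))
    convert this using 1
    simp only [← Multiset.singleton_add]; abel

variable (σ) in
/-- The Levi component can be any companion matrix of size `m`. -/
def Fre (P : F[X]) (m : ℕ) : Prop :=
  ∀ A : F[X], A.Monic → A.natDegree = m → A.coeff 0 ≠ 0 → DB σ {P} {A}

theorem Fre.ac (K : Kit σ G) {m : ℕ} (h : Fre σ P m) (h0 : ∀ a ∈ L, a ≠ 0) (h1 : L.Nodup)
    (hk : k = 0 ∨ k = 2 ∨ 4 ≤ k) (e : L.card + k = m) : Ac σ G {P} 0 L := by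
  obtain ⟨A, a1, a2, a3, a4⟩ := K.fa k hk
  have h2 : (lt L).prod.Monic := monic_multiset_prod_of_monic _ _ fun _ _ => monic_X_sub_C _
  refine ⟨_, 0, a4, bal_zero, le_rfl, (h _ (h2.mul a1) ?_ ?_).congr (fun _ _ _ _ => id)
    fun _ _ _ _ b => by simpa using split_lt a1 h1 (fun a _ => a3 a) (μ := 0) b⟩
  · rw [h2.natDegree_mul a1, a2, natDegree_multiset_prod_of_monic _ (lt_monic L), lt_sum, e]
  · rw [mul_coeff_zero, coeff_zero_multiset_prod, coeff_zero_eq_eval_zero A]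
    exact mul_ne_zero (Multiset.prod_ne_zero (by simpa [lt] using fun e => h0 0 e rfl)) (a3 0)

theorem Fre.big (K : Kit σ G) (hσ : IsBar 2 σ) {m : ℕ} (h : Fre σ P m) (hm : 2 ≤ m) :
    Ac σ G {P} 2 0 ∧ ∀ x, x ≠ 0 → x ≠ 1 → Ac σ G {P} 0 {x} := by
  obtain ⟨w, w0, w1⟩ := exists_om hσ
  have w2 := ne_inv hσ w0 w1
  refine ⟨?_, fun x x0 x1 => ?_⟩
  · by_cases e : m = 3 ∨ m = 5
    · exact ((h.ac K (L := {1} + {w, w⁻¹} + 0) (k := m - 3) (by simp [w0])
        (by simp [w2, w1.symm, eq_comm (a := (1 : F)), w1]) (by omega) (by simp; omega)).absorb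
        (bal_one.add (bal_pair w0))).mono (by simp)
    · exact (h.ac K (L := {w, w⁻¹} + 0) (k := m - 2) (by simp [w0]) (by simp [w2]) (by omega)
        (by simp; omega)).absorb (bal_pair w0)
  · by_cases e : m = 3 ∨ m = 5
    · exact h.ac K (k := m - 1) (by simpa) (by simp) (by omega) (by simp; omega)
    · exact ((h.ac K (L := {1} + {x}) (k := m - 2) (by simp [x0]) (by simp [x1.symm]) (by omega)
        (by simp; omega)).absorb bal_one).mono (by simp)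

variable (σ) in
/-- The self-dual building blocks. -/
structure At (Q : F[X]) : Prop where
  monic : Q.Monic
  ne : Q.coeff 0 ≠ 0
  dual : dual σ Q = Q
  pos : 0 < Q.natDegree
  root : ∀ a, Q.eval a = 0 → Q = (X - C a) ^ Q.natDegree

theorem At.exists_ne (hσ : IsBar 2 σ) (h : At σ Q) (a : F) : ∃ c, c ≠ 0 ∧ c ≠ a ∧ Q.eval c ≠ 0 := by
  obtain ⟨w, w0, w1⟩ := exists_om hσ
  have w2 := ne_inv hσ w0 w1
  have k : ∀ b c, Q.eval b = 0 → Q.eval c = 0 → c = b := fun b c hb hc => by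
    rw [h.root b hb] at hc
    simp only [eval_pow, eval_sub, eval_X, eval_C] at hc
    exact sub_eq_zero.1 (eq_zero_of_pow_eq_zero hc)
  by_contra! H
  have h1 := H 1 one_ne_zero
  have h2 := H w w0
  have h3 := H w⁻¹ (inv_ne_zero w0)
  have w3 : w⁻¹ ≠ 1 := by simpa
  by_cases e1 : 1 = a
  · exact w2 (k _ _ (h3 (e1 ▸ w3)) (h2 (e1 ▸ w1)))
  by_cases e2 : w = a
  · exact w3 (k _ _ (h1 e1) (h3 (e2 ▸ w2.symm)))
  · exact w1 (k _ _ (h1 e1) (h2 e2))

theorem At.fre (hσ : IsBar 2 σ) (h : At σ Q) (h4 : 4 ≤ Q.natDegree) :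
    ∃ m, Fre σ Q m ∧ (Q.natDegree = 2 * m + 1 ∨ Q.natDegree = 2 * m + 2) := by
  obtain ⟨m, e | e⟩ := Nat.even_or_odd' Q.natDegree
  · obtain ⟨m, rfl⟩ : ∃ j, m = j + 2 := ⟨m - 2, by omega⟩
    exact ⟨m + 1, fun A => db_even' hσ h.monic h.ne h.dual e, .inr e⟩
  · obtain ⟨m, rfl⟩ : ∃ j, m = j + 1 := ⟨m - 1, by omega⟩
    obtain ⟨c, c0, -, c1⟩ := h.exists_ne hσ 0
    exact ⟨m + 1, fun A => db_odd hσ h.monic h.ne h.dual e c0 c1, .inl e⟩

theorem At.slot (hσ : IsBar 2 σ) (h : At σ Q) (h3 : 3 ≤ Q.natDegree) (h4 : Q.natDegree ≤ 4)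
    {c : F} (hc : c ≠ 0) : Ac σ G {Q} 0 {c} := by
  refine DB.ac ?_
  rcases h4.eq_or_lt with e | e
  · exact db_even' hσ h.monic h.ne h.dual (m := 0) e (monic_X_sub_C c) (by simp) (by simpa)
  · exact db_three hσ (P := Q) (by simp [h.monic, h.ne]) (by simp; omega) (by simp [h.dual])
      (by simp) (by omega) hc

theorem At.ac (K : Kit σ G) (hσ : IsBar 2 σ) (h : At σ Q) (h3 : 3 ≤ Q.natDegree) :
    Ac σ G {Q} 1 0 := by
  by_cases h4 : Q.natDegree ≤ 4
  · exact (h.slot hσ h3 h4 one_ne_zero).absorb (E' := 0) bal_one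
  · obtain ⟨m, h1, h2⟩ := h.fre hσ (by omega)
    exact (h1.big K hσ (by omega)).1.mono one_le_two

theorem exists_atoms (hσ : IsBar 2 σ) {V : Type*} [AddCommGroup V] [Module F V] {f : End F V}
    (h1 : ∀ P ∈ μ, PP P ∧ P.coeff 0 ≠ 0) (h2 : μ.map (dual σ) = μ) (h : Blocks f (μ + ν)) :
    ∃ μ', (∀ Q ∈ μ', At σ Q) ∧ Blocks f (μ' + ν) := by
  induction e : μ.card using Nat.strong_induction_on generalizing μ ν with | _ n ih => ?_
  rcases μ.empty_or_exists_mem with rfl | ⟨P, hP⟩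
  · exact ⟨0, by simp, h⟩
  obtain ⟨⟨φ, j, p1, p2, p3, rfl⟩, p4⟩ := h1 P hP
  have p5 : φ.coeff 0 ≠ 0 := coeff_zero_ne_of_dvd (dvd_pow_self φ p3.ne') p4
  have k : ∀ {ψ : F[X]} {a : F}, ψ.Monic → Irreducible ψ → (ψ ^ j).eval a = 0 → ψ = X - C a :=
    fun q1 q2 e => eq_of_monic_of_associated q1 (monic_X_sub_C _) ((irreducible_X_sub_C _).associated_of_dvd
      q2 (dvd_iff_isRoot.2 (eq_zero_of_pow_eq_zero (by simpa using e)))).symm
  have k' : ∀ Q μ', At σ Q → (∀ P ∈ μ', P ∈ μ) → μ'.map (dual σ) = μ' → μ'.card < μ.card →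
      Blocks f (μ' + (Q ::ₘ ν)) → ∃ μ', (∀ Q ∈ μ', At σ Q) ∧ Blocks f (μ' + ν) :=
    fun Q μ' a b c d b' => by
      obtain ⟨ξ, x1, x2⟩ := ih _ (e ▸ d) (fun P hP => h1 P (b P hP)) c b' rfl
      exact ⟨Q ::ₘ ξ, by simpa using ⟨a, x1⟩, by simpa using x2⟩
  obtain ⟨μ', m1, ⟨m2, rfl⟩ | ⟨m2, rfl⟩⟩ := hσ.exists_split h2 hP (p1.pow j) p4
  · refine k' _ μ' ⟨p1.pow j, p4, m2, (h1 _ hP).1.natDegree_pos, fun a ha => ?_⟩
      (by simp +contextual) m1 (by simp) (by simpa using h)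
    rw [k p1 p2 ha]; simp
  have m3 : dual σ φ ≠ φ := fun e => m2 (by rw [map_pow, e])
  have q1 := monic_dual (σ := σ) p5
  have q2 := hσ.irreducible_dual p1 p5 p2
  refine k' (φ ^ j * dual σ (φ ^ j)) μ' ⟨(p1.pow j).mul (monic_dual p4), by
    rw [mul_coeff_zero]; exact mul_ne_zero p4 (coeff_zero_dual_ne (p1.pow j) p4), by
      rw [map_mul, hσ.dual_dual (p1.pow j) p4, mul_comm], ?_, fun a ha => (m3 ?_).elim⟩
    (by simp +contextual) m1 (by simp) ?_
  · have := (h1 _ hP).1.natDegree_pos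
    rw [(p1.pow j).natDegree_mul (monic_dual p4)]; omega
  · have k2 : ∀ b : F, b ≠ 0 → dual σ (X - C b) = X - C b := fun b hb => by
      rw [dual_X_sub_C hb, ← eq_inv_of_mul_eq_one_left (nrm hσ hb)]
    rw [eval_mul, mul_eq_zero, map_pow] at ha
    rcases ha with ha | ha
    · rw [k p1 p2 ha] at p5 ⊢
      exact k2 a (by simpa using p5)
    · have h3 := coeff_zero_dual_ne (σ := σ) p1 p5
      have h4 := hσ.dual_dual p1 p5
      rw [k q1 q2 ha] at h3 h4 ⊢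
      rw [← h4, k2 a (by simpa using h3)]
  · rw [Multiset.add_cons]
    refine Blocks.merge (by simpa [add_assoc] using h) ?_
    rw [map_pow]
    exact (isCoprime_of_ne p1 p2 q1 q2 m3.symm).pow

/-- The squares of linear polynomials. -/
noncomputable def jq (Z : Multiset F) : Multiset F[X] := Z.map fun a => (X - C a) ^ 2

theorem atoms_split (hσ : IsBar 2 σ) (h : ∀ Q ∈ ν, At σ Q) : ∃ L Z R, ν = lt L + jq Z + R ∧
    (∀ a ∈ L, a ≠ 0) ∧ (∀ a ∈ Z, a ≠ 0) ∧ ∀ Q ∈ R, At σ Q ∧ 3 ≤ Q.natDegree := by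
  induction ν using Multiset.induction_on with
  | empty => exact ⟨0, 0, 0, rfl, by simp, by simp, by simp⟩
  | cons Q ν ih =>
  obtain ⟨L, Z, R, rfl, h1, h2, h3⟩ := ih fun P hP => h P (Multiset.mem_cons_of_mem hP)
  have hQ := h Q (Multiset.mem_cons_self _ _)
  by_cases h4 : 3 ≤ Q.natDegree
  · exact ⟨L, Z, Q ::ₘ R, by simp, h1, h2, by simpa using ⟨⟨hQ, h4⟩, h3⟩⟩
  obtain ⟨a, ha⟩ : ∃ a, Q.eval a = 0 := by
    by_cases h5 : Q.natDegree = 1
    · exact exists_root_of_degree_eq_one ((degree_eq_iff_natDegree_eq_of_pos one_pos).2 h5)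
    have := hQ.pos
    by_contra! H
    exact absurd ((show Q.natDegree = 2 by omega) ▸ (hσ.odd_of_dual_eq hQ.monic
      ((hQ.monic.irreducible_iff_roots_eq_zero_of_degree_le_three (by omega) (by omega)).2
        (Multiset.eq_zero_of_forall_notMem fun r hr => H r (isRoot_of_mem_roots hr))) hQ.ne
      hQ.dual).1) (by decide)
  have a0 : a ≠ 0 := fun e => hQ.ne (by rw [coeff_zero_eq_eval_zero]; exact e ▸ ha)
  have h5 := hQ.root a ha
  have := hQ.pos
  obtain e | e : Q.natDegree = 1 ∨ Q.natDegree = 2 := by omega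
  · exact ⟨a ::ₘ L, Z, R, by rw [h5, e]; simp [lt], by simpa using ⟨a0, h1⟩, h2, h3⟩
  · exact ⟨L, a ::ₘ Z, R, by rw [h5, e]; simp [jq], h1, by simpa using ⟨a0, h2⟩, h3⟩

end Cfsg.Lib.OreU
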