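import Cfsg.Agent.Lib.OreU.Base

/-! Gauss decompositions of unitary maps with respect to a pair of opposite parabolic subgroups. -/

set_option autoImplicit false

namespace Cfsg.Lib.OreU

open Module Polynomial Matrix Cfsg.Lib.GLC Cfsg.Lib.Unitary Cfsg.Lib.OreC

variable {F V V' : Type*} [Field F] [AddCommGroup V] [Module F V] [AddCommGroup V'] [Module F V']
  {σ : F →+* F} {q : ℕ} {B : V →ₛₗ[σ] V →ₗ[F] F} {B' : V' →ₛₗ[σ] V' →ₗ[F] F}
  {ι κ ι' κ' : Type*} [Fintype ι] [Fintype κ] [Fintype ι'] [Fintype κ']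

theorem exists_lin {U W : Type*} [AddCommGroup U] [Module F U] [AddCommGroup W] [Module F W]
    (P : U →ₗ[F] V) (Q : W →ₗ[F] V) (h : ∀ c, ∃ a, P a = Q c) :
    ∃ ω : W →ₗ[F] U, ∀ c, P (ω c) = Q c := by
  obtain ⟨ω, hω⟩ := Module.projective_lifting_property P.rangeRestrict
    (Q.codRestrict (LinearMap.range P) h) P.surjective_rangeRestrict
  exact ⟨ω, fun c => congrArg Subtype.val (LinearMap.congr_fun hω c)⟩

theorem std_ext (h : IsHerm σ B) {a a' : ι → F} (e : ∀ b, stdForm σ ι b a = stdForm σ ι b a') :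
    a = a' := sub_eq_zero.1 ((isHerm_stdForm h.ne_id h.invol).nondeg_right _ fun b => by
  rw [map_sub, e, sub_self])

theorem std_symm (h : IsHerm σ B) (a b : ι → F) : σ (stdForm σ ι a b) = stdForm σ ι b a :=
  (isHerm_stdForm h.ne_id h.invol).symm a b

variable (B) in
/-- The pairings of a frame. -/
structure Pf (E E' : (ι → F) →ₗ[F] V) (D : (κ → F) →ₗ[F] V) : Prop where
  ee : ∀ a a', B (E a) (E a') = 0
  ff : ∀ b b', B (E' b) (E' b') = 0
  fe : ∀ b a, B (E' b) (E a) = stdForm σ ι b a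
  dd : ∀ c c', B (D c) (D c') = stdForm σ κ c c'
  ed : ∀ a c, B (E a) (D c) = 0
  fd : ∀ b c, B (E' b) (D c) = 0

variable (B) in
/-- A frame: a hyperbolic part and an orthonormal part which span the space. -/
structure Fr (E E' : (ι → F) →ₗ[F] V) (D : (κ → F) →ₗ[F] V) : Prop extends Pf B E E' D where
  top : ∀ v, ∃ a c b, v = E a + D c + E' b

variable {E E' : (ι → F) →ₗ[F] V} {D : (κ → F) →ₗ[F] V}

namespace Pf

variable (h : IsHerm σ B) (H : Pf B E E' D)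
include h H

theorem ef (a b : ι → F) : B (E a) (E' b) = stdForm σ ι a b := by
  rw [← h.symm, H.fe, std_symm h]

theorem de (c : κ → F) (a : ι → F) : B (D c) (E a) = 0 := h.eq_zero_comm.1 (H.ed a c)

theorem df (c : κ → F) (a : ι → F) : B (D c) (E' a) = 0 := h.eq_zero_comm.1 (H.fd a c)

theorem symm : Pf B E' E D := ⟨H.ff, H.ee, H.ef h, H.dd, H.fd, H.ed⟩

theorem inj (a : ι → F) (c : κ → F) (b : ι → F) (e : E a + D c + E' b = 0) :
    a = 0 ∧ c = 0 ∧ b = 0 :=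
  ⟨std_ext h fun z => by simpa [H.fe, H.fd, H.ff] using congrArg (B (E' z)) e,
    std_ext h fun z => by simpa [H.de h, H.dd, H.df h] using congrArg (B (D z)) e,
    std_ext h fun z => by simpa [H.ee, H.ed, H.ef h] using congrArg (B (E z)) e⟩

theorem injective : Function.Injective (E.coprod (D.coprod E')) := LinearMap.ker_eq_bot.1
  (LinearMap.ker_eq_bot'.2 fun ⟨a, c, b⟩ hv => by
    obtain ⟨rfl, rfl, rfl⟩ := H.inj h a c b (by simpa [add_assoc] using hv); rfl)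

theorem fr [Module.Finite F V] (hn : finrank F V = 2 * Fintype.card ι + Fintype.card κ) :
    Fr B E E' D := ⟨H, fun v => by
  obtain ⟨⟨a, c, b⟩, rfl⟩ := (LinearMap.injective_iff_surjective_of_finrank_eq_finrank (by
    simp only [finrank_prod, finrank_fintype_fun_eq_card, hn]; ring)).1 (H.injective h) v
  exact ⟨a, c, b, (add_assoc _ _ _).symm⟩⟩

end Pf

namespace Fr

variable (h : IsHerm σ B) (H : Fr B E E' D)
include h H

theorem symm : Fr B E' E D := ⟨H.toPf.symm h, fun v => by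
  obtain ⟨a, c, b, rfl⟩ := H.top v
  exact ⟨b, c, a, by abel⟩⟩

theorem bijective : Function.Bijective (E.coprod (D.coprod E')) := ⟨H.toPf.injective h, fun v => by
  obtain ⟨a, c, b, rfl⟩ := H.top v; exact ⟨(a, c, b), (add_assoc _ _ _).symm⟩⟩

theorem finrank_eq : finrank F V = 2 * Fintype.card ι + Fintype.card κ := by
  rw [← (LinearEquiv.ofBijective _ (H.bijective h)).finrank_eq]
  simp only [finrank_prod, finrank_fintype_fun_eq_card]; ring

theorem exists_end {W : Type*} [AddCommGroup W] [Module F W] (P R : (ι → F) →ₗ[F] W)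
    (Q : (κ → F) →ₗ[F] W) : ∃ T : V →ₗ[F] W, (∀ a, T (E a) = P a) ∧ (∀ c, T (D c) = Q c) ∧
      ∀ b, T (E' b) = R b := by
  let Φ := LinearEquiv.ofBijective _ (H.bijective h)
  have k : ∀ z, (P.coprod (Q.coprod R) ∘ₗ Φ.symm.toLinearMap) (E.coprod (D.coprod E') z) =
      P.coprod (Q.coprod R) z := fun z => congrArg (P.coprod (Q.coprod R)) (Φ.symm_apply_apply z)
  exact ⟨P.coprod (Q.coprod R) ∘ₗ Φ.symm.toLinearMap, fun a => by simpa using k (a, 0, 0), fun a => by simpa using k (0, a, 0),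
    fun a => by simpa using k (0, 0, a)⟩

theorem un {T : End F V} (H' : Pf B (T ∘ₗ E) (T ∘ₗ E') (T ∘ₗ D)) : Un B T := fun u v => by
  obtain ⟨a, c, b, rfl⟩ := H.top u
  obtain ⟨a', c', b', rfl⟩ := H.top v
  have h1 := H'.ee a a'; have h2 := H'.ff b b'; have h3 := H'.fe b a'; have h4 := H'.dd c c'
  have h5 := H'.ed a c'; have h6 := H'.fd b c'; have h7 := H'.ef h a b'; have h8 := H'.de h c a'
  have h9 := H'.df h c b'
  simp only [LinearMap.comp_apply] at h1 h2 h3 h4 h5 h6 h7 h8 h9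
  simp only [map_add, LinearMap.add_apply, h1, h2, h3, h4, h5, h6, h7, h8, h9, H.ee, H.ff, H.fe,
    H.dd, H.ed, H.fd, H.toPf.ef h, H.toPf.de h, H.toPf.df h]

theorem dec_of {v : V} {b : ι → F} (e : ∀ a, B (E a) v = stdForm σ ι a b) :
    ∃ a c, v = E a + D c + E' b := by
  obtain ⟨a, c, b', rfl⟩ := H.top v
  obtain rfl : b' = b := std_ext h fun z => by simpa [H.ee, H.ed, H.toPf.ef h] using e z
  exact ⟨a, c, rfl⟩

theorem tri {T : End F V} {A A' : End F (ι → F)} {C : End F (κ → F)} (h1 : ∀ a, T (E a) = E (A a))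
    (h2 : ∀ c, ∃ a, T (D c) = E a + D (C c))
    (h3 : ∀ a b, B (E a) (T (E' b)) = stdForm σ ι a (A' b)) : Tri E D E' T A C A' :=
  ⟨H.toPf.inj h, H.top, h1, h2, fun b => H.dec_of h fun a => h3 a b⟩

end Fr

variable (B) in
/-- `g` lies in the big cell of a frame, with Levi components `l` and `ρ`. -/
def Dec (g : End F V) (l : End F (ι → F)) (ρ : End F (κ → F)) : Prop :=
  IsUnit l ∧ ∃ E E' D, Fr B E E' D ∧ (∀ a b, B (E' b) (g (E a)) = stdForm σ ι b (l a)) ∧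
    ∀ c, ∃ a b, g (E a + D c) = D (ρ c) + E' b

variable {g : End F V} {l : End F (ι → F)} {ρ : End F (κ → F)}

theorem Fr.exists_rho (h : IsHerm σ B) (hg : Un B g) (H : Fr B E E' D) (hl : IsUnit l)
    (h1 : ∀ a b, B (E' b) (g (E a)) = stdForm σ ι b (l a)) :
    ∃ ρ : End F (κ → F), ∀ c, ∃ a b, g (E a + D c) = D (ρ c) + E' b := by
  obtain ⟨ω, hω⟩ := exists_lin (((-g ∘ₗ E).coprod D).coprod E') (g ∘ₗ D) fun c => by
    obtain ⟨a, c', b, e⟩ := H.top (g (D c))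
    obtain ⟨a', rfl⟩ := ((End.isUnit_iff l).1 hl).2 a
    obtain ⟨b', c'', e'⟩ := (H.symm h).dec_of h (h1 a')
    refine ⟨((-a', c' - c''), b - b'), ?_⟩
    simp only [LinearMap.coprod_apply, LinearMap.neg_apply, LinearMap.comp_apply, map_neg, e, e',
      map_sub]
    abel
  refine ⟨LinearMap.snd F _ _ ∘ₗ LinearMap.fst F _ _ ∘ₗ ω, fun c => ⟨(ω c).1.1, (ω c).2, ?_⟩⟩
  have := hω c
  simp only [LinearMap.coprod_apply, LinearMap.neg_apply, LinearMap.comp_apply] at this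
  rw [map_add, ← this]; simp [add_assoc]

omit [Fintype ι] [Fintype κ] in
theorem exists_omega (h2 : ∀ c, ∃ a b, g (E a + D c) = D (ρ c) + E' b) :
    ∃ ω : (κ → F) →ₗ[F] (ι → F) × (ι → F),
      ∀ c, g (E (ω c).1 + D c) = E' (ω c).2 + D (ρ c) := by
  obtain ⟨ω, hω⟩ := exists_lin ((-g ∘ₗ E).coprod E') (g ∘ₗ D - D ∘ₗ ρ) fun c => by
    obtain ⟨a, b, e⟩ := h2 c
    rw [map_add, ← eq_sub_iff_add_eq'] at e
    exact ⟨(a, b), by simp [e]; abel⟩
  refine ⟨ω, fun c => ?_⟩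
  have := hω c
  simp only [LinearMap.coprod_apply, LinearMap.neg_apply, LinearMap.comp_apply,
    LinearMap.sub_apply] at this
  rw [map_add, ← sub_add_cancel (g (D c)) (D (ρ c)), ← this]; abel

theorem Dec.un (h : IsHerm σ B) (hg : Un B g) (H : Dec B g l ρ) : Un (stdForm σ κ) ρ :=
  fun c c' => by
  obtain ⟨-, E, E', D, H, -, h2⟩ := H
  obtain ⟨a, b, e⟩ := h2 c
  obtain ⟨a', b', e'⟩ := h2 c'
  have := hg (E a + D c) (E a' + D c')
  rw [e, e'] at this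
  simpa [H.ee, H.ff, H.dd, H.ed, H.fd, H.toPf.de h, H.toPf.df h] using this

theorem Dec.finrank_eq (h : IsHerm σ B) (H : Dec B g l ρ) :
    finrank F V = 2 * Fintype.card ι + Fintype.card κ :=
  let ⟨_, _, _, _, H, _⟩ := H; H.finrank_eq h

theorem Dec.exists_xy [DecidableEq ι] [Module.Finite F V] (hσ : IsBar q σ) (h : IsHerm σ B)
    (hg : Un B g) (H : Dec B g l ρ) {y₀ : End F (ι → F)} (hy : IsUnit y₀) {t : End F (κ → F)}
    (ht : Un (stdForm σ κ) t) : ∃ (E E' : (ι → F) →ₗ[F] V) (D : (κ → F) →ₗ[F] V) (y : End F V)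
      (y₁ x₁ : End F (ι → F)), Un B y ∧ Du σ y₀ y₁ ∧ Du σ (l * y₀) x₁ ∧ Tri E D E' y y₀ t y₁ ∧
        Tri E' D E (g * y) x₁ (ρ * t) (l * y₀) := by
  obtain ⟨hl, E, E', D, H, h1, h2⟩ := H
  obtain ⟨y₁, hy₁⟩ := exists_du hσ hy
  obtain ⟨x₁, hx₁⟩ := exists_du hσ (hl.mul hy)
  obtain ⟨k, -, k1, -⟩ := hg.exists_inv h
  obtain ⟨ω, h3⟩ := exists_omega h2
  obtain ⟨y, y1, y2, y3⟩ := H.exists_end h (E ∘ₗ y₀) (k ∘ₗ E' ∘ₗ x₁)
    (E ∘ₗ LinearMap.fst F _ _ ∘ₗ ω ∘ₗ t + D ∘ₗ t)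
  simp only [LinearMap.comp_apply, LinearMap.add_apply, LinearMap.fst_apply] at y1 y2 y3
  have h4 : ∀ a b, B (k (E' (x₁ b))) (E (y₀ a)) = stdForm σ ι b a := fun a b => by
    rw [← hg, k1, h1]; exact hx₁.symm hσ b a
  have hu : Un B y := H.un h ⟨fun a a' => by simp [y1, H.ee], fun b b' => by
    simp only [LinearMap.comp_apply, y3]; rw [← hg, k1, k1, H.ff], fun b a => by simp [y1, y3, h4],
    fun c c' => by simp [y2, H.ee, H.ed, H.toPf.de h, H.dd, ht c c'],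
    fun a c => by simp [y1, y2, H.ee, H.ed], fun b c => by
      simp only [LinearMap.comp_apply, y2, y3]; rw [← hg, k1, h3]; simp [H.ff, H.fd]⟩
  refine ⟨E, E', D, y, y₁, x₁, hu, hy₁, hx₁, H.tri h y1 (fun c => ⟨_, y2 c⟩) fun a b => ?_,
    (H.symm h).tri h (fun b => by rw [End.mul_apply, y3, k1])
      (fun c => ⟨_, by rw [End.mul_apply, y2, h3]; rfl⟩) fun b a => by
        rw [End.mul_apply, y1, h1]; rfl⟩
  obtain ⟨a, rfl⟩ := ((End.isUnit_iff y₀).1 hy).2 a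
  rw [← y1, hu, hy₁, H.toPf.ef h]

theorem Dec.det [Module.Finite F V] (hσ : IsBar q σ) (h : IsHerm σ B) (hg : Un B g)
    (H : Dec B g l ρ) : LinearMap.det g * σ (LinearMap.det l) =
      LinearMap.det l * LinearMap.det ρ := by
  classical
  obtain ⟨E, E', D, y, y₁, x₁, -, d1, d2, t1, t2⟩ := H.exists_xy hσ h hg isUnit_one un_one
  have h1 := t1.det
  have h2 := t2.det
  have h3 : σ (LinearMap.det l) ≠ 0 := by simpa using (H.1.map LinearMap.det).ne_zero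
  simp only [d1.det hσ, d2.det hσ, map_one, mul_one, inv_one, map_mul] at h1 h2
  rw [h1, mul_one] at h2
  rw [h2]; field_simp

theorem Dec.cu [Module.Finite F V] (hσ : IsBar q σ) (h : IsHerm σ B) (hg : Un B g)
    (H : Dec B g l ρ) {y₀ : End F (ι → F)} {t : End F (κ → F)} (ht : Un (stdForm σ κ) t)
    {M P : F[X]} (h0 : M.coeff 0 ≠ 0) (hM : aeval y₀ M = 0) (hP : aeval t P = 0)
    (c1 : IsCoprime M (dual σ M)) (c2 : IsCoprime M P) (c3 : IsCoprime P (dual σ M))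
    (s1 : Sim (l * y₀) y₀) (s2 : Sim (ρ * t) t)
    (hd : LinearMap.det y₀ * LinearMap.det t = σ (LinearMap.det y₀))
    (hc : detC y₀ = ⊤ ∨ detC t = ⊤) : Cu q g := by
  classical
  have hy : IsUnit y₀ := (blocks_typ _).isUnit_iff.2 fun Q hQ =>
    coeff_zero_ne_of_dvd ((blocks_typ _).aeval_eq_zero_iff.1 hM Q hQ) h0
  obtain ⟨E, E', D, y, y₁, x₁, hu, d1, d2, t1, t2⟩ := H.exists_xy hσ h hg hy ht
  have hM' := (s1.aeval M).eq_zero_iff.2 hM
  have e1 := t1.sim hM hP (d1.aeval hσ hM) c2 c1 c3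
  have e2 := t2.sim (d2.aeval hσ hM') ((s2.aeval P).eq_zero_iff.2 hP) hM' c3.symm c1.symm c2.symm
  refine cu_of_pair hσ h hg hu (e2.trans (Sim.trans ?_ e1.symm)) ?_ ?_
  · refine ((d2.sim hσ d1 s1).prodMap (s2.prodMap s1)).trans ((sim_prodComm _ _).trans ?_)
    exact (((sim_prodComm _ _).prodMap (Sim.refl _)).trans (sim_prodAssoc _ _ _))
  · have h3 : σ (LinearMap.det y₀) ≠ 0 := by simpa using (hy.map LinearMap.det).ne_zero
    rw [t1.det, d1.det hσ, ← mul_assoc, hd, mul_inv_cancel₀ h3]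
  · rw [e1.detC_eq]
    exact detC_prodMap (hc.imp id fun h => detC_prodMap (.inl h))

/-- The left component. -/
abbrev pl (F ι ι' : Type*) [Field F] : (ι ⊕ ι' → F) →ₗ[F] (ι → F) := LinearMap.funLeft F F Sum.inl

/-- The right component. -/
abbrev pr (F ι ι' : Type*) [Field F] : (ι ⊕ ι' → F) →ₗ[F] (ι' → F) := LinearMap.funLeft F F Sum.inr

theorem std_sum (u v : ι ⊕ ι' → F) : stdForm σ (ι ⊕ ι') u v =
    stdForm σ ι (pl F ι ι' u) (pl F ι ι' v) + stdForm σ ι' (pr F ι ι' u) (pr F ι ι' v) := by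
  simp [stdForm_apply]

omit [Fintype ι] [Fintype ι'] in
theorem exists_sum (T : End F ((ι → F) × (ι' → F))) : ∃ L : End F (ι ⊕ ι' → F), Sim L T ∧
    ∀ u, pl F ι ι' (L u) = (T (pl F ι ι' u, pr F ι ι' u)).1 ∧
      pr F ι ι' (L u) = (T (pl F ι ι' u, pr F ι ι' u)).2 :=
  ⟨(LinearEquiv.sumArrowLequivProdArrow ι ι' F F).symm.conjAlgEquiv F T, (sim_conj _ _).symm,
    fun _ => ⟨rfl, rfl⟩⟩

theorem Dec.comp (h : IsHerm σ B) (H : Dec B g l ρ) {l' : End F (ι' → F)} {ρ' : End F (κ' → F)}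
    (H' : Dec (stdForm σ κ) ρ l' ρ') : ∃ L : End F (ι ⊕ ι' → F), Dec B g L ρ' ∧
      LinearMap.det L = LinearMap.det l * LinearMap.det l' ∧
      ∀ c : F, L = c • 1 → l = c • 1 ∧ l' = c • 1 := by
  obtain ⟨hl, E, E', D, H, h1, h2⟩ := H
  obtain ⟨hl', E₁, E₁', D₁, H', h1', h2'⟩ := H'
  have h' : IsHerm σ (stdForm σ κ) := isHerm_stdForm h.ne_id h.invol
  obtain ⟨ω, h3⟩ := exists_omega h2
  obtain ⟨p, p1, p2, p3⟩ := H.exists_end h 0 0 LinearMap.id
  obtain ⟨π, q1, q2, q3⟩ := H'.exists_end h' LinearMap.id 0 0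
  have hp : ∀ b v, B (D (E₁' b)) v = stdForm σ ι' b (π (p v)) := fun b v => by
    obtain ⟨a, c, b', rfl⟩ := H.top v
    obtain ⟨a', c', b'', rfl⟩ := H'.top c
    simp [p1, p2, p3, q1, q2, q3, H.dd, H.toPf.de h, H.toPf.df h, H'.fe, H'.ff, H'.fd]
  let N : End F ((ι → F) × (ι' → F)) := (l ∘ₗ .fst F _ _).prod
    (π ∘ₗ p ∘ₗ g ∘ₗ E ∘ₗ .fst F _ _ + l' ∘ₗ .snd F _ _)
  let S : End F ((ι → F) × (ι' → F)) :=
    (.fst F _ _ - .fst F _ _ ∘ₗ ω ∘ₗ E₁ ∘ₗ .snd F _ _ : _ →ₗ[F] (ι → F)).prod (.snd F _ _)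
  obtain ⟨L, s, hL⟩ := exists_sum (N * S)
  have hd : LinearMap.det L = LinearMap.det l * LinearMap.det l' := by
    rw [s.det_eq, map_mul, det_eq_of_exact (a := l') (b := N) (c := l) LinearMap.inr_injective
      LinearMap.fst_surjective (LinearMap.range_inr F _ _) (by simp [N]) (by simp [N]),
      det_eq_of_exact (a := 1) (b := S) (c := 1) LinearMap.inl_injective
      LinearMap.snd_surjective (LinearMap.range_inl F _ _) (by simp [S]) (by simp [S])]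
    simp [mul_comm]
  refine ⟨L, ⟨(LinearMap.isUnit_iff_isUnit_det L).2 (hd ▸ (hl.map _).mul (hl'.map _)),
    E ∘ₗ pl F ι ι' + D ∘ₗ E₁ ∘ₗ pr F ι ι', E' ∘ₗ pl F ι ι' + D ∘ₗ E₁' ∘ₗ pr F ι ι', D ∘ₗ D₁,
    ⟨⟨?_, ?_, ?_, ?_, ?_, ?_⟩, fun v => ?_⟩, fun a b => ?_, fun c => ?_⟩, hd, fun c e => ?_⟩
  iterate 6
    intro a b
    simp [std_sum, H.ee, H.ff, H.fe, H.dd, H.ed, H.fd, H.toPf.de h, H.toPf.df h, H'.ee, H'.ff,
      H'.fe, H'.dd, H'.ed, H'.fd]
  · obtain ⟨a, c, b, rfl⟩ := H.top v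
    obtain ⟨a', c', b', rfl⟩ := H'.top c
    exact ⟨Sum.elim a a', c', Sum.elim b b', by
      simp only [LinearMap.add_apply, LinearMap.comp_apply, map_add]
      change _ = E a + D (E₁ a') + _ + (E' b + D (E₁' b')); abel⟩
  · have e : g (E (pl F ι ι' a) + D (E₁ (pr F ι ι' a))) =
        g (E (S (pl F ι ι' a, pr F ι ι' a)).1) + (E' (ω (E₁ (pr F ι ι' a))).2 +
          D (ρ (E₁ (pr F ι ι' a)))) := by
      rw [← h3, ← map_add]; simp [S, ← add_assoc]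
    rw [std_sum, (hL a).1, (hL a).2]
    simp only [LinearMap.add_apply, LinearMap.comp_apply, e]
    simp only [map_add, LinearMap.add_apply, h1, H.ff, H.fd, H.toPf.df h, H.dd, h1']
    rw [hp]; simp [N, S, add_assoc]
  · obtain ⟨a, b, e⟩ := h2' c
    refine ⟨Sum.elim (ω (E₁ a + D₁ c)).1 a, Sum.elim (ω (E₁ a + D₁ c)).2 b, ?_⟩
    have := h3 (E₁ a + D₁ c)
    rw [e, map_add D, ← add_assoc, map_add D] at this
    exact this.trans (by change _ = _ + (E' (ω _).2 + D (E₁' b)); simp; abel)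
  · have e1 := (s.eq_smul_one_iff c).1 e
    have e2 : ∀ a, π (p (g (E a))) = 0 := fun a => by
      simpa [N, S] using congrArg Prod.snd (LinearMap.congr_fun e1 (a, 0))
    exact ⟨LinearMap.ext fun a => by
      simpa [N, S] using congrArg Prod.fst (LinearMap.congr_fun e1 (a, 0)),
      LinearMap.ext fun a => by
        simpa [N, S, e2] using congrArg Prod.snd (LinearMap.congr_fun e1 (0, a))⟩

/-- The orthogonal sum of two forms. -/
def hsum (B : V →ₛₗ[σ] V →ₗ[F] F) (B' : V' →ₛₗ[σ] V' →ₗ[F] F) : V × V' →ₛₗ[σ] V × V' →ₗ[F] F :=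
  (B.comp (LinearMap.fst F V V')).compl₂ (LinearMap.fst F V V') +
    (B'.comp (LinearMap.snd F V V')).compl₂ (LinearMap.snd F V V')

@[simp] theorem hsum_apply (u v : V × V') : hsum B B' u v = B u.1 v.1 + B' u.2 v.2 := rfl

theorem isHerm_hsum (h : IsHerm σ B) (h' : IsHerm σ B') : IsHerm σ (hsum B B') :=
  ⟨h.ne_id, h.invol, fun u v => by simp [h.symm, h'.symm], fun a ha => Prod.ext
    (h.nondeg _ fun v => by simpa using ha (v, 0)) (h'.nondeg _ fun v => by simpa using ha (0, v))⟩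

theorem Un.prodMap {g' : End F V'} (hg : Un B g) (hg' : Un B' g') :
    Un (hsum B B') (g.prodMap g') := fun u v => by simp [hg _ _, hg' _ _]

theorem Dec.sum {g' : End F V'} {l' : End F (ι' → F)} {ρ' : End F (κ' → F)} (H : Dec B g l ρ)
    (H' : Dec B' g' l' ρ') : ∃ (L : End F (ι ⊕ ι' → F)) (R : End F (κ ⊕ κ' → F)),
      Dec (hsum B B') (g.prodMap g') L R ∧ Sim L (l.prodMap l') ∧ Sim R (ρ.prodMap ρ') := by
  obtain ⟨hl, E, E', D, H, h1, h2⟩ := H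
  obtain ⟨hl', E₁, E₁', D₁, H', h1', h2'⟩ := H'
  obtain ⟨L, s, hL⟩ := exists_sum (l.prodMap l')
  obtain ⟨R, s', hR⟩ := exists_sum (ρ.prodMap ρ')
  refine ⟨L, R, ⟨s.isUnit_iff.2 ((LinearMap.isUnit_iff_isUnit_det _).2 ?_),
    (E ∘ₗ pl F ι ι').prod (E₁ ∘ₗ pr F ι ι'), (E' ∘ₗ pl F ι ι').prod (E₁' ∘ₗ pr F ι ι'),
    (D ∘ₗ pl F κ κ').prod (D₁ ∘ₗ pr F κ κ'), ⟨⟨?_, ?_, ?_, ?_, ?_, ?_⟩, fun v => ?_⟩,
    fun a b => ?_, fun c => ?_⟩, s, s'⟩
  · rw [LinearMap.det_prodMap]; exact (hl.map _).mul (hl'.map _)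
  iterate 6
    intro a b
    simp [std_sum, H.ee, H.ff, H.fe, H.dd, H.ed, H.fd, H'.ee, H'.ff, H'.fe, H'.dd, H'.ed, H'.fd]
  · obtain ⟨a, c, b, e⟩ := H.top v.1
    obtain ⟨a', c', b', e'⟩ := H'.top v.2
    exact ⟨Sum.elim a a', Sum.elim c c', Sum.elim b b', Prod.ext e e'⟩
  · simp [std_sum, hL, h1, h1']
  · obtain ⟨a, b, e⟩ := h2 (pl F κ κ' c)
    obtain ⟨a', b', e'⟩ := h2' (pr F κ κ' c)
    refine ⟨Sum.elim a a', Sum.elim b b', Prod.ext ?_ ?_⟩
    · exact e.trans (congrArg (D · + E' b) (hR c).1.symm)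
    · exact e'.trans (congrArg (D₁ · + E₁' b') (hR c).2.symm)

/-- The trivial decomposition. -/
theorem dec_std (ρ : End F (κ → F)) : Dec (stdForm σ κ) ρ (1 : End F (Empty → F)) ρ :=
  ⟨isUnit_one, 0, 0, LinearMap.id, ⟨⟨by simp, by simp, by simp [stdForm_apply], by simp, by simp,
    by simp⟩, by simp⟩, by simp [stdForm_apply], by simp⟩

end Cfsg.Lib.OreU
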