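import Cfsg.Agent.Lib.OreU.Peel
import Cfsg.Agent.Lib.GLC.ClassNum

/-! Factorisations of the Levi component, and the case `q ≥ 3`. -/

set_option autoImplicit false

namespace Cfsg.Lib.OreU

open Module Polynomial Matrix Cfsg.Lib.GLC Cfsg.Lib.Unitary Cfsg.Lib.OreC Cfsg.Lib.Ore

universe u

variable {F U W : Type u} [Field F] [AddCommGroup U] [Module F U] [AddCommGroup W] [Module F W]
  {σ : F →+* F} {q : ℕ} {l : End F U}

/-- The monic quadratic with trace `τ` and norm `δ`. -/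
noncomputable def quad (τ δ : F) : F[X] := X ^ 2 - C τ * X + C δ

theorem quad_monic (τ δ : F) : (quad τ δ).Monic := by unfold quad; monicity!

theorem quad_deg (τ δ : F) : (quad τ δ).natDegree = 2 := by unfold quad; compute_degree!

theorem quad_coeff (τ δ : F) : (quad τ δ).coeff 0 = δ := by simp [quad]

theorem exists_quad [Finite F] (h : 4 ≤ Nat.card F) {δ : F} (hδ : δ ≠ 0) :
    ∃ τ : F, τ ≠ 0 ∧ Irreducible (quad τ δ) := by
  classical
  cases nonempty_fintype F
  by_contra! H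
  have h1 : Function.Surjective fun a : F => a + δ / a := fun τ => by
    by_cases e : τ = 0
    · exact ⟨0, by simp [e]⟩
    have h2 := H τ e
    rw [(quad_monic τ δ).irreducible_iff_roots_eq_zero_of_degree_le_three (by rw [quad_deg])
      (by rw [quad_deg]; omega)] at h2
    obtain ⟨a, ha⟩ := Multiset.exists_mem_of_ne_zero h2
    have h3 : a ^ 2 - τ * a + δ = 0 := by simpa [quad] using isRoot_of_mem_roots ha
    have h4 : a ≠ 0 := fun e => hδ (by simpa [e] using h3)
    exact ⟨a, by field_simp; linear_combination h3⟩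
  have h2 : ∀ a : F, a ≠ 0 → a = δ / a := fun a ha => Finite.injective_iff_surjective.2 h1 (by
    simp only [div_div_cancel₀ hδ, add_comm])
  have h3 : (Finset.univ : Finset F) ⊆ {0, 1, -1} := fun a _ => by
    by_cases e : a = 0
    · simp [e]
    have h4 := h2 a e
    rw [← div_one δ, ← h2 1 one_ne_zero, eq_div_iff e, mul_self_eq_one_iff] at h4
    simp [h4]
  have := (Finset.card_le_card h3).trans Finset.card_le_three
  rw [Finset.card_univ, ← Nat.card_eq_fintype_card] at this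
  omega

theorem blocks_of_irr [Module.Finite F U] {P : F[X]} (h1 : P.Monic) (h2 : Irreducible P)
    (hd : P.natDegree = finrank F U) (h : aeval l P = 0) : Blocks l {P} := by
  have e : typ l = .replicate (typ l).card P := Multiset.eq_replicate_card.2 fun Q hQ =>
    eq_of_monic_of_associated (typ_pp l Q hQ).monic h1 ((h2.dvd_iff.1
      ((blocks_typ l).aeval_eq_zero_iff.1 h Q hQ)).resolve_left fun hu =>
        (typ_pp l Q hQ).natDegree_pos.ne' (natDegree_eq_zero_of_isUnit hu)).symm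
  have h3 := (blocks_typ l).finrank_eq
  rw [e, Multiset.map_replicate, Multiset.sum_replicate, smul_eq_mul, ← hd] at h3
  have h4 := blocks_typ l
  rwa [e, ← Nat.eq_of_mul_eq_mul_right h2.natDegree_pos ((one_mul _).trans h3)] at h4

theorem fac_quad [Finite F] {τ δ s : F} (h0 : τ ≠ 0) (hi : Irreducible (quad τ δ)) (hs : s ≠ 2) :
    Fac (toLin' !![0, -1; 1, s]) (quad τ δ) := by
  cases nonempty_fintype F
  obtain ⟨a, c, h⟩ : ∃ a c : F, a ^ 2 + s * a * c + c ^ 2 - τ * a + τ * (1 - s) * c + δ = 0 := by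
    by_cases h2 : (2 : F) = 0
    · haveI : CharP F 2 := (CharP.charP_iff_prime_eq_zero Nat.prime_two).2 h2
      obtain ⟨a, ha⟩ := surjective_frobenius F 2 (-((τ / s) ^ 2 + τ * (1 - s) * (τ / s) + δ))
      rw [frobenius_def] at ha
      exact ⟨a, τ / s, by rw [ha, mul_right_comm s, mul_div_cancel₀ _ (h2 ▸ hs)]; ring⟩
    by_cases h3 : s = -2
    · exact ⟨-δ / (2 * τ), -δ / (2 * τ), by rw [h3]; field_simp; ring⟩
    obtain ⟨a, c, h⟩ := FiniteField.exists_root_sum_quadratic (degree_X_pow (R := F) 2)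
      (degree_quadratic (a := 1 - s ^ 2 / 4) (b := τ * (1 - s) + s * τ / 2) (c := δ - τ ^ 2 / 4)
        fun e => by
          have h4 : (4 : F) ≠ 0 := by rw [show (4 : F) = 2 * 2 by norm_num]; simpa
          field_simp at e
          exact (mul_ne_zero (sub_ne_zero.2 hs) (sub_ne_zero.2 h3)) (by linear_combination -e))
      (FiniteField.odd_card_of_char_ne_two fun e => h2 (by
        simpa [e] using ringChar.Nat.cast_ringChar (R := F)))
    have h4 : (4 : F) ≠ 0 := by rw [show (4 : F) = 2 * 2 by norm_num]; simpa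
    refine ⟨a - (s * c - τ) / 2, c, ?_⟩
    simp only [eval_pow, eval_X, eval_add, eval_mul, eval_C] at h
    rw [← h]; field_simp; ring
  have key : ∀ M : Matrix (Fin 2) (Fin 2) F, M * M - τ • M + δ • 1 = 0 →
      Blocks (toLin' M) {quad τ δ} := fun M h3 => blocks_of_irr (quad_monic _ _) hi
    (by simp [quad_deg]) (by
      rw [aeval_toLin', ← map_zero toLin', ← h3]
      simp [quad, Algebra.algebraMap_eq_smul_one, pow_two])
  refine ⟨toLin' !![a, τ + c - s * (τ - a); c, τ - a], key _ ?_, ?_⟩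
  · ext i j
    fin_cases i <;> fin_cases j <;> simp [Matrix.mul_apply, Fin.sum_univ_two]
    exacts [by linear_combination h, by ring, by ring, by linear_combination h]
  · rw [End.mul_eq_comp, ← toLin'_mul]
    refine key _ ?_
    ext i j
    fin_cases i <;> fin_cases j <;> simp [Matrix.mul_apply, Fin.sum_univ_two]
    exacts [by linear_combination h, by ring, by ring, by linear_combination h]

theorem eval_ne_of_irr {P : F[X]} (h : Irreducible P) (hd : 2 ≤ P.natDegree) (a : F) :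
    P.eval a ≠ 0 := fun e => by
  have : P.natDegree = 1 := natDegree_eq_of_degree_eq_some (degree_eq_one_of_irreducible_of_root h e)
  omega

theorem cop_of_eval {a : F} {P : F[X]} (h : P.eval a ≠ 0) : IsCoprime (X - C a) P :=
  (irreducible_X_sub_C a).coprime_iff_not_dvd.2 fun e => h (dvd_iff_isRoot.1 e)

theorem fac_of_two [Finite F] [Module.Finite F U] {τ δ : F} (h0 : τ ≠ 0)
    (hi : Irreducible (quad τ δ)) {v : U} (hc : Cyc l v) (h2 : finrank F U = 2)
    (hd : LinearMap.det l = 1) (h1 : ∀ z, l z = z → z = 0) : Fac l (quad τ δ) := by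
  obtain ⟨t, ht⟩ := hc.sim_two h2
  rw [hd] at ht
  refine (fac_quad h0 hi fun e => ?_).of_sim ht
  obtain ⟨e', he⟩ := ht.symm
  have := h1 (e' ![-1, 1]) (by rw [← he, e]; congr 1; ext i; fin_cases i <;> simp <;> norm_num)
  simpa using congrFun (e'.map_eq_zero_iff.1 this) 1

theorem level_quad [Finite F] {τ δ : F} (h0 : τ ≠ 0) (hi : Irreducible (quad τ δ))
    (μ : Multiset F[X]) : Level (quad τ δ) μ 2 := fun K R _ _ _ _ A v x y B ν h _ e => by
  haveI := h.fin
  haveI := h.blocks.finite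
  have h7 := h.two
  haveI : Subsingleton R := finrank_zero_iff.1 (show finrank F R = 0 by omega)
  have h8 : ν = 0 := Multiset.eq_zero_of_forall_notMem fun Q hQ => by
    have := natDegree_le_of_mem h.blocks hQ
    have := h.pos Q hQ
    omega
  exact ((fac_of_two h0 hi h.cyc (by omega) (by simpa [LinearMap.det_eq_one_of_subsingleton] using
    h.det) fun z => h.cyc.fix_eq_zero (by omega) (h.beta (by simp [h8]))).of_sim
      sim_prodMap_subsingleton).good (eval_ne_of_irr hi (quad_deg _ _).ge 1) _ _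

variable (σ) in
/-- Irreducible polynomials no two of which are dual. -/
def Ok (μ : Multiset F[X]) : Prop :=
  ∀ P ∈ μ, P.Monic ∧ Irreducible P ∧ P.coeff 0 ≠ 0 ∧ ∀ Q ∈ μ, Q ≠ dual σ P

theorem cop_prod {μ : Multiset F[X]} {Q : F[X]} (h : ∀ P ∈ μ, IsCoprime P Q) :
    IsCoprime μ.prod Q :=
  μ.prod_induction (IsCoprime · Q) (fun _ _ => .mul_left) isCoprime_one_left h

theorem Ok.cop (hσ : IsBar q σ) {μ : Multiset F[X]} (h : Ok σ μ) :
    IsCoprime μ.prod (dual σ μ.prod) := cop_prod fun P hP => by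
  rw [map_multiset_prod]
  refine (cop_prod fun Q hQ => ?_).symm
  obtain ⟨Q, hQ', rfl⟩ := Multiset.mem_map.1 hQ
  obtain ⟨h1, h2, h3, h4⟩ := h Q hQ'
  exact isCoprime_of_ne (monic_dual h3) (hσ.irreducible_dual h1 h3 h2) (h P hP).1 (h P hP).2.1
    (h4 P hP).symm

theorem Ok.coeff {μ : Multiset F[X]} (h : Ok σ μ) : μ.prod.coeff 0 ≠ 0 :=
  μ.prod_induction (fun P => P.coeff 0 ≠ 0) (fun _ _ a b => by simp [a, b]) (by simp)
    fun P hP => (h P hP).2.2.1

theorem cop_norm {M : F[X]} (h : IsCoprime M (dual σ M)) {c : F} (hc : c * σ c = 1) :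
    IsCoprime (X - C c) M := (irreducible_X_sub_C c).coprime_iff_not_dvd.2 fun e =>
  (irreducible_X_sub_C c).not_isUnit (h.isUnit_of_dvd' e (by
    have := _root_.map_dvd (dual σ) e
    rwa [dual_X_sub_C (left_ne_zero_of_mul_eq_one hc), ← eq_inv_of_mul_eq_one_left hc] at this))

variable (σ) in
/-- `l = x * y⁻¹` with similar `x`, `y` whose eigenvalues are disjoint from their duals. -/
def Fy [Module.Finite F U] (l : End F U) : Prop := ∃ (y : End F U) (μ : Multiset F[X]), Ok σ μ ∧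
  aeval y μ.prod = 0 ∧ Sim (l * y) y ∧ LinearMap.det y = 1 ∧ detC y = ⊤

theorem exists_mul_sim {V V' : Type*} [AddCommGroup V] [Module F V] [AddCommGroup V'] [Module F V']
    {l : End F V} {l' : End F V'} (e : Sim l l') (y' : End F V') :
    ∃ y : End F V, Sim y y' ∧ Sim (l * y) (l' * y') := by
  obtain ⟨e, he⟩ := e
  exact ⟨e.symm.conjAlgEquiv F y', ⟨e, fun v => by simp⟩, e, fun v => by simp [he]⟩

theorem Fy.of_sim [Module.Finite F U] [Module.Finite F W] {l' : End F W} (h : Fy σ l')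
    (e : Sim l l') : Fy σ l := by
  obtain ⟨y', μ, h1, h2, h3, h4, h5⟩ := h
  obtain ⟨y, e1, e2⟩ := exists_mul_sim e y'
  exact ⟨y, μ, h1, (e1.aeval _).eq_zero_iff.2 h2, e2.trans (h3.trans e1.symm), e1.det_eq ▸ h4,
    e1.detC_eq ▸ h5⟩

theorem ok_quad (hσ : IsBar q σ) {γ : F} (h0 : γ ≠ 0) (h1 : γ * σ γ ≠ 1) {G : F[X]}
    (g1 : G.Monic) (g2 : Irreducible G) (g3 : G.natDegree = 2) (j : ℕ) :
    Ok σ (G ::ₘ .replicate j (X - C γ)) := fun P hP => by
  have g4 : G.coeff 0 ≠ 0 := by rw [coeff_zero_eq_eval_zero]; exact eval_ne_of_irr g2 g3.ge 0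
  rcases Multiset.mem_cons.1 hP with rfl | hP
  · refine ⟨g1, g2, g4, fun Q hQ e => (Multiset.mem_cons.1 hQ).elim (fun e' => ?_) fun hQ => ?_⟩
    · exact absurd (g3 ▸ (hσ.odd_of_dual_eq g1 g2 g4 (e.symm.trans e')).1) (by decide)
    · have := natDegree_dual (σ := σ) g4
      rw [← e, Multiset.eq_of_mem_replicate hQ, natDegree_X_sub_C] at this
      omega
  · obtain rfl := Multiset.eq_of_mem_replicate hP
    refine ⟨monic_X_sub_C _, irreducible_X_sub_C _, by simpa, fun Q hQ e => ?_⟩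
    rw [dual_X_sub_C h0] at e
    rcases Multiset.mem_cons.1 hQ with rfl | hQ
    · simp [e] at g3
    · rw [Multiset.eq_of_mem_replicate hQ, sub_right_inj, C_inj] at e
      exact h1 (by nth_rw 1 [e]; exact inv_mul_cancel₀ (by simpa))

theorem fy_of_fac [Module.Finite F U] (hσ : IsBar q σ) {γ τ : F} (h0 : γ ≠ 0) (h1 : γ * σ γ ≠ 1) {j : ℕ}
    (hi : Irreducible (quad τ (γ ^ (j + 2))⁻¹)) (h : Fac l ((X - 1) ^ j * quad τ (γ ^ (j + 2))⁻¹)) :
    Fy σ l := by
  have := hσ.finite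
  obtain ⟨c, b1, b2⟩ := h
  have b3 := b1.split (by rw [← C_1]; exact (monic_X_sub_C _).pow _) (quad_monic _ _) (by
    rw [← C_1]; exact (cop_of_eval (eval_ne_of_irr hi (quad_deg _ _).ge 1)).pow_left)
  have h2 := b3.finrank_eq
  have g2 := irreducible_scl h0 hi
  refine ⟨γ • c, _, ok_quad hσ h0 h1 ((monic_scaleRoots_iff γ).2 (quad_monic _ _)) g2
    ((natDegree_scaleRoots _ _).trans (quad_deg _ _)) j, (b1.smul h0).aeval_eq_zero_iff.2 ?_,
    by rw [mul_smul_comm]; exact (b2.sim b1).smul γ, ?_, detC_eq_top (b3.smul h0) g2 (by simp)⟩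
  · have : scl γ (X - 1) = X - C γ := by
      rw [← C_1, ← one_mul γ]; exact (one_mul γ).symm ▸ X_sub_C_scaleRoots 1 γ
    simp [this]; exact (mul_comm _ _).dvd
  · rw [← C_1] at h2 b3
    simp only [Multiset.map_cons, natDegree_pow, natDegree_X_sub_C, quad_deg] at h2
    rw [LinearMap.det_smul, b3.det_eq, h2]
    simp only [Multiset.map_cons, quad_coeff]
    simp [coeff_zero_eq_eval_zero, pow_add, mul_assoc]
    rw [← mul_assoc ((-1) ^ j), ← mul_pow]; simp [h0]

theorem four_le (hσ : IsBar q σ) : 4 ≤ Nat.card F :=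
  hσ.card ▸ Nat.pow_le_pow_left hσ.two_le 2

theorem fy_transv [Module.Finite F U] (hσ : IsBar q σ) {γ : F} (h0 : γ ≠ 0) (h1 : γ * σ γ ≠ 1)
    {k : ℕ} (hm : finrank F U = k + 3) (h2 : (l - 1) ^ 2 = 0)
    (h3 : finrank F (LinearMap.ker (l - 1)) = k + 2) : Fy σ l := by
  have := hσ.finite
  obtain ⟨τ, -, hi⟩ := exists_quad (four_le hσ) (inv_ne_zero (pow_ne_zero (k + 1) h0))
  obtain ⟨c, hc⟩ := exists_blocks_of_finrank (V := Fin 2 → F) (μ := {quad τ (γ ^ (k + 1))⁻¹})
    (by simp [quad_monic]) (by simp [quad_deg])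
  let φ : (Fin (k + 1) → F) × (Fin 2 → F) →ₗ[F] F := LinearMap.proj 0 ∘ₗ .snd F _ _
  let T : End F ((Fin (k + 1) → F) × (Fin 2 → F)) := φ.smulRight (Pi.single 0 1, 0)
  have h4 : aeval c (quad τ (γ ^ (k + 1))⁻¹) = 0 := hc.aeval_eq_zero_iff.2 (by simp)
  have h5 : aeval (γ • 1 : End F (Fin (k + 1) → F)) (X - C γ) = 0 := by
    simp [Algebra.algebraMap_eq_smul_one]
  refine Fy.of_sim (l' := 1 + T) ⟨(γ • 1 : End F _).prodMap c, _,
    ok_quad hσ h0 h1 (quad_monic _ _) hi (quad_deg _ _) 1, ?_, sim_of_exact LinearMap.inl_injective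
      LinearMap.snd_surjective (LinearMap.range_inl F _ _) (by simp [T, φ]) (by simp [T, φ]) h5 h4
      (cop_of_eval (eval_ne_of_irr hi (quad_deg _ _).ge γ)), ?_,
    detC_prodMap (.inr (detC_eq_top hc hi (by simp)))⟩ (sim_of_sq_eq_zero h2 ?_ (by simp [hm]) ?_)
  · rw [aeval_prodMap, Multiset.replicate_one, Multiset.prod_cons, Multiset.prod_singleton,
      map_mul, map_mul, h4, h5]
    simp
  · rw [LinearMap.det_prodMap, hc.det_eq, det_smul_one]; simp [quad_coeff, h0]
  · rw [add_sub_cancel_left]; ext <;> simp [T, φ, pow_two]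
  · have h6 := T.finrank_range_add_finrank_ker
    rw [LinearMap.range_smulRight_apply (fun e => by
      simpa [φ] using LinearMap.congr_fun e (0, 1)), finrank_span_singleton (by simp)] at h6
    simp only [finrank_prod, finrank_fin_fun] at h6
    rw [add_sub_cancel_left, h3]; omega

theorem fy_main [Module.Finite F U] (hσ : IsBar q σ) {γ : F} (h0 : γ ≠ 0) (h1 : γ * σ γ ≠ 1)
    (h2 : σ γ ≠ γ) (hm : 2 ≤ finrank F U) (hd : LinearMap.det l = 1)
    (hs : ∀ c : F, l = c • 1 → c = 1) : Fy σ l := by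
  have := hσ.finite
  obtain ⟨j, hj⟩ : ∃ j, finrank F U = j + 2 := ⟨_, (Nat.sub_add_cancel hm).symm⟩
  obtain ⟨τ, t0, hi⟩ := exists_quad (four_le hσ) (inv_ne_zero (pow_ne_zero (j + 2) h0))
  have hF : ∀ a b c : F, ∃ t, t ≠ a ∧ t ≠ b ∧ t ≠ c := fun a b c => by
    classical
    cases nonempty_fintype F
    by_contra! H
    have := (Finset.card_le_card (s := Finset.univ) (t := {a, b, c}) fun t _ => by
      have := H t; simp; tauto).trans Finset.card_le_three
    have := four_le hσ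
    rw [Nat.card_eq_fintype_card, ← Finset.card_univ] at this
    omega
  by_cases h3 : ∀ c : F, l ≠ c • 1
  swap
  · push Not at h3
    obtain ⟨c, h3⟩ := h3
    obtain rfl := hs c h3
    have h4 : ((X - 1) ^ j * quad τ (γ ^ (j + 2))⁻¹).Monic := by
      rw [← C_1]; exact ((monic_X_sub_C _).pow _).mul (quad_monic _ _)
    obtain ⟨c, hc⟩ := exists_blocks_of_finrank (V := U) (μ := {_}) (by simpa using h4) (by
      rw [← C_1, hj, Multiset.map_singleton, ((monic_X_sub_C _).pow _).natDegree_mul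
        (quad_monic _ _)]; simp [quad_deg, -map_one])
    exact fy_of_fac hσ h0 h1 hi ⟨c, hc, by simpa [h3]⟩
  have h4 := fun Q hQ => (typ_pp l Q hQ).natDegree_pos
  obtain ⟨P, ν, h5, b, h6⟩ := exists_blocks_two (blocks_typ l) h4 h3
  have h7 := fun Q hQ => h4 Q (Multiset.mem_of_le h5 hQ)
  by_cases h8 : (∀ Q ∈ ν, Q = X - 1) → P ≠ (X - 1) ^ 2
  · obtain ⟨j', e, H⟩ := Level.fac (quad_monic _ _) b h6 h7 hd h8 (Level.chain
      (eval_ne_of_irr hi (quad_deg _ _).ge 1) le_rfl (fun _ => hF)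
      (fun _ => let ⟨t, a, b, _⟩ := hF 0 1 1; ⟨t, a, b⟩) (level_quad t0 hi ν) hm)
    obtain rfl : j' = j := by rw [quad_deg] at e; omega
    exact fy_of_fac hσ h0 h1 hi H
  push Not at h8
  obtain ⟨h8, rfl⟩ := h8
  rw [Multiset.eq_replicate_card.2 h8, ← C_1] at b
  have b' : Blocks l (jt 1 (2 ::ₘ .replicate ν.card 1)) := by simpa [jt] using b
  have h9 := b'.jt_sum
  rcases j with _ | j
  · have b1 : Blocks l {(X - C 1) ^ 2} := by
      rwa [show ν.card = 0 by simp at h9; omega] at b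
    have hP : ((X - C 1) ^ 2 : F[X]).Monic := (monic_X_sub_C _).pow _
    haveI := hP.finite_adjoinRoot
    have e1 := b1.sim (blocks_cyc hP)
    obtain ⟨t, e2⟩ := (cyc_one _).sim_two (e1.finrank_eq ▸ hj)
    rw [← e1.det_eq, hd] at e2
    have h10 : γ ≠ γ⁻¹ := fun e => h2 (by
      have : γ * γ = 1 := by nth_rw 2 [e]; exact mul_inv_cancel₀ h0
      rcases mul_self_eq_one_iff.1 this with rfl | rfl <;> simp)
    obtain ⟨c, b2, b3⟩ := (fac_two h0 h10 t).of_sim (e1.trans e2)
    have b4 := b2.split (monic_X_sub_C _) (monic_X_sub_C _)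
      (isCoprime_X_sub_C_of_isUnit_sub (sub_ne_zero.2 h10).isUnit)
    have h11 : σ γ ≠ 0 := by simpa
    refine ⟨c, {X - C γ, X - C γ⁻¹}, fun P hP => ?_, b2.aeval_eq_zero_iff.2 (by simp), b3.sim b2,
      by simp [b4.det_eq, hj, h0], detC_eq_top b4 (irreducible_X_sub_C γ) (by simp)⟩
    simp only [Multiset.insert_eq_cons, Multiset.mem_cons, Multiset.mem_singleton] at hP
    rcases hP with rfl | rfl <;> refine ⟨monic_X_sub_C _, irreducible_X_sub_C _, by simpa, ?_⟩
    · simp only [dual_X_sub_C h0]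
      simpa [h2.symm] using fun e => h1 (by nth_rw 1 [e]; exact inv_mul_cancel₀ h11)
    · simp only [dual_X_sub_C (inv_ne_zero h0)]
      simpa [h2.symm] using fun e => h1 (by rw [← e]; exact mul_inv_cancel₀ h0)
  · refine fy_transv hσ h0 h1 hj (by simpa using b'.jt_pow_eq_zero_iff.2 (by
      simp +contextual [Multiset.mem_replicate])) ?_
    have := b'.jt_finrank_ker_one (by simp +contextual [Multiset.mem_replicate])
    rw [one_smul] at this
    simp only [Multiset.card_cons, Multiset.card_replicate, Multiset.sum_cons,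
      Multiset.sum_replicate, smul_eq_mul] at this h9
    omega

theorem cu_smul (hσ : IsBar q σ) {n : ℕ} (hn : n ≠ 0) {z : F} (h1 : z * σ z = 1) (h2 : z ^ n = 1) :
    Cu q (z • 1 : End F (Fin n → F)) := by
  have := hσ.finite
  have hz := left_ne_zero_of_mul_eq_one h1
  obtain ⟨r, hr⟩ := orderOf_dvd_of_pow_eq_one h2
  have hm : 0 < orderOf z := (isOfFinOrder_iff_pow_eq_one.2 ⟨_, hn.bot_lt, h2⟩).orderOf_pos
  have hm' : ((orderOf z : ℕ) : F) ≠ 0 := fun e => by
    obtain ⟨k, hk⟩ := orderOf_dvd_of_pow_eq_one (hσ.norm_eq z ▸ h1)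
    simpa [e, hσ.cast_q] using congrArg (Nat.cast : ℕ → F) hk
  have h3 := pow_orderOf_eq_one z
  generalize orderOf z = m at hr hm hm' h3
  have hc : (-(-1) ^ m : F) ≠ 0 := by simp
  obtain ⟨t, b⟩ := hσ.exists_su_blocks (n := n) (μ := .replicate r (X ^ m - C (-(-1) ^ m)))
    (fun P hP => Multiset.eq_of_mem_replicate hP ▸ ⟨monic_X_pow_sub_C _ hm.ne', by
      simp [coeff_X_pow, hm.ne, -map_neg, -map_pow]⟩) (by simp [hr, mul_comm, -map_neg, -map_pow])
    (by simp only [Multiset.map_replicate, dual_X_pow_sub_C hc hm.ne']; simp [← inv_pow])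
    (by simp [coeff_X_pow, hm.ne, hr, pow_mul, ← mul_pow, -map_neg, -map_pow])
  haveI : Nonempty (Fin n) := ⟨⟨0, hn.bot_lt⟩⟩
  refine cu_of_pair (y := toLin' t.1.1) hσ hσ.isHerm (fun u v => by simp [← mul_assoc, h1]) (hσ.mem_SU.1 t.2) ?_
    (by simp) (detC_eq_top_of_isSemisimple (isSemisimple_of_pow_eq hm' hc
      (b.pow_eq_smul_one_iff.2 fun P hP => (Multiset.eq_of_mem_replicate hP).dvd)))
  rw [smul_one_mul]
  suffices e : scl z (X ^ m - C (-(-1) ^ m)) = X ^ m - C (-(-1) ^ m) from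
    (b.smul hz).sim (by rwa [Multiset.map_replicate, e])
  ext i
  change (scaleRoots _ z).coeff i = _
  rw [coeff_scaleRoots, natDegree_X_pow_sub_C, coeff_sub, coeff_X_pow, coeff_C]
  split_ifs with h4 h5 h5 <;> simp_all

theorem cu_of_three (hσ : IsBar q σ) (hq : q ≠ 2) {n : ℕ} (hn : 3 ≤ n) {g : End F (Fin n → F)}
    (hg : Un (stdForm σ (Fin n)) g) (hd : LinearMap.det g = 1) : Cu q g := by
  classical
  have := hσ.finite
  have h := hσ.isHerm (ι := Fin n)
  by_cases hs : ∀ c : F, g ≠ c • 1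
  swap
  · push Not at hs
    obtain ⟨c, rfl⟩ := hs
    exact cu_smul hσ (by omega) (by
      simpa [stdForm_single_left, mul_comm] using hg (Pi.single ⟨0, by omega⟩ 1)
        (Pi.single ⟨0, by omega⟩ 1)) (by simpa [det_smul_one] using hd)
  obtain ⟨γ, g0, hγ⟩ := exists_orderOf_eq (K := F) (m := q ^ 2 - 1) (by rw [hσ.card])
  obtain ⟨p, rfl⟩ : ∃ p, q = p + 3 := ⟨q - 3, by have := hσ.two_le; omega⟩
  have e0 : (p + 3) ^ 2 - 1 = (p + 2) * (p + 4) := by
    rw [Nat.sub_eq_iff_eq_add (Nat.one_le_pow _ _ (by omega))]; ring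
  have g1 : γ * σ γ ≠ 1 := fun e => by
    have := Nat.le_of_dvd (by omega) (orderOf_dvd_of_pow_eq_one (hσ.norm_eq γ ▸ e))
    rw [hγ, e0] at this; nlinarith
  have g2 : σ γ ≠ γ := fun e => by
    have := Nat.le_of_dvd (by omega) (orderOf_dvd_of_pow_eq_one ((hσ.fixed_iff g0).1 e))
    rw [hγ, e0, show p + 3 - 1 = p + 2 from rfl] at this; nlinarith
  obtain ⟨ι, _, κ, _, L, _, H, l1, l2⟩ := peel_aux hσ hγ n g 1 hg (.inl rfl) (by simpa) hs
  simp only [mul_one, or_self] at l1 l2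
  by_cases hm : 2 ≤ Fintype.card ι
  · obtain ⟨y, μ, y1, y2, y3, y4, y5⟩ := fy_main hσ g0 g1 g2 (by simpa) l1 l2
    have c1 := y1.cop hσ
    refine H.cu hσ h hg un_one (P := X - C 1) y1.coeff y2 (by simp) c1
      (cop_norm c1 (by simp)).symm ?_ y3 (by rw [one_mul]) (by simp [y4]) (.inl y5)
    have h1 : μ.prod.Monic := monic_multiset_prod_of_monic _ id (fun P hP => (y1 P hP).1) |>
      (by simpa using ·)
    exact cop_norm (by rw [hσ.dual_dual h1 y1.coeff]; exact c1.symm) (by simp)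
  have h1 : Fintype.card ι = 1 := by have := Fintype.card_pos (α := ι); omega
  have h2 := H.finrank_eq h
  obtain ⟨i⟩ : Nonempty κ := Fintype.card_pos_iff.1 (by simp at h2; omega)
  have g3 : σ γ ≠ 0 := by simpa
  have g4 : σ γ / γ * σ (σ γ / γ) = 1 := by rw [map_div₀, hσ.invol]; field_simp
  obtain ⟨t, t1, t2, t3, t4, t5⟩ := (hσ.isHerm (ι := κ)).exists_quasiReflection
    (z := Pi.single i 1) (by simp [stdForm_single_left]) g4
  have c1 : IsCoprime (X - C γ) (dual σ (X - C γ)) := by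
    rw [dual_X_sub_C g0]
    exact isCoprime_X_sub_C_of_isUnit_sub (sub_ne_zero.2 fun e => g1 (by
      nth_rw 1 [e]; exact inv_mul_cancel₀ g3)).isUnit
  have c2 : IsCoprime (dual σ (X - C γ)) (dual σ (dual σ (X - C γ))) := by
    rw [hσ.dual_dual (monic_X_sub_C γ) (by simpa)]; exact c1.symm
  have b : Blocks (γ • 1 : End F (ι → F)) {X - C γ} :=
    (sim_smul_one (by simp [h1]) γ).blocks (blocks_smul_one γ)
  refine H.cu hσ h hg (y₀ := γ • 1) (t := t) t1 (M := X - C γ)
    (P := (X - C (σ γ / γ)) * (X - C 1)) (by simpa) (b.aeval_eq_zero_iff.2 (by simp)) ?_ c1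
    ((cop_norm c1 g4).mul_left (cop_norm c1 (by simp))).symm
    ((cop_norm c2 g4).mul_left (cop_norm c2 (by simp)))
    (by rw [eq_one_of_finrank_eq_one (by simpa) l1, one_mul]) (by rw [one_mul])
    (by rw [t2, det_smul_one]; simp [h1, mul_div_cancel₀ _ g0])
    (.inl (detC_eq_top b (irreducible_X_sub_C γ) (by simp)))
  refine LinearMap.ext fun v => ?_
  have := t5 v
  rw [← sub_eq_iff_eq_add'] at this
  simp [Algebra.algebraMap_eq_smul_one, this, t3]

end Cfsg.Lib.OreU
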