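import Cfsg.Agent.Lib.OreU.Two

/-! The field with four elements: the basic decompositions. -/

set_option autoImplicit false

namespace Cfsg.Lib.OreU

open Module Polynomial Matrix Cfsg.Lib.GLC Cfsg.Lib.Unitary Cfsg.Lib.Ore

universe u

variable {F : Type u} [Field F] {σ : F →+* F} {ν : Multiset F[X]} {P A : F[X]}

theorem blocks_unit (a : F) : Blocks (a • 1 : End F (Unit → F)) {X - C a} :=
  (sim_smul_one (by simp) a).blocks (blocks_smul_one a)

theorem blocks_reg {V : Type*} [AddCommGroup V] [Module F V] [Module.Finite F V] {f : End F V}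
    {c : F} {n : ℕ} (h1 : (f - c • 1) ^ (n + 1) = 0) (h2 : (f - c • 1) ^ n ≠ 0)
    (hn : finrank F V = n + 1) : Blocks f {(X - C c) ^ (n + 1)} := by
  obtain ⟨d, d0, e⟩ := exists_jt h1
  have b := e ▸ blocks_typ f
  obtain ⟨a, ha, h3⟩ : ∃ a ∈ d, n < a := by simpa using mt b.jt_pow_eq_zero_iff.2 h2
  obtain ⟨d, rfl⟩ := Multiset.exists_cons_of_mem ha
  have h4 := b.jt_sum
  rw [Multiset.sum_cons] at h4
  obtain rfl : d = 0 := Multiset.eq_zero_of_forall_notMem fun k hk => by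
    have := Multiset.single_le_sum (s := d) (by simp) k hk
    have := d0 k (Multiset.mem_cons_of_mem hk)
    omega
  obtain rfl : a = n + 1 := by simpa [hn] using h4
  simpa [jt] using b

theorem blocks_pair {a b : F} (h : a ≠ b) {M : Matrix (Fin 2) (Fin 2) F} (h1 : M 0 1 ≠ 0)
    (h2 : (M - a • 1) * (M - b • 1) = 0) : Blocks (toLin' M) (lt {a, b}) :=
  (blocks_of_two (by simp) (fun c e => h1 (by simp [toLin'_eq_smul_one_iff.1 e]))
    ((monic_X_sub_C a).mul (monic_X_sub_C b))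
    (by rw [(monic_X_sub_C _).natDegree_mul (monic_X_sub_C _), natDegree_X_sub_C, natDegree_X_sub_C])
    (by simp [aeval_toLin', Algebra.algebraMap_eq_smul_one, h2])).split (monic_X_sub_C a)
    (monic_X_sub_C b) (isCoprime_X_sub_C_of_isUnit_sub (sub_ne_zero.2 h).isUnit)

variable (hσ : IsBar 2 σ)
include hσ

theorem db_lin {a : F} (h : a ≠ 0) : DB σ {X - C a} 0 :=
  have hu : Un (stdForm σ Unit) (a • 1) := fun u v => by simp [← mul_assoc, nrm hσ h]
  ⟨_, _, _, _, _, _, _, _, _, _, _, hσ.isHerm, hu, blocks_unit a, dec_std _, blocks_zero,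
    cube_of_le hσ hu (by simp)⟩

theorem db_zero : DB σ 0 0 :=
  ⟨_, _, _, _, _, _, _, _, _, _, _, hσ.isHerm (ι := Empty), un_one, blocks_zero, dec_std _,
    blocks_zero, one_pow _⟩

theorem db_lt {M : Multiset F} (h : ∀ a ∈ M, a ≠ 0) : DB σ (lt M) 0 := by
  induction M using Multiset.induction_on with
  | empty => exact db_zero hσ
  | cons a M ih =>
    simpa [lt] using (db_lin hσ (h a (by simp))).add
      (ih fun b hb => h b (Multiset.mem_cons_of_mem hb))

theorem db_two (h1 : ∀ P ∈ ν, P.Monic ∧ P.coeff 0 ≠ 0) (h2 : (ν.map natDegree).sum = 2)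
    (h3 : ν.map (dual σ) = ν) : DB σ ν {X - C (ν.map (coeff · 0)).prod⁻¹} := by
  have := hσ.finite
  obtain ⟨g, b⟩ := hσ.exists_gu_blocks h1 h2 h3
  have hu : Un (stdForm σ (Fin 2)) (toLin' g.1.1) := hσ.mem_GU.1 g.2
  have h := hσ.isHerm (ι := Fin 2)
  have d0 := ((hu.isUnit h).map LinearMap.det).ne_zero
  have d1 : (ν.map (coeff · 0)).prod = LinearMap.det (toLin' g.1.1) := by simp [b.det_eq]
  rw [d1]
  suffices ∃ ρ : End F (Fin 0 → F), Dec _ (toLin' g.1.1)
      ((LinearMap.det (toLin' g.1.1))⁻¹ • 1 : End F (Unit → F)) ρ from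
    let ⟨ρ, H⟩ := this
    ⟨_, _, _, _, _, _, _, _, _, _, ρ, h, hu, b, H, blocks_unit _, Subsingleton.elim _ _⟩
  by_cases hs : ∀ c : F, toLin' g.1.1 ≠ c • 1
  · refine peel_two hσ h hu hs (inv_ne_zero d0) (by simp) ?_
    rw [hσ.eq, pow_two, mul_inv_cancel_left₀ d0]
  push Not at hs
  obtain ⟨c, hc⟩ := hs
  obtain ⟨e, e0, e1⟩ := h.exists_isotropic (by simp)
  obtain ⟨f, f1, f2⟩ := h.exists_hyperbolic e0 e1
  have f3 : stdForm σ _ f e = 1 := by rw [← h.symm, f2, map_one]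
  refine dec_one h hu e1 f1 f3 (inv_ne_zero d0) ?_ (by simp)
  rw [hc, det_smul_one] at d0 ⊢
  have c0 : c ≠ 0 := by simpa using d0
  simp [f3, ← inv_eq hσ c0]

theorem db_three (h1 : ∀ P ∈ ν, P.Monic ∧ P.coeff 0 ≠ 0) (h2 : (ν.map natDegree).sum = 3)
    (h3 : ν.map (dual σ) = ν) (h4 : P ∈ ν) (h5 : 2 ≤ P.natDegree) {c : F} (hc : c ≠ 0) :
    DB σ ν {X - C c} := by
  have := hσ.finite
  obtain ⟨g, b⟩ := hσ.exists_gu_blocks h1 h2 h3
  have hu : Un (stdForm σ (Fin 3)) (toLin' g.1.1) := hσ.mem_GU.1 g.2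
  have h := hσ.isHerm (ι := Fin 3)
  obtain ⟨ρ, H⟩ := peel_three h hu (fun a e => by
    have := natDegree_le_of_dvd ((b.aeval_eq_zero_iff (Q := X - C a)).1
      (by simp [e, Algebra.algebraMap_eq_smul_one]) P h4) (X_sub_C_ne_zero a)
    rw [natDegree_X_sub_C] at this
    omega) hc (r := 0) (by simp)
  exact ⟨_, _, _, _, _, _, _, _, _, _, ρ, h, hu, b, H, blocks_unit _,
    cube_of_le hσ (H.un h hu) (by simp)⟩

theorem db_even (hP : P.Monic) (h0 : P.coeff 0 = 1) (hd : dual σ P = P) {m : ℕ}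
    (hn : P.natDegree = 2 * (m + 1)) (hA : A.Monic) (hm : A.natDegree = m + 1)
    (h1 : A.coeff 0 = 1) : DB σ {P} {A} := by
  have := hσ.finite
  have := hP.finite_adjoinRoot
  obtain ⟨B, S⟩ := str_even hσ hP (by simp [h0]) hd hn one_ne_zero (by
    simp only [h0, map_one, inv_one]; linear_combination two0 hσ)
  obtain ⟨l, ρ, H, b⟩ := S.dec_even hn hA hm (by simp [h1]) (by
    simp only [h1, map_one]; linear_combination two0 hσ)
  exact ⟨_, _, _, B, _, _, _, _, _, l, ρ, S.herm, S.un, S.blocks, H, b, Subsingleton.elim _ _⟩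

theorem db_odd (hP : P.Monic) (h0 : P.coeff 0 ≠ 0) (hd : dual σ P = P) {m : ℕ}
    (hn : P.natDegree = 2 * (m + 1) + 1) {c : F} (hc : c ≠ 0) (h : P.eval c ≠ 0) (hA : A.Monic)
    (hm : A.natDegree = m + 1) (h1 : A.coeff 0 ≠ 0) : DB σ {P} {A} := by
  have := hσ.finite
  have := hP.finite_adjoinRoot
  obtain ⟨B, v, κ, S⟩ := str_odd hσ hP h0 hd hn (nrm hσ hc) h
  obtain ⟨l, ρ, H, b⟩ := S.dec_odd hn hA hm h1
  exact ⟨_, _, _, B, _, _, _, _, _, l, ρ, S.herm, S.un, S.blocks, H, b,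
    cube_of_le hσ (H.un S.herm S.un) (by simp)⟩

theorem db_even' (hP : P.Monic) (h0 : P.coeff 0 ≠ 0) (hd : dual σ P = P) {m : ℕ}
    (hn : P.natDegree = 2 * (m + 2)) (hA : A.Monic) (hm : A.natDegree = m + 1)
    (h1 : A.coeff 0 ≠ 0) : DB σ {P} {A} := by
  have := hσ.finite
  have := hP.finite_adjoinRoot
  obtain ⟨B, S⟩ := str_even hσ hP h0 hd (m := m + 1) hn (inv_ne_zero h0) (by
    rw [hσ.eq]; linear_combination (P.coeff 0)⁻¹ ^ 2 * two0 hσ)
  obtain ⟨l, ρ, H, b, c₁, c₂, a, s, β, r1, r2, r3, r4, r5, r6, r7⟩ := S.dec_two hn hA hm h1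
  exact ⟨_, _, _, B, _, _, _, _, _, l, ρ, S.herm, S.un, S.blocks, H, b,
    cube_of_two hσ (H.un S.herm S.un) r1 r2 r3 r4 r5 S.ne r6 r7⟩

theorem db_jj {x : F} (h0 : x ≠ 0) (h1 : x ≠ 1) :
    DB σ {(X - C x) ^ 2, (X - C x) ^ 2} (lt {1, x⁻¹}) := by
  have := hσ.finite
  have t0 := two0 hσ
  have t1 := sq_eq hσ h0 h1
  have t2 : σ x = x + 1 := by rw [hσ.eq, t1]
  have t3 : x⁻¹ = x + 1 := by rw [inv_eq hσ h0, t1]
  have hu : Un (stdForm σ (Fin 2)) (toLin' !![0, x; x, 0]) := fun u v => by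
    simp [stdForm_apply, t2, vecHead, vecTail]; grind
  have b : Blocks (toLin' !![0, x; x, 0]) {(X - C x) ^ 2} := blocks_of_two (by simp)
    (fun c e => h0 (by simpa using congrFun₂ (toLin'_eq_smul_one_iff.1 e) 0 1))
    ((monic_X_sub_C x).pow 2) (by simp) (by
      rw [aeval_toLin', toLin'.map_eq_zero_iff]
      ext i j
      fin_cases i <;> fin_cases j <;> simp [pow_two, Algebra.algebraMap_eq_smul_one,
        Matrix.mul_apply] <;> grind)
  have b' : Blocks (toLin' !![0, x; x, x]) (lt {1, x⁻¹}) := blocks_pair (by simpa)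
    (by simpa) (by
      ext i j
      fin_cases i <;> fin_cases j <;> simp [Matrix.mul_apply, t3] <;> grind)
  have h := isHerm_hsum (hσ.isHerm (ι := Fin 2)) (hσ.isHerm (ι := Fin 2))
  obtain ⟨D, ρ, H, -⟩ := exists_fr_family h (hu.prodMap hu)
    (e := ![(![0, 0], ![1, x]), (![1, x], ![0, 0])])
    (f := ![(![1, x], ![x, 1]), (![x + 1, x + 1], ![1, x])]) (M := !![0, x; x, x])
    (fun i j => by fin_cases i <;> fin_cases j <;> simp [stdForm_apply, t2] <;> grind)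
    (fun i j => by fin_cases i <;> fin_cases j <;> simp [stdForm_apply, t2] <;> grind)
    (fun i j => by fin_cases i <;> fin_cases j <;> simp [stdForm_apply, t2] <;> grind)
    (fun i j => by fin_cases i <;> fin_cases j <;> simp [stdForm_apply, t2] <;> grind)
    (b'.isUnit_iff.2 (by simp [forall_lt, h0])) (r := 0) (by simp)
  exact ⟨_, _, _, _, _, _, _, _, _, _, ρ, h, hu.prodMap hu, b.prodMap b, H, b',
    Subsingleton.elim _ _⟩

theorem blocks_j3 {x : F} (h0 : x ≠ 0) (h1 : x ≠ 1) :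
    Blocks (toLin' !![1, 1, 1; 1, x, x + 1; 1, x + 1, x]) {(X - C 1) ^ 3} := by
  have t0 := two0 hσ
  have t1 := sq_eq hσ h0 h1
  refine blocks_reg ?_ ?_ (by simp)
  · rw [one_smul, toLin'_sub_one_pow_eq_zero_iff]
    ext i j
    fin_cases i <;> fin_cases j <;> simp [pow_succ, Matrix.mul_apply, Fin.sum_univ_three] <;> grind
  · rw [one_smul, Ne, toLin'_sub_one_pow_eq_zero_iff]
    intro e
    have := congrFun₂ e 1 1
    simp [pow_succ, Matrix.mul_apply, Fin.sum_univ_three] at this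
    grind

theorem blocks_w {x : F} (h0 : x ≠ 0) (h1 : x ≠ 1) :
    Blocks (toLin' !![0, 1; 1, (1 : F)]) (lt {x, x⁻¹}) := by
  have t0 := two0 hσ
  have t1 := sq_eq hσ h0 h1
  have t3 : x⁻¹ = x + 1 := by rw [inv_eq hσ h0, t1]
  refine blocks_pair (ne_inv hσ h0 h1) (by simp) ?_
  ext i j
  fin_cases i <;> fin_cases j <;> simp [Matrix.mul_apply, t3] <;> grind

theorem db_j3 {x : F} (h0 : x ≠ 0) (h1 : x ≠ 1) :
    DB σ {(X - C 1) ^ 3, X - C 1} (lt {x, x⁻¹}) := by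
  have := hσ.finite
  have t0 := two0 hσ
  have t1 := sq_eq hσ h0 h1
  have t2 : σ x = x + 1 := by rw [hσ.eq, t1]
  have hu : Un (stdForm σ (Fin 3)) (toLin' !![1, 1, 1; 1, x, x + 1; 1, x + 1, x]) := fun u v => by
    simp [stdForm_apply, t2, Fin.sum_univ_three, vecHead, vecTail]; grind
  have hu' : Un (stdForm σ Unit) ((1 : F) • 1) := by simpa using un_one
  have b' := blocks_w hσ h0 h1
  have h := isHerm_hsum (hσ.isHerm (ι := Fin 3)) (hσ.isHerm (ι := Unit))
  obtain ⟨D, ρ, H, -⟩ := exists_fr_family h (hu.prodMap hu')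
    (e := ![(![0, 0, 1], fun _ => 1), (![1, x + 1, 0], 0)])
    (f := ![(![0, 0, x + 1], fun _ => x), (![x, x, 0], 0)]) (M := !![0, 1; 1, 1])
    (by simp [Fin.forall_fin_two, stdForm_apply, t2, Fin.sum_univ_three]; grind)
    (by simp [Fin.forall_fin_two, stdForm_apply, t2, Fin.sum_univ_three]; grind)
    (by simp [Fin.forall_fin_two, stdForm_apply, t2, Fin.sum_univ_three]; grind)
    (by simp [Fin.forall_fin_two, stdForm_apply, t2, Fin.sum_univ_three]; grind)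
    (b'.isUnit_iff.2 (by simp [forall_lt, h0])) (r := 0) (by simp)
  exact ⟨_, _, _, _, _, _, _, _, _, _, ρ, h, hu.prodMap hu', (blocks_j3 hσ h0 h1).prodMap
    (blocks_unit 1), H, b', Subsingleton.elim _ _⟩

end Cfsg.Lib.OreU
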