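import Cfsg.Agent.Lib.OreU.Geo

/-! The field with four elements: factorisations of the Levi components. -/

set_option autoImplicit false

namespace Cfsg.Lib.OreU

open Module Polynomial Matrix Cfsg.Lib.GLC Cfsg.Lib.Unitary Cfsg.Lib.Ore

universe u

variable {F : Type u} [Field F] {σ : F →+* F} {G : F[X] → Prop} {μ : Multiset F[X]} {B : F[X]}

variable (σ G) in
/-- The factorisations which are needed. -/
structure Kit : Prop where
  gf : Gf σ G
  f2 : FL G (lt {1, 1})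
  f3 : FL G (lt {1, 1, 1})
  fw : ∀ x, x ≠ 0 → x ≠ 1 → FL G (lt {x, x⁻¹})
  f1w : ∀ x, x ≠ 0 → x ≠ 1 → FL G (lt {1, x, x⁻¹})
  fa : ∀ k, k = 0 ∨ k = 2 ∨ 4 ≤ k →
    ∃ A : F[X], A.Monic ∧ A.natDegree = k ∧ (∀ c, A.eval c ≠ 0) ∧ FL G {A}

variable (hσ : IsBar 2 σ)
include hσ

theorem neg_one_pow' (k : ℕ) : (-1 : F) ^ k = 1 := by
  rw [show (-1 : F) = 1 by linear_combination -two0 hσ, one_pow]

theorem fl_of_fac {W : Type u} [AddCommGroup W] [Module F W] {l : End F W} (h1 : Blocks l μ)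
    (h2 : Fac l B) (h3 : G B) (h4 : B.coeff 0 = 1) : FL G μ :=
  let ⟨_, b1, b2⟩ := h2
  fl_of_model h1 b1 (by simpa) (b2.sim b1) (by simp [b1.det_eq, h4, neg_one_pow' hσ])

theorem fl_one (h1 : B.Monic) (h3 : G B) (h4 : B.coeff 0 = 1) :
    FL G (lt (.replicate B.natDegree 1)) := fun U _ _ l b => by
  have := b.finite
  obtain ⟨y, hy⟩ := exists_blocks_of_finrank (V := U) (μ := {B}) (by simpa)
    (by simpa using b.lt_card)
  refine fl_of_fac hσ b ⟨y, hy, ?_⟩ h3 h4 U l b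
  rwa [b.lt_eq_smul_iff.2 fun a ha => Multiset.eq_of_mem_replicate ha, one_smul, one_mul]

theorem singer {k : ℕ} (hk : 4 ≤ k) : ∃ B A : F[X], (B.Monic ∧ Irreducible B ∧ B.coeff 0 ≠ 0 ∧
    B.natDegree = k ∧ dual σ B ≠ B) ∧ A.Monic ∧ A.natDegree = k ∧ Irreducible A ∧
      ∀ G : F[X] → Prop, G B → FL G {A} := by
  have := hσ.finite
  obtain ⟨K, _, _, _, k1, k2⟩ := exists_ext F (n := k) (by omega)
  have : Module.Finite F K := Module.finite_of_finrank_pos (by omega)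
  obtain ⟨N, hN⟩ : 3 ∣ 4 ^ k - 1 := by simpa using Nat.sub_dvd_pow_sub_pow 4 1 k
  have c4 : Nat.card F = 4 := hσ.card
  obtain ⟨z, z0, hz⟩ := exists_orderOf_eq (K := K) (m := N) (by rw [k2, c4, hN]; simp)
  have p4 : ∀ d, 2 ^ (2 * d) = 4 ^ d := fun d => by rw [pow_mul]; rfl
  have h1 : ∀ a : K, (minpoly F a).natDegree ∣ k := fun a => k1 ▸ minpoly.degree_dvd
    (Algebra.IsIntegral.isIntegral a)
  have h2 : (minpoly F (z ^ 3)).natDegree = k := by
    by_contra e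
    obtain ⟨c, hc⟩ := h1 (z ^ 3)
    have h3 := (hσ.natDegree_minpoly_dvd_iff (a := z ^ 3)).1 dvd_rfl
    generalize (minpoly F (z ^ 3)).natDegree = d at e hc h3
    obtain ⟨j, rfl⟩ : ∃ j, k = d + 2 + j := ⟨k - (d + 2), by
      rcases c with _ | _ | c <;> [omega; omega; (rw [mul_add, mul_add] at hc; omega)]⟩
    have h4 : 1 ≤ 4 ^ d := Nat.one_le_pow _ _ (by norm_num)
    have h5 : 1 ≤ 4 ^ j := Nat.one_le_pow _ _ (by norm_num)
    have h6 : d ≠ 0 := by rintro rfl; omega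
    have h7 : 1 < 4 ^ d := Nat.one_lt_pow h6 (by norm_num)
    have h8 : z ^ (3 * (4 ^ d - 1)) = 1 := mul_right_cancel₀ (pow_ne_zero 3 z0) (by
      rw [pow_mul, ← pow_succ, Nat.sub_add_cancel h4, ← p4, h3, one_mul])
    have h9 := Nat.le_of_dvd (by omega) (orderOf_dvd_of_pow_eq_one h8)
    rw [pow_add, pow_add] at hN
    have : 4 ^ d * 4 ^ 2 * 1 ≤ 4 ^ d * 4 ^ 2 * 4 ^ j := Nat.mul_le_mul_left _ h5
    omega
  have h3 : (minpoly F z).natDegree = k := Nat.dvd_antisymm (h1 z) (h2 ▸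
    hσ.natDegree_minpoly_dvd_iff.2 (by
      rw [← pow_mul, mul_comm, pow_mul, hσ.natDegree_minpoly_dvd_iff.1 dvd_rfl]))
  have hi : ∀ a : K, IsIntegral F a := Algebra.IsIntegral.isIntegral
  have h4 : minpoly F (z ^ 4) = minpoly F z := (hσ.minpoly_eq_iff.2 ⟨1, rfl⟩).symm
  refine ⟨minpoly F z, minpoly F (z ^ 3), ⟨minpoly.monic (hi _), minpoly.irreducible (hi _),
    minpoly.coeff_zero_ne_zero (hi _) z0, h3, fun e => ?_⟩, minpoly.monic (hi _), h2,
    minpoly.irreducible (hi _), fun G hG => fl_of_model (blocks_lmul (h2.trans k1.symm))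
      (blocks_lmul (h3.trans k1.symm)) (by simpa) ?_ ?_⟩
  · have h5 := Nat.le_of_dvd (Nat.succ_pos _) (orderOf_dvd_of_pow_eq_one
      (hσ.odd_of_dual_minpoly_eq z0 e).2)
    have h6 : 2 ^ 4 ≤ 2 ^ k := Nat.pow_le_pow_right two_pos hk
    rw [← p4, two_mul, pow_add] at hN
    rw [hz, h3] at h5
    have : 16 * 2 ^ k ≤ 2 ^ k * 2 ^ k := Nat.mul_le_mul_right _ h6
    omega
  · rw [← map_mul, ← pow_succ]
    exact (blocks_lmul (by rw [h4, h3, k1])).sim (h4 ▸ blocks_lmul (h3.trans k1.symm))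
  · refine (Algebra.norm_apply F z).symm.trans (norm_eq_one_iff.2 ?_)
    rw [k2, c4, hN, Nat.mul_div_cancel_left _ (by norm_num), ← hz, pow_orderOf_eq_one]

theorem exists_kit : ∃ G, Kit σ G := by
  have := hσ.finite
  have t0 := two0 hσ
  choose! b a h1 a1 a2 a3 a4 using fun k => singer hσ (k := k)
  obtain ⟨τ, τ0, hτ⟩ := exists_quad (four_le hσ) one_ne_zero
  have c1 : (X ^ 3 + X + 1 : F[X]).Monic := by monicity!
  have c2 : (X ^ 3 + X + 1 : F[X]).natDegree = 3 := by compute_degree!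
  have c3 : Irreducible (X ^ 3 + X + 1 : F[X]) :=
    (c1.irreducible_iff_roots_eq_zero_of_degree_le_three (by omega) c2.le).2
      (Multiset.eq_zero_of_forall_notMem fun r hr => by
        have h : r ^ 3 + r + 1 = 0 := by simpa using isRoot_of_mem_roots hr
        by_cases e : r = 0
        · simp [e] at h
        · exact e (by linear_combination h - cube hσ e - t0))
  have c4 : (X ^ 3 + X + 1 : F[X]).coeff 0 = 1 := by simp
  let b' : ℕ → F[X] := fun k => if k = 2 then quad τ 1 else if k = 3 then X ^ 3 + X + 1 else b k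
  have h2 : ∀ k, 2 ≤ k → (b' k).Monic ∧ Irreducible (b' k) ∧ (b' k).coeff 0 ≠ 0 ∧
      (b' k).natDegree = k ∧ dual σ (b' k) ≠ b' k := fun k hk => by
    simp only [b']
    split_ifs with e1 e2
    · have : (quad τ 1).coeff 0 ≠ 0 := by simp [quad_coeff]
      exact ⟨quad_monic _ _, hτ, this, e1 ▸ quad_deg _ _, fun e => absurd
        (quad_deg τ 1 ▸ (hσ.odd_of_dual_eq (quad_monic _ _) hτ this e).1) (by decide)⟩
    · refine ⟨c1, c3, by simp, e2 ▸ c2, fun e => ?_⟩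
      simpa [c2, coeff_X_pow, coeff_X, coeff_one] using (dual_eq_iff (by simp)).1 e 1 (by omega)
    · exact h1 k (by omega)
  have g2 : ∃ k, 2 ≤ k ∧ quad τ 1 = b' k := ⟨2, le_rfl, rfl⟩
  have g3 : ∃ k, 2 ≤ k ∧ X ^ 3 + X + 1 = b' k := ⟨3, by omega, rfl⟩
  have e1 : ∀ s : F, (!![0, -1; 1, s] : Matrix _ _ F) = !![0, 1; 1, s] := fun s => by
    rw [show (-1 : F) = 1 by linear_combination -t0]
  refine ⟨fun P => ∃ k, 2 ≤ k ∧ P = b' k, ?_, ?_, ?_, fun x x0 x1 => fl_of_fac hσ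
    (blocks_w hσ x0 x1) (e1 1 ▸ fac_quad τ0 hτ (by simp [t0])) g2 (quad_coeff _ _),
    fun x x0 x1 => ?_, ?_⟩
  · rintro _ ⟨k, hk, rfl⟩
    obtain ⟨p1, p2, p3, p4, p5⟩ := h2 k hk
    refine ⟨p1, p2, p3, ?_⟩
    rintro _ ⟨j, hj, rfl⟩ e
    obtain rfl : j = k := by rw [← (h2 j hj).2.2.2.1, e, natDegree_dual p3, p4]
    exact p5 e.symm
  · simpa [quad_deg] using fl_one hσ (G := fun P => ∃ k, 2 ≤ k ∧ P = b' k) (quad_monic τ 1) g2
      (quad_coeff _ _)
  · simpa [c2] using fl_one hσ (G := fun P => ∃ k, 2 ≤ k ∧ P = b' k) c1 g3 c4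
  · have k : ∀ M : Matrix (Fin 3) (Fin 3) F, M * M * M + M + 1 = 0 →
        Blocks (toLin' M) {X ^ 3 + X + 1} := fun M h => blocks_of_irr c1 c3 (by simp [c2]) (by
      rw [aeval_toLin', toLin'.map_eq_zero_iff, ← h]; simp [pow_succ])
    have t1 := sq_eq hσ x0 x1
    have t3 : x⁻¹ = x + 1 := by rw [inv_eq hσ x0, t1]
    refine fl_of_fac hσ (l := toLin' (diagonal ![1, x, x⁻¹])) (blocks_diagonal _)
      ⟨toLin' !![0, 0, 1; 1, 0, 1; 0, 1, 0], k _ ?_, ?_⟩ g3 c4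
    · ext i j
      fin_cases i <;> fin_cases j <;> simp [Matrix.mul_apply, Fin.sum_univ_three] <;> grind
    · rw [End.mul_eq_comp, ← toLin'_mul]
      refine k _ ?_
      rw [show diagonal ![1, x, x⁻¹] * !![0, 0, 1; 1, 0, 1; 0, 1, 0] =
        !![0, 0, 1; x, 0, x; 0, x + 1, 0] by
          ext i j; fin_cases i <;> fin_cases j <;> simp [diagonal_mul, t3]]
      ext i j
      fin_cases i <;> fin_cases j <;> simp [Matrix.mul_apply, Fin.sum_univ_three] <;> grind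
  · rintro k (rfl | rfl | hk)
    · refine ⟨1, monic_one, natDegree_one, by simp, fun U _ _ l h => ?_⟩
      have := h.finite
      have : Subsingleton U := finrank_zero_iff.1 (by simpa using h.finrank_eq)
      exact fl_zero U l blocks_zero
    · refine ⟨quad τ 1, quad_monic _ _, quad_deg _ _, eval_ne_of_irr hτ (quad_deg _ _).ge,
        fl_of_fac hσ (blocks_of_irr (quad_monic _ _) hτ (by simp [quad_deg]) ?_)
          (fac_quad τ0 hτ (t0 ▸ τ0)) g2 (quad_coeff _ _)⟩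
      rw [aeval_toLin', toLin'.map_eq_zero_iff]
      ext i j
      fin_cases i <;> fin_cases j <;>
        simp [quad, pow_two, Algebra.algebraMap_eq_smul_one, Matrix.mul_apply]
    · exact ⟨a k, a1 k hk, a2 k hk, eval_ne_of_irr (a3 k hk) (by rw [a2 k hk]; omega),
        a4 k hk _ ⟨k, by omega, by simp only [b']; rw [if_neg (by omega), if_neg (by omega)]⟩⟩

end Cfsg.Lib.OreU
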