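import Cfsg.Agent.Lib.OreU.Comb

/-! Ore's conjecture for the special unitary groups. -/

set_option autoImplicit false

namespace Cfsg.Lib.OreU

open Module Polynomial Matrix Cfsg.Lib.GLC Cfsg.Lib.Unitary Cfsg.Lib.Ore Cfsg.Lib.OreC

universe u

variable {F : Type u} [Field F] {σ : F →+* F} {G : F[X] → Prop} {μ ν ν' R : Multiset F[X]}
  {P Q A : F[X]} {L Z : Multiset F} {a b c : F}

section

variable (K : Kit σ G) (hσ : IsBar 2 σ)
include hσ

theorem dual_lin (h : a ≠ 0) : dual σ (X - C a) = X - C a := by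
  rw [dual_X_sub_C h, ← eq_inv_of_mul_eq_one_left (nrm hσ h)]

theorem neg_eq (a : F) : -a = a := by linear_combination -a * two0 hσ

theorem ac_lt (h : ∀ a ∈ L, a ≠ 0) : Ac σ G (lt L) 0 0 := DB.ac (db_lt hσ h)

theorem ac_pair (ha : a ≠ 0) (hb : b ≠ 0) : Ac σ G (lt {a, b}) 0 {(a * b)⁻¹} := DB.ac (by
  simpa [lt] using db_two hσ (ν := lt {a, b}) (by simp [forall_lt, monic_X_sub_C, ha, hb])
    (by simp [lt_sum]) (by simp [lt, dual_lin hσ, ha, hb]))

theorem db_jq (h : ∀ a ∈ Z, a ≠ 0) : DB σ (jq Z) (lt Z) := by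
  induction Z using Multiset.induction_on with
  | empty => exact db_zero hσ
  | cons a Z ih =>
    have ha := h a (by simp)
    have := db_two hσ (ν := {(X - C a) ^ 2}) (by
      simp [(monic_X_sub_C a).pow, coeff_zero_eq_eval_zero, ha]) (by simp)
      (by simp [dual_lin hσ ha])
    rw [show (Multiset.map (coeff · 0) {(X - C a) ^ 2}).prod⁻¹ = a by
      simp [coeff_zero_eq_eval_zero, ← inv_eq hσ ha]] at this
    simpa [lt, jq] using this.add (ih fun b hb => h b (Multiset.mem_cons_of_mem hb))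

theorem ac_jq (h : ∀ a ∈ Z, a ≠ 0) : Ac σ G (jq Z) Z.card 0 ∨
    Z.prod ≠ 1 ∧ ∃ x, x ≠ 0 ∧ x ≠ 1 ∧ Ac σ G (jq Z) 0 {x} := by
  have k : ∀ x : F, x ≠ 0 → x ≠ 1 → Ac σ G (jq {x, x}) 1 {x⁻¹} := fun x x0 x1 =>
    (db_jj hσ x0 x1).ac.absorb (E := {1}) bal_one
  obtain ⟨N, E, rfl, p1, p2, rfl | ⟨x, x0, x1, rfl | rfl⟩⟩ := ind4 hσ
    (p := fun M => Ac σ G (jq M) M.card 0) (db_zero hσ).ac
    (fun M N h1 h2 => by simpa [jq] using h1.add h2)
    ((db_jq hσ (by simp)).ac.absorb (E' := 0) bal_one)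
    (fun x x0 _ => (db_jq hσ (by simp [x0])).ac.absorb (E' := 0) (bal_pair x0))
    (fun x x0 x1 => ((db_jq hσ (Z := {x}) (by simpa)).ac.add (k x x0 x1)).absorb (E' := 0)
      (bal_pair x0)) Z h
  · exact .inl (by simpa)
  · exact .inr ⟨by simpa [p2], x, x0, x1, by
      simpa [jq] using (p1.add (db_jq hσ (Z := {x}) (by simpa)).ac).mono (Nat.zero_le _)⟩
  · exact .inr ⟨fun e => x1 (eq_one_of_sq hσ (by simpa [p2] using e)), x⁻¹, inv_ne_zero x0,
      by simpa, by simpa [jq] using (p1.add (k x x0 x1)).mono (Nat.zero_le _)⟩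

theorem ac_slot (ha : a ≠ 0) (hb : b ≠ 0) (hc : c ≠ 0) :
    Ac σ G (lt {a} + jq {b}) 0 {c} := DB.ac (db_three hσ (P := (X - C b) ^ 2)
  (by simp [lt, jq, monic_X_sub_C, (monic_X_sub_C b).pow, coeff_zero_eq_eval_zero, ha, hb])
  (by simp [lt, jq]) (by simp [lt, jq, dual_lin hσ, ha, hb]) (by simp [jq]) (by simp) hc)

include K

theorem ac_rest (h1 : ∀ a ∈ L, a ≠ 0) (h2 : ∀ a ∈ Z, a ≠ 0)
    (h3 : ∀ Q ∈ R, At σ Q ∧ 3 ≤ Q.natDegree) : Ac σ G (lt L + jq Z + R) (Z.card + R.card) 0 ∨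
      ∃ x, x ≠ 0 ∧ x ≠ 1 ∧ Ac σ G (lt L + jq Z + R) 0 {x} := by
  have h4 : Ac σ G R R.card 0 := by
    induction R using Multiset.induction_on with
    | empty => exact (db_zero hσ).ac
    | cons Q R ih =>
      obtain ⟨q1, q2⟩ := h3 Q (by simp)
      simpa [add_comm 1] using (q1.ac K hσ q2).add
        (ih fun P hP => h3 P (Multiset.mem_cons_of_mem hP))
  exact (ac_jq (G := G) hσ h2).imp (fun h => by simpa using ((ac_lt hσ h1).add h).add h4)
    fun ⟨_, x, x0, x1, h⟩ => ⟨x, x0, x1, by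
      simpa using (((ac_lt hσ h1).add h).add h4).mono (Nat.zero_le _)⟩

theorem dn_of_slot {k : ℕ} (h : ∀ c, c ≠ 0 → Ac σ G ν 0 {c}) (hk : k ≠ 0)
    (h' : Ac σ G ν' k 0 ∨ ∃ x, x ≠ 0 ∧ x ≠ 1 ∧ Ac σ G ν' 0 {x}) : Dn σ G (ν' + ν) :=
  h'.elim (fun h' => ((h'.add ((h 1 one_ne_zero).absorb (E' := 0) bal_one)).mono
    (by simp; omega)).dn K hσ) fun ⟨x, x0, _, h'⟩ => h'.dn' K hσ x0 (h _ (inv_ne_zero x0))

theorem dn_slot_two (h : ∀ c, c ≠ 0 → Ac σ G ν 0 {c}) (h1 : ∀ x ∈ a ::ₘ b ::ₘ L, x ≠ 0) :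
    Dn σ G (lt (a ::ₘ b ::ₘ L) + ν) := by
  have ha := h1 a (by simp)
  have hb := h1 b (by simp)
  have := (h _ (mul_ne_zero ha hb)).dn' K hσ (mul_ne_zero ha hb) (by
    simpa using (ac_pair hσ ha hb).add (ac_lt hσ (L := L) fun x hx => h1 x (by simp [hx])))
  rwa [add_comm, ← lt_add, Multiset.cons_add] at this

theorem Fre.dn (h : ∀ A : F[X], A.Monic → A.natDegree = 2 → A.coeff 0 = 1 → DB σ {P} {A}) :
    Dn σ G {P} := by
  obtain ⟨w, w0, w1⟩ := exists_om hσ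
  refine ⟨_, K.fw w w0 w1, (h ((X - C w) * (X - C w⁻¹)) ((monic_X_sub_C _).mul (monic_X_sub_C _))
    (by rw [(monic_X_sub_C _).natDegree_mul (monic_X_sub_C _), natDegree_X_sub_C, natDegree_X_sub_C])
    (by simp [w0])).congr (fun _ _ _ _ => id) fun _ _ _ _ b => b.split (monic_X_sub_C _)
      (monic_X_sub_C _) (isCoprime_X_sub_C_of_isUnit_sub (sub_ne_zero.2 (ne_inv hσ w0 w1)).isUnit)⟩

theorem dn_one (h : At σ Q) (h3 : 3 ≤ Q.natDegree) (h4 : Q.natDegree ≤ 4) (ha : a ≠ 0)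
    (hd : a * Q.coeff 0 = 1) : Dn σ G {X - C a, Q} := by
  by_cases e : Q.eval a = 0
  · have e1 := h.root a e
    have e2 : Q.coeff 0 = a ^ Q.natDegree := by
      nth_rw 1 [e1]; simp [coeff_zero_eq_eval_zero, neg_eq hσ]
    obtain e3 | e3 : Q.natDegree = 3 ∨ Q.natDegree = 4 := by omega
    · obtain rfl : a = 1 := by simpa [e2, e3, cube hσ ha] using hd
      obtain ⟨w, w0, w1⟩ := exists_om hσ
      exact ⟨_, K.fw w w0 w1, by rw [e1, e3, Multiset.pair_comm]; exact db_j3 hσ w0 w1⟩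
    · obtain rfl : a = 1 := eq_one_of_sq hσ (by
        rw [e2, e3] at hd; linear_combination hd - a ^ 2 * cube hσ ha)
      obtain ⟨μ, h1, h2⟩ := Fre.dn K hσ fun A =>
        db_even hσ h.monic (by simpa using hd) h.dual (m := 1) e3
      exact ⟨μ, h1, by simpa using (db_lin hσ ha).add h2⟩
  have h1 := (monic_X_sub_C a).mul h.monic
  have h2 : ((X - C a) * Q).coeff 0 = 1 := by simp [neg_eq hσ, hd]
  have h5 : dual σ ((X - C a) * Q) = (X - C a) * Q := by rw [map_mul, dual_lin hσ ha, h.dual]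
  have h6 := (monic_X_sub_C a).natDegree_mul h.monic
  rw [natDegree_X_sub_C] at h6
  suffices H : Dn σ G {(X - C a) * Q} from let ⟨μ, h1, h2⟩ := H
    ⟨μ, h1, h2.congr (fun _ _ _ _ b => b.split (monic_X_sub_C a) h.monic (cop_of_eval e))
      fun _ _ _ _ => id⟩
  refine Fre.dn K hσ fun A a1 a2 a3 => ?_
  obtain e3 | e3 : Q.natDegree = 3 ∨ Q.natDegree = 4 := by omega
  · exact db_even hσ h1 h2 h5 (m := 1) (by omega) a1 a2 a3
  · obtain ⟨c, c0, c1, c2⟩ := h.exists_ne hσ a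
    exact db_odd hσ h1 (by simp [h2]) h5 (m := 1) (by omega) c0 (by simp [c2, sub_ne_zero.2 c1])
      a1 a2 (by simp [a3])

theorem dn_main (h1 : ∀ a ∈ L, a ≠ 0) (h2 : ∀ a ∈ Z, a ≠ 0)
    (h3 : ∀ Q ∈ R, At σ Q ∧ 3 ≤ Q.natDegree)
    (hn : 4 ≤ L.card + 2 * Z.card + (R.map natDegree).sum)
    (hd : L.prod * Z.prod ^ 2 * (R.map (coeff · 0)).prod = 1) : Dn σ G (lt L + jq Z + R) := by
  rcases R.empty_or_exists_mem with rfl | ⟨Q, hQ⟩
  · rcases Z.empty_or_exists_mem with rfl | ⟨z, hz⟩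
    · exact ⟨0, fl_zero, by simpa [jq] using db_lt hσ h1⟩
    rcases L.empty_or_exists_mem with rfl | ⟨a, ha⟩
    · refine (ac_jq (G := G) hσ h2).elim (fun h => ?_) fun h => (h.1 (eq_one_of_sq hσ ?_)).elim
      · simpa [lt] using (h.mono (by simp at hn; omega)).dn K hσ
      · simpa [pow_two] using hd
    obtain ⟨Z, rfl⟩ := Multiset.exists_cons_of_mem hz
    obtain ⟨L, rfl⟩ := Multiset.exists_cons_of_mem ha
    have a0 := h1 a ha
    have z0 := h2 z hz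
    have l0 : ∀ x ∈ L, x ≠ 0 := fun x hx => h1 x (Multiset.mem_cons_of_mem hx)
    by_cases e : Z = 0
    swap
    · convert dn_of_slot K hσ (fun c => ac_slot hσ a0 z0) (by simpa) (ac_rest K hσ l0
        (fun x hx => h2 x (Multiset.mem_cons_of_mem hx)) h3) using 1
      simp only [lt, jq, Multiset.map_cons, Multiset.map_singleton]
      simp only [← Multiset.singleton_add]; abel
    subst e
    obtain ⟨b, hb⟩ := Multiset.card_pos_iff_exists_mem.1 (show 0 < L.card by simp at hn; omega)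
    obtain ⟨L, rfl⟩ := Multiset.exists_cons_of_mem hb
    rcases L.empty_or_exists_mem with rfl | ⟨c, hc⟩
    · have e1 : a * b = z := by
        simp at hd
        linear_combination z * hd - a * b * cube hσ z0
      have := (db_jq hσ h2).ac.dn' K hσ z0 (e1 ▸ ac_pair hσ a0 (l0 b hb))
      rwa [add_comm, ← add_zero (_ + _)] at this
    obtain ⟨L, rfl⟩ := Multiset.exists_cons_of_mem hc
    convert dn_slot_two K hσ (fun c => ac_slot hσ a0 z0) l0 using 1
    simp only [lt, jq, Multiset.map_cons, Multiset.map_singleton, Multiset.map_zero]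
    simp only [← Multiset.singleton_add]; abel
  obtain ⟨R, rfl⟩ := Multiset.exists_cons_of_mem hQ
  obtain ⟨q1, q2⟩ := h3 Q hQ
  have h4 := ac_rest K hσ h1 h2 fun P hP => h3 P (Multiset.mem_cons_of_mem hP)
  rw [← Multiset.singleton_add, add_comm _ R, ← add_assoc]
  by_cases h5 : Q.natDegree ≤ 4
  swap
  · obtain ⟨m, m1, m2⟩ := q1.fre hσ (by omega)
    obtain ⟨b1, b2⟩ := m1.big K hσ (by omega)
    exact h4.elim (fun h => ((h.add b1).mono (by omega)).dn K hσ) fun ⟨x, x0, x1, h⟩ =>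
      h.dn' K hσ x0 (b2 _ (inv_ne_zero x0) (by simpa))
  have h6 := fun c => q1.slot (G := G) hσ q2 h5 (c := c)
  by_cases h7 : Z.card + R.card = 0
  swap
  · exact dn_of_slot K hσ h6 h7 h4
  obtain rfl : Z = 0 := Multiset.card_eq_zero.1 (by omega)
  obtain rfl : R = 0 := Multiset.card_eq_zero.1 (by omega)
  rcases L.empty_or_exists_mem with rfl | ⟨a, ha⟩
  · simpa [lt, jq] using Fre.dn K hσ fun A => db_even hσ q1.monic (by simpa using hd) q1.dual
      (m := 1) (by simp at hn; omega)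
  obtain ⟨L, rfl⟩ := Multiset.exists_cons_of_mem ha
  rcases L.empty_or_exists_mem with rfl | ⟨b, hb⟩
  · simpa [lt, jq] using dn_one K hσ q1 q2 h5 (h1 a ha) (by simpa using hd)
  obtain ⟨L, rfl⟩ := Multiset.exists_cons_of_mem hb
  simpa [jq] using dn_slot_two K hσ h6 h1

end

theorem cu_of_two (hσ : IsBar 2 σ) {n : ℕ} (hn : 4 ≤ n) {g : End F (Fin n → F)}
    (hg : Un (stdForm σ (Fin n)) g) (hd : LinearMap.det g = 1) : Cu 2 g := by
  obtain ⟨G, K⟩ := exists_kit hσ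
  have s := hg.sd hσ.isHerm hσ
  obtain ⟨ν, h1, b⟩ := exists_atoms hσ (ν := 0) (fun P hP => ⟨typ_pp g P hP, s.coeff_ne hP⟩) s.2
    (by simpa using blocks_typ g)
  obtain ⟨L, Z, R, rfl, l1, l2, l3⟩ := atoms_split hσ h1
  rw [add_zero] at b
  obtain ⟨μ, m1, m2⟩ := dn_main K hσ l1 l2 l3 (by
    have := b.finrank_eq
    simp [lt_sum, jq] at this
    omega) (by
    have := b.det_eq
    simpa [hd, neg_one_pow' hσ, lt, jq, coeff_zero_eq_eval_zero, neg_eq hσ, Multiset.prod_map_pow,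
      eq_comm] using this)
  haveI : Nonempty (Fin n) := ⟨⟨0, by omega⟩⟩
  exact m2.cu hσ K.gf m1 b hd

theorem isC_su [Fintype F] {n q : ℕ} (hn : 3 ≤ n) (hF : Fintype.card F = q ^ 2)
    (hex : ¬ (n = 3 ∧ q = 2)) (g : SU n F q) : IsC g := by
  obtain ⟨σ, hσ⟩ := exists_isBar hF
  have h1 : Un (stdForm σ (Fin n)) (toLin' g.1.1) := hσ.mem_SU.1 g.2
  by_cases hq : q = 2
  · subst hq
    exact cu_of_two hσ (by omega) h1 (by simp) n g (.refl _)
  · exact cu_of_three hσ hq hn h1 (by simp) n g (.refl _)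

end Cfsg.Lib.OreU
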