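import Cfsg.Agent.Lib.OreU.Str

/-! Frames along a string: the Levi component is a prescribed companion matrix. -/

set_option autoImplicit false

namespace Cfsg.Lib.OreU

open Module Polynomial Matrix Cfsg.Lib.GLC Cfsg.Lib.Unitary

universe u

variable {F : Type u} {V : Type*} [Field F] [AddCommGroup V] [Module F V] {σ : F →+* F} {q : ℕ}
  {B : V →ₛₗ[σ] V →ₗ[F] F} {g : End F V} [Module.Finite F V]

theorem exists_opp {ι : Type*} [Fintype ι] [DecidableEq ι] (h : IsHerm σ B) {e : ι → V}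
    (hi : LinearIndependent F e) (ee : ∀ i j, B (e i) (e j) = 0) {i₀ : ι} {w : V} {c : F}
    (hc : c ≠ 0) (hw : B w w = 0) (hew : ∀ i, B (e i) w = if i = i₀ then c else 0)
    (D : Submodule F V) (hD : Disjoint D (perp B D)) (h1 : ∀ x ∈ D, ∀ i, B (e i) x = 0)
    (h2 : ∀ x ∈ D, B w x = 0) : ∃ f : ι → V, (∀ i j, B (f i) (f j) = 0) ∧
      (∀ i j, B (f i) (e j) = if i = j then 1 else 0) ∧ (∀ i, B (f i) w = 0) ∧
      ∀ x ∈ D, ∀ i, B (f i) x = 0 := by
  have hi' := hi.option (x := w) fun hm => hc (by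
    obtain ⟨a, rfl⟩ := (Submodule.mem_span_range_iff_exists_fun F).1 hm
    simpa [ee] using (hew i₀).symm)
  have key : ∀ i, ∃ y, (∀ j, B (e j) y = if j = i then 1 else 0) ∧ B w y = 0 ∧
      (∀ x ∈ D, B x y = 0) ∧ (i = i₀ → y = c⁻¹ • w) := fun i => by
    by_cases e0 : i = i₀
    · exact ⟨c⁻¹ • w, fun j => by simp [hew, e0, hc], by simp [hw],
        fun x hx => by simp [h.eq_zero_comm.1 (h2 x hx)], fun _ => rfl⟩
    obtain ⟨y, hy⟩ := h.exists_apply_eq hi' fun o => o.elim 0 fun j => if j = i then 1 else 0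
    obtain ⟨d, hd, z, hz, rfl⟩ := Submodule.mem_sup.1
      ((h.isCompl_perp hD).sup_eq_top.ge (Submodule.mem_top (x := y)))
    exact ⟨z, fun j => by simpa [h1 d hd] using hy (some j), by simpa [h2 d hd] using hy none,
      mem_perp.1 hz, fun e => (e0 e).elim⟩
  choose y y1 y2 y3 y4 using key
  obtain ⟨θ, hθ⟩ := h.exists_trace_eq (map_one σ)
  have y5 : ∀ i j, B (y i) (e j) = if i = j then 1 else 0 := fun i j => by
    rw [← h.symm, y1]; simp [eq_comm]
  refine ⟨fun i => y i - ∑ j, (θ * B (y j) (y i)) • e j, fun i j => ?_, fun i j => by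
    simp [y5, ee], fun i => ?_, fun x hx i => by simp [h.eq_zero_comm.1 (y3 i x hx), h1 x hx]⟩
  · simp [y1, y5, ee, h.symm]
    linear_combination (-B (y i) (y j)) * hθ
  · simp [h.eq_zero_comm.1 (y2 i), hew, y4 i₀ rfl, y2]

omit [Module.Finite F V] in
theorem aeval_apply_eq {A : F[X]} (hA : A.Monic) {m : ℕ} (hm : A.natDegree = m) (v : V) :
    aeval g A v = (g ^ m) v + ∑ i : Fin m, A.coeff i • (g ^ i.1) v := by
  subst hm
  rw [aeval_eq_sum_range, Finset.sum_range_succ, hA.coeff_natDegree, add_comm, Finset.sum_range]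
  simp

omit [Module.Finite F V] in
theorem exists_compM {A : F[X]} (hA : A.Monic) {m : ℕ} (hm : A.natDegree = m) {v : V}
    {f : Fin m → V} (fe : ∀ i j : Fin m, B (f i) ((g ^ j.1) v) = if i = j then 1 else 0)
    (fA : ∀ i, B (f i) (aeval g A v) = 0) : ∃ M : Matrix (Fin m) (Fin m) F,
      Blocks (toLin' M) {A} ∧ ∀ i j : Fin m, B (f i) (g ((g ^ j.1) v)) = M i j := by
  subst hm
  let b := AdjoinRoot.powerBasis' hA
  refine ⟨Algebra.leftMulMatrix b.basis b.gen, Sim.blocks (Sim.symm ⟨b.basis.equivFun, fun v =>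
    (Algebra.leftMulMatrix_mulVec_repr b.basis _ v).symm⟩) (blocks_cyc hA), fun i j => ?_⟩
  rw [b.leftMulMatrix, b.minpolyGen_eq, ← End.mul_apply, ← pow_succ']
  change _ = if j.1 + 1 = A.natDegree then -(minpoly F (AdjoinRoot.root A)).coeff i else _
  rw [AdjoinRoot.minpoly_root hA.ne_zero, hA.leadingCoeff, inv_one, C_1, mul_one]
  split_ifs with h1 h2
  · have := fA i
    rw [aeval_apply_eq hA rfl, map_add, map_sum] at this
    simpa [fe, h1, ← add_eq_zero_iff_eq_neg] using this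
  · rw [← h2, fe, if_pos rfl]
  · exact (fe i ⟨j.1 + 1, by omega⟩).trans (if_neg fun e => h2 (congrArg Fin.val e))

variable {P : F[X]} {v : V} {m : ℕ} {κ : F}

namespace Str

omit [Module.Finite F V]

theorem shift (S : Str σ P B g v m κ) (i j : ℕ) :
    B ((g ^ i) v) ((g ^ (i + j)) v) = B v ((g ^ j) v) := by
  induction i with
  | zero => simp
  | succ i ih => rw [add_right_comm, pow_succ', pow_succ', End.mul_apply, End.mul_apply, S.un, ih]

theorem pair (S : Str σ P B g v m κ) {i j : ℕ} (h1 : i < j + m) (h2 : j ≤ i + m) :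
    B ((g ^ i) v) ((g ^ j) v) = if j = i + m then κ else 0 := by
  rcases le_total i j with e | e
  · obtain ⟨k, rfl⟩ := Nat.exists_eq_add_of_le e
    rw [S.shift]
    split_ifs with h3
    · rw [show k = m by omega, S.top]
    · exact S.zero k (by omega)
  · obtain ⟨k, rfl⟩ := Nat.exists_eq_add_of_le e
    rw [if_neg (by omega), S.herm.eq_zero_comm, S.shift, S.zero k (by omega)]

theorem pairA (S : Str σ P B g v m κ) {A : F[X]} (hA : A.Monic) {k : ℕ} (hk : A.natDegree = k)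
    {i j : ℕ} (h1 : i < j + m) (h2 : j + k ≤ i + m) :
    B ((g ^ i) v) (aeval g A ((g ^ j) v)) = if j + k = i + m then κ else 0 := by
  rw [aeval_apply_eq hA hk, map_add, map_sum, Finset.sum_eq_zero fun l _ => ?_, add_zero,
    ← End.mul_apply, ← pow_add, add_comm k, S.pair (by omega) h2]
  rw [map_smul, ← End.mul_apply, ← pow_add, S.pair (by omega) (by omega), if_neg (by omega),
    smul_zero]

theorem indep (S : Str σ P B g v m κ) (j : ℕ) {k : ℕ} (hk : k ≤ P.natDegree) :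
    LinearIndependent F fun i : Fin k => (g ^ i.1) ((g ^ j) v) := by
  refine Fintype.linearIndependent_iff.2 fun a ha i => ?_
  have h1 := S.ind (∑ i : Fin k, C (a i) * X ^ i.1) (((S.un.inj S.herm).iterate j) (by
    rw [← End.pow_apply, ← End.pow_apply, map_zero, ← ha, ← End.mul_apply,
      (commute_aeval ((Commute.refl g).pow_left j) _).eq]
    simp [Algebra.algebraMap_eq_smul_one]))
  have h2 := eq_zero_of_dvd_of_degree_lt h1 ((degree_sum_fin_lt a).trans_le (by
    rw [degree_eq_natDegree (S.blocks.monic P (by simp)).ne_zero]; exact_mod_cast hk))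
  simpa [coeff_X_pow, Fin.val_inj] using congrArg (coeff · i) h2

theorem finrank_eq (S : Str σ P B g v m κ) : finrank F V = P.natDegree := by
  simpa using S.blocks.finrank_eq

end Str

variable [Finite F]

/-- The even case, with a maximal totally isotropic subspace. -/
theorem Str.dec_even (S : Str σ P B g v (m + 1) κ) (hn : P.natDegree = 2 * (m + 1)) {A : F[X]}
    (hA : A.Monic) (hm : A.natDegree = m + 1) (h0 : A.coeff 0 ≠ 0)
    (h1 : σ (A.coeff 0) * κ + A.coeff 0 * σ κ = 0) : ∃ (l : End F (Fin (m + 1) → F))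
      (ρ : End F (Fin 0 → F)), Dec B g l ρ ∧ Blocks l {A} := by
  have h2 : ∀ i : Fin (m + 1), B ((g ^ i.1) v) (aeval g A v) = if i = 0 then κ else 0 := fun i => by
    simpa using S.pairA hA hm (i := i) (j := 0) (by omega) (by omega)
  have ee : ∀ i j : Fin (m + 1), B ((g ^ i.1) v) ((g ^ j.1) v) = 0 := fun i j =>
    (S.pair (by omega) (by omega)).trans (if_neg (by omega))
  obtain ⟨f, ff, fe, fw, -⟩ := exists_opp S.herm (S.indep 0 (k := m + 1) (by omega)) ee S.ne
    (w := aeval g A v) (by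
      have h3 : B ((g ^ (m + 1)) v) (aeval g A v) = A.coeff 0 * σ κ := by
        rw [aeval_apply_eq hA hm, map_add, map_sum, S.pair (by omega) (by omega),
          if_neg (by omega), zero_add, Fin.sum_univ_succ, Finset.sum_eq_zero fun l _ => ?_]
        · simp [← S.herm.symm v, S.top]
        · rw [map_smul, S.pair (by simp) (by omega), if_neg (by omega), smul_zero]
      nth_rw 1 [aeval_apply_eq hA hm]
      simp [h2, h3]; linear_combination h1) h2 ⊥ disjoint_bot_left (by simp) (by simp)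
  obtain ⟨M, b, hM⟩ := exists_compM hA hm fe fw
  obtain ⟨D, ρ, H, -⟩ := exists_fr_family S.herm S.un ee ff fe hM (b.isUnit_iff.2 (by simpa))
    (r := 0) (by simp [S.finrank_eq, hn])
  exact ⟨_, ρ, H, b⟩

/-- The odd case. -/
theorem Str.dec_odd (S : Str σ P B g v (m + 1) κ) (hn : P.natDegree = 2 * (m + 1) + 1) {A : F[X]}
    (hA : A.Monic) (hm : A.natDegree = m + 1) (h0 : A.coeff 0 ≠ 0) :
    ∃ (l : End F (Fin (m + 1) → F)) (ρ : End F (Fin 1 → F)), Dec B g l ρ ∧ Blocks l {A} := by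
  have h := S.herm
  have h2 : ∀ i : Fin (m + 1), B ((g ^ i.1) v) (aeval g A v) = if i = 0 then κ else 0 := fun i => by
    simpa using S.pairA hA hm (i := i) (j := 0) (by omega) (by omega)
  have ee : ∀ i j : Fin (m + 1), B ((g ^ i.1) v) ((g ^ j.1) v) = 0 := fun i j =>
    (S.pair (by omega) (by omega)).trans (if_neg (by omega))
  have hi : LinearIndependent F fun i : Fin (m + 1) => (g ^ i.1) v := S.indep 0 (by omega)
  obtain ⟨z, z1, z2⟩ := h.exists_nonisotropic_perp_of_finrank (W := Submodule.span F (Set.range _))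
    (by rw [finrank_span_eq_card hi, S.finrank_eq]; simp [hn])
  obtain ⟨c, -, hc⟩ := h.exists_smul_norm_eq z2 one_ne_zero (map_one σ)
  have z3 : ∀ i : Fin (m + 1), B ((g ^ i.1) v) (c • z) = 0 := fun i => by
    rw [map_smul, mem_perp_span.1 z1 _ ⟨i, rfl⟩, smul_zero]
  generalize c • z = y at hc z3
  obtain ⟨s, hs⟩ := h.exists_norm_eq (h.self_fixed (aeval g A v))
  have h3 : B v (aeval g A v) = κ := h2 0
  have h4 : B v y = 0 := z3 0
  have h5 : B v v = 0 := ee 0 0
  obtain ⟨d, d1, d2, d3⟩ : ∃ d, B d d = 1 ∧ (∀ i : Fin (m + 1), B ((g ^ i.1) v) d = 0) ∧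
      B d (aeval g A v) = s := ⟨y + σ ((s - B y (aeval g A v)) / κ) • v,
    by simp [hc, h4, h5, h.eq_zero_comm.1 h4], fun i => by
      have : B ((g ^ i.1) v) v = 0 := ee i 0
      simp [z3, this], by simp [h.invol, h3, S.ne]⟩
  obtain ⟨f, ff, fe, fw, fd⟩ := exists_opp h hi ee (i₀ := 0) S.ne (w := aeval g A v - s • d)
    (by simp [← hs, d1, d3, ← h.symm d, mul_comm]) (fun i => by simp [h2, d2]) (F ∙ d)
    (IsHerm.disjoint_perp_singleton (by simp [d1])) (fun x hx i => by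
      obtain ⟨a, rfl⟩ := Submodule.mem_span_singleton.1 hx; simp [d2]) (fun x hx => by
      obtain ⟨a, rfl⟩ := Submodule.mem_span_singleton.1 hx; simp [d1, d3, ← h.symm d])
  obtain ⟨M, b, hM⟩ := exists_compM hA hm fe fun i => by
    simpa [fd d (Submodule.mem_span_singleton_self d) i] using fw i
  obtain ⟨D, ρ, H, -⟩ := exists_fr_family h S.un ee ff fe hM (b.isUnit_iff.2 (by simpa))
    (r := 1) (by simp [S.finrank_eq, hn])
  exact ⟨_, ρ, H, b⟩

omit [Finite F] [Module.Finite F V] in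
theorem span_two {U : Type*} [AddCommGroup U] [Module F U] [Module.Finite F U]
    {D : U →ₛₗ[σ] U →ₗ[F] F} (h : IsHerm σ D) (hn : finrank F U = 2) {c₁ c₂ : U} (h1 : D c₁ c₁ = 0)
    (h2 : D c₂ c₂ = 0) (h3 : D c₂ c₁ ≠ 0) (c : U) : ∃ a b : F, c = a • c₁ + b • c₂ := by
  have hi : LinearIndependent F ![c₁, c₂] := LinearIndependent.pair_iff.2 fun a b e =>
    ⟨by simpa [h2, h3] using congrArg (D c₂) e,
      by simpa [h1, mt h.eq_zero_comm.1 h3] using congrArg (D c₁) e⟩
  have : c ∈ Submodule.span F (Set.range ![c₁, c₂]) := by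
    rw [hi.span_eq_top_of_card_eq_finrank' (by simp [hn])]; trivial
  obtain ⟨a, rfl⟩ := (Submodule.mem_span_range_iff_exists_fun F).1 this
  exact ⟨a 0, a 1, by simp⟩

/-- The even case, with a two-dimensional middle part. -/
theorem Str.dec_two (S : Str σ P B g v (m + 2) κ) (hn : P.natDegree = 2 * (m + 2)) {A : F[X]}
    (hA : A.Monic) (hm : A.natDegree = m + 1) (h0 : A.coeff 0 ≠ 0) :
    ∃ (l : End F (Fin (m + 1) → F)) (ρ : End F (Fin 2 → F)), Dec B g l ρ ∧ Blocks l {A} ∧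
      ∃ (c₁ c₂ : Fin 2 → F) (a s β : F), a ≠ 0 ∧ s ≠ 0 ∧ stdForm σ _ c₁ c₁ = 0 ∧
        stdForm σ _ c₂ c₂ = 0 ∧ stdForm σ _ c₂ c₁ = κ ∧ ρ c₂ = a • c₁ ∧ ρ c₁ = s • c₁ + β • c₂ := by
  have h := S.herm
  have hκ := S.ne
  have hκ' : σ κ ≠ 0 := by simpa
  have p1 : ∀ i : ℕ, (g ^ i) (g v) = (g ^ (i + 1)) v := fun i => by rw [pow_succ]; rfl
  have ee : ∀ i j : Fin (m + 1), B ((g ^ i.1) (g v)) ((g ^ j.1) (g v)) = 0 := fun i j => by
    rw [p1, p1, S.pair (by omega) (by omega), if_neg (by omega)]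
  have hi : LinearIndependent F fun i : Fin (m + 1) => (g ^ i.1) (g v) := by
    simpa using S.indep 1 (k := m + 1) (by omega)
  obtain ⟨x, hx⟩ : ∃ x, x = aeval g A (g v) := ⟨_, rfl⟩
  have x1 : ∀ i ≤ m + 2, B ((g ^ i) v) x = if i = 0 then κ else 0 := fun i hi => by
    simpa [hx, show 1 + (m + 1) = i + (m + 2) ↔ i = 0 by omega] using S.pairA hA hm (i := i) (j := 1) (by omega) (by omega)
  have x2 : ∀ i : Fin (m + 1), B ((g ^ i.1) (g v)) x = 0 := fun i => by
    rw [p1, x1 _ (by omega), if_neg (by omega)]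
  have x3 : B x x = 0 := by
    nth_rw 1 [hx, aeval_apply_eq hA hm]
    simp [x2, p1, x1]
  have x4 : B v x = κ := x1 0 (by omega)
  have x5 : B x v = σ κ := by rw [← x4, h.symm]
  have v1 : ∀ i : Fin (m + 1), B ((g ^ i.1) (g v)) v = 0 := fun i => by
    rw [p1]; exact (S.pair (j := 0) (by omega) (by omega)).trans (if_neg (by omega))
  have v2 : B v v = 0 := S.zero 0 (by omega)
  have z1 : ∀ i : Fin (m + 1), B ((g ^ i.1) (g v)) (g x) = if i = 0 then κ else 0 := fun i => by
    have := S.pairA hA hm (i := i + 1) (j := 2) (by omega) (by omega)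
    rw [p1, hx, ← End.mul_apply, (commute_aeval (Commute.refl g) _).eq]
    simpa [pow_two, show 2 + (m + 1) = i + 1 + (m + 2) ↔ i.1 = 0 by omega] using this
  obtain ⟨z, α, β, z0, z2, z3⟩ : ∃ (z : V) (α β : F), g x = z + α • x + β • v ∧ B x z = 0 ∧
      B v z = 0 := ⟨g x - (B v (g x) / κ) • x - (B x (g x) / σ κ) • v, B v (g x) / κ,
    B x (g x) / σ κ, by abel, by simp [x3, x5, hκ], by simp [x4, v2, hκ]⟩
  have z4 : ∀ i : Fin (m + 1), B ((g ^ i.1) (g v)) z = if i = 0 then κ else 0 := fun i => by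
    simpa [z0, x2, v1] using z1 i
  have e0 : B (g v) z = κ := z4 0
  have e1 : B (g v) x = 0 := x2 0
  have e2 : B (g v) v = 0 := v1 0
  obtain ⟨s, s1, s2⟩ : ∃ s : F, B (z + s • g v) (z + s • g v) = 0 ∧ α - s / A.coeff 0 ≠ 0 := by
    obtain ⟨s, hs⟩ := h.exists_add_smul_isotropic (e := g v) (v := z) (by rw [S.un, v2]) (e0 ▸ hκ)
    by_cases e : α - s / A.coeff 0 = 0
    swap
    · exact ⟨s, hs, e⟩
    obtain ⟨δ, d1, d2⟩ := h.exists_skew
    refine ⟨s + δ * κ, ?_, fun e' => mul_ne_zero d1 hκ ?_⟩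
    · simp only [map_add, LinearMap.add_apply, LinearMap.map_smulₛₗ, LinearMap.smul_apply, S.un v,
        v2, e0, ← h.symm (g v) z, smul_eq_mul, RingHom.id_apply, map_mul, d2] at hs ⊢
      linear_combination hs
    · field_simp at e e'
      linear_combination e - e'
  have k : ∀ y ∈ Submodule.span F {x, v}, ∃ a b : F, a • x + b • v = y := fun y =>
    Submodule.mem_span_pair.1
  have w1 : B x (z + s • g v) = 0 := by simp [z2, h.eq_zero_comm.1 e1]
  have w2 : B v (z + s • g v) = 0 := by simp [z3, h.eq_zero_comm.1 e2]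
  obtain ⟨f, ff, fe, fw, fd⟩ := exists_opp h hi ee (i₀ := 0) hκ s1 (fun i => by
      have : B ((g ^ i.1) (g v)) (g v) = 0 := ee i 0
      simp [z4, this]) (Submodule.span F {x, v})
    (Submodule.disjoint_def.2 fun y hy hy' => by
      obtain ⟨a, b, rfl⟩ := k y hy
      obtain rfl : a = 0 := by simpa [x4, v2, hκ] using mem_perp_span.1 hy' v (by simp)
      obtain rfl : b = 0 := by simpa [x5, hκ] using mem_perp_span.1 hy' x (by simp)
      simp) (fun y hy i => by obtain ⟨a, b, rfl⟩ := k y hy; simp [x2, v1]) (fun y hy => by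
      obtain ⟨a, b, rfl⟩ := k y hy
      rw [map_add, map_smul, map_smul, h.eq_zero_comm.1 w1, h.eq_zero_comm.1 w2]; simp)
  have f1 := fd x (Submodule.subset_span (by simp))
  have f2 := fd v (Submodule.subset_span (by simp))
  obtain ⟨M, b, hM⟩ := exists_compM hA hm fe (hx ▸ f1)
  obtain ⟨D, ρ, H, H', h2⟩ := exists_fr_family h S.un ee ff fe hM (b.isUnit_iff.2 (by simpa))
    (r := 2) (by simp [S.finrank_eq, hn]; ring)
  set E := Fintype.linearCombination F fun i : Fin (m + 1) => (g ^ i.1) (g v) with hE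
  set E' := Fintype.linearCombination F f with hE'
  have h' : IsHerm σ (stdForm σ (Fin 2)) := isHerm_stdForm h.ne_id h.invol
  have k1 : ∀ y, (∀ i, B (f i) y = 0) → ∃ c b, y = D c + E' b := fun y hy =>
    let ⟨b, c, e⟩ := (H'.symm h).dec_of h (v := y) (b := 0) fun a => by
      simp [hE', Fintype.linearCombination_apply, hy]
    ⟨c, b, by simp [e, add_comm]⟩
  have k2 : ∀ y, (∀ i, B (f i) y = 0) → (∀ i : Fin (m + 1), B ((g ^ i.1) (g v)) y = 0) →
      ∃ c, y = D c := fun y hy hy' => by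
    obtain ⟨c, b, rfl⟩ := k1 y hy
    obtain rfl : b = 0 := std_ext h fun a => by
      have : B (E a) (D c + E' b) = 0 := by simp [hE, Fintype.linearCombination_apply, hy']
      simpa [H'.ed, H'.toPf.ef h] using this
    exact ⟨c, by simp⟩
  have k3 : ∀ a c c' b, g (E a + D c) = D c' + E' b → ρ c = c' := fun a c c' b e => std_ext h
    fun y => by
      obtain ⟨y, rfl⟩ := ((End.isUnit_iff ρ).1 ((H.un h S.un).isUnit h')).2 y
      obtain ⟨a', b', e'⟩ := h2 y
      have := S.un (E a' + D y) (E a + D c)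
      rw [e, e'] at this
      simpa [H'.ee, H'.ff, H'.dd, H'.ed, H'.fd, H'.toPf.de h, H'.toPf.df h, H.un h S.un y c]
        using this.symm
  obtain ⟨c₁, rfl⟩ := k2 x f1 x2
  obtain ⟨c₂, rfl⟩ := k2 v f2 v1
  rw [H'.dd] at x3 x4 v2
  obtain ⟨c, b', e3⟩ := k1 _ fw
  obtain rfl : c = 0 := std_ext h fun y => by
    obtain ⟨a, b, rfl⟩ := span_two h' (by simp) x3 v2 (x4 ▸ hκ) y
    rw [e3, map_add, H'.dd, H'.toPf.df h, add_zero] at w1 w2
    simp [w1, w2]
  have e4 : g (E fun i => A.coeff (i + 1) / A.coeff 0) + g (D c₂) = (A.coeff 0)⁻¹ • D c₁ := by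
    rw [hx, aeval_eq_sum_range, hm, Finset.sum_range_succ', Finset.sum_range]
    simp [hE, Fintype.linearCombination_apply, h0, Finset.smul_sum, smul_smul, pow_succ',
      div_eq_inv_mul]
  refine ⟨_, ρ, H, b, c₁, c₂, (A.coeff 0)⁻¹, _, β, inv_ne_zero h0, s2, x3, v2, x4,
    k3 _ _ _ 0 (by rw [map_add, e4]; simp), k3
      (-s • fun i : Fin (m + 1) => A.coeff (i + 1) / A.coeff 0) _ _ b' ?_⟩
  rw [map_zero, zero_add, ← eq_sub_iff_add_eq] at e3
  rw [map_add, map_smul, map_smul, eq_sub_of_add_eq e4, z0, e3, map_add, map_smul, map_smul]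
  module

end Cfsg.Lib.OreU
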