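import Cfsg.Agent.Lib.OreU.Dec

/-! Peeling hyperbolic pairs with prescribed pivots. -/

set_option autoImplicit false

namespace Cfsg.Lib.OreU

open Module Polynomial Matrix Cfsg.Lib.GLC Cfsg.Lib.Unitary Cfsg.Lib.OreC

universe u

variable {F : Type u} {V : Type*} [Field F] [AddCommGroup V] [Module F V] {σ : F →+* F} {q : ℕ}
  {B : V →ₛₗ[σ] V →ₗ[F] F} {ι : Type*} [Fintype ι] {g : End F V} [Finite F] [Module.Finite F V]

theorem exists_fr (h : IsHerm σ B) {E E' : (ι → F) →ₗ[F] V} (ee : ∀ a a', B (E a) (E a') = 0)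
    (ff : ∀ b b', B (E' b) (E' b') = 0) (fe : ∀ b a, B (E' b) (E a) = stdForm σ ι b a) {r : ℕ}
    (hr : finrank F V = 2 * Fintype.card ι + r) : ∃ D : (Fin r → F) →ₗ[F] V, Fr B E E' D := by
  have H : Pf B E E' (0 : (Empty → F) →ₗ[F] V) :=
    ⟨ee, ff, fe, by simp [stdForm_apply], by simp, by simp⟩
  let W := LinearMap.range (E.coprod E')
  have h1 : ∀ v ∈ perp B W, (∀ a, B (E a) v = 0) ∧ ∀ b, B (E' b) v = 0 := fun v hv =>
    ⟨fun a => mem_perp.1 hv _ ⟨(a, 0), by simp⟩, fun a => mem_perp.1 hv _ ⟨(0, a), by simp⟩⟩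
  have hW : Disjoint W (perp B W) := Submodule.disjoint_def.2 fun _ ⟨⟨a, b⟩, e⟩ hv => by
    subst e
    obtain rfl : a = 0 := std_ext h fun z => by simpa [fe, ff] using (h1 _ hv).2 z
    obtain rfl : b = 0 := std_ext h fun z => by simpa [H.ef h] using (h1 _ hv).1 z
    simp
  have h2 : finrank F W = 2 * Fintype.card ι := by
    rw [LinearMap.finrank_range_of_inj (LinearMap.ker_eq_bot.1 (LinearMap.ker_eq_bot'.2
      fun ⟨a, b⟩ e => by obtain ⟨rfl, -, rfl⟩ := H.inj h a 0 b (by simpa using e); rfl))]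
    simp [two_mul]
  obtain ⟨e, he⟩ := (h.restrict_perp hW).exists_isometry_std (n := r)
    (by have := h.finrank_add_finrank_perp W; omega)
  refine ⟨(perp B W).subtype ∘ₗ e.symm.toLinearMap, Pf.fr h ⟨ee, ff, fe, fun c c' => ?_,
    fun a c => (h1 _ (e.symm c).2).1 a, fun a c => (h1 _ (e.symm c).2).2 a⟩ (by simpa)⟩
  exact (he (e.symm c) (e.symm c')).symm.trans (by simp)

omit [Finite F] [Module.Finite F V] in
theorem comb_apply (e f : ι → V) (a b : ι → F) :
    B (Fintype.linearCombination F f b) (Fintype.linearCombination F e a) =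
      ∑ i, ∑ j, σ (b i) * (B (f i) (e j) * a j) := by
  simp only [Fintype.linearCombination_apply, map_sum, LinearMap.sum_apply, map_smul,
    LinearMap.map_smulₛₗ, LinearMap.smul_apply, smul_eq_mul, Finset.mul_sum]
  rw [Finset.sum_comm]
  exact Finset.sum_congr rfl fun _ _ => Finset.sum_congr rfl fun _ _ => by ring

theorem exists_fr_family [DecidableEq ι] (h : IsHerm σ B) (hg : Un B g) {e f : ι → V}
    (ee : ∀ i j, B (e i) (e j) = 0) (ff : ∀ i j, B (f i) (f j) = 0)
    (fe : ∀ i j, B (f i) (e j) = if i = j then 1 else 0) {M : Matrix ι ι F}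
    (hM : ∀ i j, B (f i) (g (e j)) = M i j) (hl : IsUnit (toLin' M)) {r : ℕ}
    (hr : finrank F V = 2 * Fintype.card ι + r) :
    ∃ (D : (Fin r → F) →ₗ[F] V) (ρ : End F (Fin r → F)), Dec B g (toLin' M) ρ ∧
      Fr B (Fintype.linearCombination F e) (Fintype.linearCombination F f) D ∧
      ∀ c, ∃ a b, g (Fintype.linearCombination F e a + D c) =
        D (ρ c) + Fintype.linearCombination F f b := by
  obtain ⟨D, H⟩ := exists_fr h (E := Fintype.linearCombination F e)
    (E' := Fintype.linearCombination F f) (by simp [comb_apply, ee]) (by simp [comb_apply, ff])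
    (by simp [comb_apply, fe, stdForm_apply]) hr
  have h1 : ∀ a b, B (Fintype.linearCombination F f b) (g (Fintype.linearCombination F e a)) =
      stdForm σ ι b (toLin' M a) := fun a b => by
    have : g (Fintype.linearCombination F e a) = Fintype.linearCombination F (g ∘ e) a := by
      simp [Fintype.linearCombination_apply]
    simp [this, comb_apply, hM, stdForm_apply, mulVec, dotProduct, Finset.mul_sum]
  obtain ⟨ρ, h2⟩ := H.exists_rho h hg hl h1
  exact ⟨D, ρ, ⟨hl, _, _, D, H, h1, h2⟩, H, h2⟩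

theorem dec_one (h : IsHerm σ B) (hg : Un B g) {e f : V} (he : B e e = 0) (hf : B f f = 0)
    (hfe : B f e = 1) {a : F} (h0 : a ≠ 0) (ha : B f (g e) = a) {r : ℕ}
    (hr : finrank F V = r + 2) : ∃ ρ : End F (Fin r → F), Dec B g (a • 1 : End F (Unit → F)) ρ := by
  have e1 : toLin' (a • 1 : Matrix Unit Unit F) = a • 1 := by rw [map_smul, toLin'_one]; rfl
  obtain ⟨D, ρ, H, -⟩ := exists_fr_family h hg (e := fun _ : Unit => e) (f := fun _ => f)
    (fun _ _ => he) (fun _ _ => hf) (fun _ _ => hfe) (M := a • 1) (fun _ _ => by simp [ha])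
    (by rw [e1, LinearMap.isUnit_iff_isUnit_det]; simpa) (r := r) (by simp [hr, add_comm])
  exact ⟨ρ, e1 ▸ H⟩

theorem exists_moved (h : IsHerm σ B) (hn : 2 ≤ finrank F V) (hs : ∀ c : F, g ≠ c • 1) :
    ∃ u, B u u = 0 ∧ ∀ c : F, g u ≠ c • u := by
  obtain ⟨e, h0, he⟩ := h.exists_isotropic hn
  by_contra! H
  obtain ⟨a, ha⟩ := h.exists_smul_of_isotropic h0 he H
  exact hs a (LinearMap.ext ha)

omit [Finite F] [Module.Finite F V] in
theorem hyp_step (h : IsHerm σ B) (hg : Un B g) {u z : V} (hu : B u u = 0) {a b : F} (hb : b ≠ 0)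
    (h1 : B u (g u) = b) (z1 : B u z = 0) (z2 : B (g u) z = 0)
    (z3 : B z z = -(a / b + σ (a / b))) : ∃ f, B f f = 0 ∧ B f u = 1 ∧ B f (g u) = a := by
  have h2 : B (g u) u = σ b := by rw [← h1, h.symm]
  have h3 : σ b ≠ 0 := by simpa
  refine ⟨σ (a / b) • u + b⁻¹ • g u + z, ?_, ?_, ?_⟩ <;>
    simp [hu, h1, h2, hg u u, z1, z2, z3, h.eq_zero_comm.1 z1, h.eq_zero_comm.1 z2, h.invol] <;>
    field_simp
  ring

theorem peel_three (h : IsHerm σ B) (hg : Un B g) (hs : ∀ c : F, g ≠ c • 1) {a : F} (h0 : a ≠ 0)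
    {r : ℕ} (hr : finrank F V = r + 3) :
    ∃ ρ : End F (Fin (r + 1) → F), Dec B g (a • 1 : End F (Unit → F)) ρ := by
  obtain ⟨u, hu, h1⟩ := exists_moved h (by omega) hs
  suffices ∃ f, B f f = 0 ∧ B f u = 1 ∧ B f (g u) = a from
    let ⟨f, f1, f2, f3⟩ := this; dec_one h hg hu f1 f2 h0 f3 hr
  by_cases hb : B u (g u) = 0
  · have hi : LinearIndependent F ![u, g u] := (LinearIndependent.pair_iff' fun e => h1 0 (by
      simp [e])).2 fun c e => h1 c e.symm
    obtain ⟨y, hy⟩ := h.exists_apply_eq hi ![1, σ a]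
    have y1 : B u y = 1 := hy 0
    have y2 : B (g u) y = σ a := hy 1
    obtain ⟨c, hc⟩ := h.exists_add_smul_isotropic hu (v := y) (by simp [y1])
    exact ⟨_, hc, by simp [hu, ← h.symm u y, y1], by simp [hb, ← h.symm (g u) y, y2, h.invol]⟩
  · have h2 : B u ((B u (g u))⁻¹ • g u) = 1 := by simp [hb]
    obtain ⟨x, hx⟩ := (h.isHerm_hypPerp hu h2).exists_orthonormal 1
      (by have := h.finrank_hypPerp hu h2; omega)
    obtain ⟨x1, x2⟩ := mem_hypPerp.1 (x 0).2
    have x3 : B (x 0) (x 0) = 1 := hx 0 0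
    obtain ⟨c, hc⟩ := h.exists_norm_eq (μ := -(a / B u (g u) + σ (a / B u (g u))))
      (by rw [map_neg, map_add, h.invol, add_comm])
    exact hyp_step h hg hu hb rfl (z := c • (x 0).1) (by simp [x1]) (by
      rw [map_smul, (by simpa [hb] using x2 : B (g u) (x 0) = 0), smul_zero])
      (by rw [← hc]; simp [x3, mul_comm])

theorem peel_two (hσ : IsBar q σ) (h : IsHerm σ B) (hg : Un B g) (hs : ∀ c : F, g ≠ c • 1) {a : F}
    (h0 : a ≠ 0) (hr : finrank F V = 2) (hd : LinearMap.det g * σ a = a) :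
    ∃ ρ : End F (Fin 0 → F), Dec B g (a • 1 : End F (Unit → F)) ρ := by
  obtain ⟨u, hu, h1⟩ := exists_moved h (by omega) hs
  have hb : B u (g u) ≠ 0 := fun hb => by
    have hi : LinearIndependent F ![u, g u] := (LinearIndependent.pair_iff' fun e => h1 0 (by
      simp [e])).2 fun c e => h1 c e.symm
    refine h1 0 (h.nondeg _ (fun v => ?_) |>.trans (zero_smul _ _).symm)
    have : v ∈ Submodule.span F (Set.range ![u, g u]) := by
      rw [hi.span_eq_top_of_card_eq_finrank' (by simp [hr])]; trivial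
    obtain ⟨c, rfl⟩ := (Submodule.mem_span_range_iff_exists_fun F).1 this
    simp [hg u u, hu, h.eq_zero_comm.1 hb]
  have k : ∀ a : F, a ≠ 0 → σ (a / B u (g u)) = -(a / B u (g u)) →
      ∃ ρ : End F (Fin 0 → F), Dec B g (a • 1 : End F (Unit → F)) ρ := fun a h0 ha =>
    let ⟨f, f1, f2, f3⟩ := hyp_step h hg hu hb rfl (z := 0) (a := a) (by simp) (by simp)
      (by simp only [ha]; simp); dec_one h hg hu f1 f2 h0 f3 hr
  obtain ⟨δ, d1, d2⟩ := h.exists_skew
  obtain ⟨ρ, H⟩ := k (δ * B u (g u)) (mul_ne_zero d1 hb) (by rw [mul_div_cancel_right₀ _ hb, d2])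
  have h2 := H.det hσ h hg
  rw [Subsingleton.elim ρ 1] at h2
  simp only [det_smul_one, finrank_fintype_fun_eq_card, Fintype.card_unique, pow_one, map_one,
    mul_one, map_mul, d2] at h2
  have h3 : σ (B u (g u)) ≠ 0 := by simpa
  refine k a h0 ?_
  rw [map_div₀, ← neg_div, div_eq_div_iff h3 hb]
  exact mul_left_cancel₀ d1 (by linear_combination (-σ a) * h2 - δ * σ (B u (g u)) * hd)

theorem peel_aux (hσ : IsBar q σ) {γ : F} (hγ : orderOf γ = q ^ 2 - 1) (n : ℕ) :
    ∀ (g : End F (Fin n → F)) (π : F), Un (stdForm σ (Fin n)) g → (π = 1 ∨ π = γ) →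
      LinearMap.det g * π = σ π → (∀ c : F, g ≠ c • 1) →
      ∃ (ι : Type) (_ : Fintype ι) (κ : Type) (_ : Fintype κ) (L : End F (ι → F)), Nonempty ι ∧
        Dec (stdForm σ (Fin n)) g L (1 : End F (κ → F)) ∧ LinearMap.det L * π = 1 ∧
        ∀ c : F, L = c • 1 → c = 1 ∨ c * π = 1 := by
  induction n using Nat.strong_induction_on with | _ n ih => ?_
  intro g π hg hπ hd hs
  have h : ∀ m, IsHerm σ (stdForm σ (Fin m)) := fun _ => hσ.isHerm
  have h2 := hσ.two_le
  have h4 : 3 ≤ q ^ 2 - 1 := by have : 2 ^ 2 ≤ q ^ 2 := Nat.pow_le_pow_left h2 2; omega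
  have g0 : γ ≠ 0 := fun e => by
    have := pow_orderOf_eq_one γ
    rw [hγ, e, zero_pow (by omega)] at this
    exact zero_ne_one this
  have p0 : π ≠ 0 := hπ.elim (fun e => e ▸ one_ne_zero) fun e => e ▸ g0
  have k : ∀ a c : F, (a • 1 : End F (Unit → F)) = c • 1 → a = c := fun a c e => by
    simpa [det_smul_one] using congrArg LinearMap.det e
  rcases n with _ | _ | _ | r
  · exact (hs 0 (Subsingleton.elim _ _)).elim
  · obtain ⟨c, hc⟩ := (LinearMap.existsUnique_eq_smul_id_of_finrank_eq_one (by simp) g).exists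
    exact (hs c hc).elim
  · obtain ⟨ρ, H⟩ := peel_two hσ (h _) hg hs (inv_ne_zero p0) (by simp) (by
      rw [map_inv₀, ← hd]; have := (hg.isUnit (h _)).map LinearMap.det |>.ne_zero; field_simp)
    exact ⟨Unit, inferInstance, Fin 0, inferInstance, _, inferInstance, Subsingleton.elim ρ 1 ▸ H,
      by simp [det_smul_one, p0], fun c e => .inr (by rw [← k _ _ e, inv_mul_cancel₀ p0])⟩
  obtain ⟨π', p1, p2⟩ : ∃ π', (π' = 1 ∨ π' = γ) ∧ ∀ c : F, c * σ c = 1 → c ^ (r + 1) * π' = σ π' →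
      c = 1 ∧ π' = 1 := by
    by_cases e : (r + 1).Coprime (q + 1)
    · exact ⟨1, .inl rfl, fun c h1 h3 => ⟨by
        have := pow_gcd_eq_one.2 ⟨(by simpa using h3 : c ^ (r + 1) = 1), hσ.norm_eq c ▸ h1⟩
        rwa [e.gcd_eq_one, pow_one] at this, rfl⟩⟩
    refine ⟨γ, .inr rfl, fun c h1 h3 => (e ?_).elim⟩
    obtain ⟨a, ha⟩ := Nat.gcd_dvd_left (r + 1) (q + 1)
    obtain ⟨b, hb⟩ := Nat.gcd_dvd_right (r + 1) (q + 1)
    obtain ⟨p, rfl⟩ : ∃ p, q = p + 1 := ⟨q - 1, by omega⟩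
    have h5 : c ^ (r + 1) = γ ^ p := mul_right_cancel₀ g0 (by rw [h3, hσ.eq, pow_succ])
    have h6 : orderOf γ ∣ p * b := orderOf_dvd_of_pow_eq_one (by
      rw [pow_mul, ← h5, ← pow_mul, ha, mul_right_comm, ← hb, pow_mul, ← hσ.norm_eq, h1, one_pow])
    rw [hγ, show (p + 1) ^ 2 - 1 = p * (p + 1 + 1) by rw [Nat.sub_eq_iff_eq_add (by omega)]; ring,
      mul_dvd_mul_iff_left (by omega), hb] at h6
    exact Nat.eq_one_of_dvd_one ((mul_dvd_mul_iff_right (c := b) (by rintro rfl; simp at hb)).1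
      (by rwa [one_mul]))
  have p0' : π' ≠ 0 := p1.elim (fun e => e ▸ one_ne_zero) fun e => e ▸ g0
  obtain ⟨ρ, H⟩ := peel_three (h _) hg hs (div_ne_zero p0' p0) (r := r) (by simp)
  have h5 := H.det hσ (h _) hg
  have h6 : LinearMap.det ρ * π' = σ π' := by
    simp only [det_smul_one, finrank_fintype_fun_eq_card, Fintype.card_unique, pow_one, map_div₀,
      ← hd] at h5
    have := (hg.isUnit (h _)).map LinearMap.det |>.ne_zero
    field_simp at h5
    linear_combination -h5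
  by_cases h7 : ∀ c : F, ρ ≠ c • 1
  · obtain ⟨ι, _, κ, _, L, ⟨i⟩, H', l1, l2⟩ := ih _ (by omega) ρ π' (H.un (h _) hg) p1 h6 h7
    obtain ⟨L', H'', l3, l4⟩ := H.comp (h _) H'
    refine ⟨Unit ⊕ ι, inferInstance, κ, inferInstance, L', inferInstance, H'', ?_, fun c e => ?_⟩
    · rw [l3, det_smul_one]; simp; field_simp; linear_combination l1
    have l5 := k _ _ (l4 c e).1
    rw [div_eq_iff p0] at l5
    rcases p1 with rfl | rfl
    · exact .inr l5.symm
    rcases hπ with rfl | rfl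
    · rw [mul_one] at l5
      refine (l2 c (l4 c e).2).imp id fun l6 => ?_
      rw [← l5, ← pow_two] at l6
      have := Nat.le_of_dvd two_pos (orderOf_dvd_of_pow_eq_one l6)
      omega
    · exact .inl (mul_right_cancel₀ p0 (l5.symm.trans (one_mul _).symm))
  · push Not at h7
    obtain ⟨c, rfl⟩ := h7
    obtain ⟨rfl, rfl⟩ := p2 c (by
      simpa [stdForm_single_left, mul_comm] using H.un (h _) hg (Pi.single 0 1) (Pi.single 0 1))
      (by simpa [det_smul_one] using h6)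
    exact ⟨Unit, inferInstance, Fin (r + 1), inferInstance, _, inferInstance, by simpa using H,
      by simp [det_smul_one, p0], fun c e => .inr (by rw [← k _ _ e]; simp [p0])⟩

end Cfsg.Lib.OreU
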