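import Cfsg.Agent.Lib.OreU.Fu

/-! Cyclic unitary maps with a long totally isotropic string. -/

set_option autoImplicit false

namespace Cfsg.Lib.OreU

open Module Polynomial Matrix Cfsg.Lib.GLC Cfsg.Lib.Unitary AdjoinRoot

universe u

variable {F : Type u} [Field F] {σ : F →+* F} {q : ℕ} {P : F[X]}

theorem exists_form (hσ : IsBar q σ) (hP : P.Monic) (h0 : P.coeff 0 ≠ 0) (hd : dual σ P = P)
    (hn : 0 < P.natDegree) (φ : F[X] →ₗ[F] F) (s : ℕ)
    (h1 : ∀ i < P.natDegree, ∃ p : F[X], p.natDegree < P.natDegree ∧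
      mk P p * root P ^ i = root P ^ (2 * s) ∧ φ p = σ (φ (X ^ i)))
    (h2 : ∀ d : F[X], d ≠ 0 → d.natDegree < P.natDegree → d ∣ P →
      ∃ k, d.natDegree + k < P.natDegree ∧ φ (d * X ^ k) ≠ 0) :
    ∃ B : AdjoinRoot P →ₛₗ[σ] AdjoinRoot P →ₗ[F] F, IsHerm σ B ∧ Un B (cyc P) ∧
      ∀ i b (p : F[X]), p.natDegree < P.natDegree → mk P p * root P ^ i = root P ^ s * b →
        B (root P ^ i) b = φ p := by
  have e0 : root P * mk P (C (-(P.coeff 0)⁻¹) * divX P) = 1 := by
    rw [← mk_X, ← map_mul, ← (mk P).map_one, mk_eq_mk]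
    refine ⟨C (-(P.coeff 0)⁻¹), ?_⟩
    have := congrArg C (mul_inv_cancel₀ h0)
    simp only [map_mul, map_one, map_neg] at this ⊢
    linear_combination (-C (P.coeff 0)⁻¹) * X_mul_divX_add P + this
  obtain ⟨u, hu⟩ := IsUnit.of_mul_eq_one _ e0
  have e1 : P.eval₂ ((algebraMap F (AdjoinRoot P)).comp σ) (u⁻¹).1 = 0 := by
    have := aeval_dual (σ := σ) u⁻¹ P
    rw [inv_inv, hd, hu, aeval_eq, mk_self, zero_mul, eq_comm, smul_eq_zero] at this
    rw [← eval₂_map, ← aeval_def]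
    exact this.resolve_left (by simpa)
  let bar := AdjoinRoot.lift _ _ e1
  have b1 : bar u = (u⁻¹).1 := by rw [hu]; exact lift_root e1
  have b2 : bar (u⁻¹).1 = u := by
    rw [← u.mul_inv_cancel_left (bar _)]
    nth_rw 1 [← b1]
    rw [← map_mul, u.mul_inv, map_one, mul_one]
  have b3 : ∀ c : F, bar (algebraMap F _ c) = algebraMap F _ (σ c) := fun c => lift_of e1
  have b4 : ∀ (c : F) r, bar (c • r) = σ c • bar r := fun c r => by
    rw [Algebra.smul_def, Algebra.smul_def, map_mul, b3]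
  have b5 : ∀ r, bar (bar r) = r := fun r => RingHom.congr_fun (AdjoinRoot.ringHom_ext
    (f := bar.comp bar) (g := .id _) (RingHom.ext fun c => (congrArg bar (b3 c)).trans
      ((b3 _).trans (by rw [hσ.invol]; rfl))) (by simp [← hu, b1, b2])) r
  let τ : AdjoinRoot P →ₗ[F] F := φ ∘ₗ modByMonicHom hP ∘ₗ LinearMap.mulLeft F (u.1 ^ s)
  have t1 : ∀ b (p : F[X]), p.natDegree < P.natDegree → mk P p = u.1 ^ s * b → τ b = φ p :=
    fun b p h e => by
      simp only [τ, LinearMap.comp_apply, LinearMap.mulLeft_apply, ← e, modByMonicHom_mk]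
      rw [(modByMonic_eq_self_iff hP).2 (degree_lt_degree h)]
  have t2 : ∀ r, ∃ p : F[X], p.natDegree < P.natDegree ∧ mk P p = r := fun r => by
    refine ⟨modByMonicHom hP r, ?_, mk_leftInverse hP r⟩
    obtain ⟨p, rfl⟩ := mk_surjective r
    exact natDegree_modByMonic_lt p hP fun e => by simp [e] at hn
  have t3 : ∀ r, σ (τ r) = τ (bar r) := fun r => by
    obtain ⟨p, p1, p2⟩ := t2 (u.1 ^ s * r)
    have : r = ∑ i ∈ Finset.range P.natDegree, p.coeff i • ((u ^ s)⁻¹ * u ^ i).1 := by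
      rw [← aeval_eq, aeval_eq_sum_range' p1, ← hu] at p2
      rw [← (u ^ s).inv_mul_cancel_left r, Units.val_pow_eq_pow_val, ← p2, Finset.mul_sum]
      simp
    rw [this]
    simp only [map_sum, map_smul, b4, smul_eq_mul, map_mul σ]
    refine Finset.sum_congr rfl fun i hi => ?_
    obtain ⟨p, p1, p2, p3⟩ := h1 i (Finset.mem_range.1 hi)
    rw [t1 _ (X ^ i) (by simpa using hi) (by
      rw [← Units.val_pow_eq_pow_val, ← Units.val_mul, mul_inv_cancel_left, map_pow, mk_X, ← hu]; rfl), ← p3,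
      t1 _ p p1]
    rw [← inv_pow, Units.val_mul, Units.val_pow_eq_pow_val, Units.val_pow_eq_pow_val, map_mul,
      map_pow, map_pow, b1, b2, ← mul_assoc, ← pow_add, ← two_mul, hu, ← p2, ← hu, mul_assoc,
      ← mul_pow, u.mul_inv, one_pow, mul_one]
  refine ⟨LinearMap.mk₂'ₛₗ σ (RingHom.id F) (fun a b => τ (bar a * b)) (by simp [add_mul])
    (by simp [b4]) (by simp [mul_add]) (by simp), ⟨hσ.ne_id, hσ.invol, fun a b => by
      simp [t3, b5, mul_comm], fun a ha => ?_⟩, fun a b => ?_, fun i b p p1 p2 => ?_⟩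
  · by_contra ha0
    obtain ⟨p, p1, p2⟩ := t2 (bar a)
    have p3 : p ≠ 0 := fun e => ha0 (by rw [← b5 a, ← p2, e, map_zero, map_zero])
    classical
    have d1 := EuclideanDomain.gcd_dvd_left p P
    have d2 := natDegree_le_of_dvd d1 p3
    have d0 := ne_zero_of_dvd_ne_zero p3 d1
    obtain ⟨k, k1, k2⟩ := h2 _ d0 (by omega) (EuclideanDomain.gcd_dvd_right p P)
    refine k2 ((t1 _ _ (by rwa [natDegree_mul_X_pow _ d0]) ?_).symm.trans
      (ha (mk P (EuclideanDomain.gcdA p P) * u.1 ^ k * ((u ^ s)⁻¹).1)))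
    rw [EuclideanDomain.gcd_eq_gcd_ab, ← p2, ← Units.val_pow_eq_pow_val u s]
    simp only [map_mul, map_add, mk_self, zero_mul, add_zero, map_pow, mk_X, hu]
    linear_combination (-(mk P p * mk P (EuclideanDomain.gcdA p P) * root P ^ k)) * (u ^ s).mul_inv
  · change τ (bar (root P * a) * (root P * b)) = τ (bar a * b)
    rw [← hu, map_mul bar, b1, mul_mul_mul_comm, u.inv_mul, one_mul]
  · refine t1 _ p p1 ?_
    rw [map_pow, ← hu, b1, mul_left_comm, hu, ← p2, ← hu, mul_left_comm, ← mul_pow, u.inv_mul,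
      one_pow, mul_one]

variable {V : Type*} [AddCommGroup V] [Module F V]

variable (σ P) in
/-- `v` is a cyclic vector with `v, g v, …, g ^ (m - 1) v` totally isotropic. -/
structure Str (B : V →ₛₗ[σ] V →ₗ[F] F) (g : End F V) (v : V) (m : ℕ) (κ : F) : Prop where
  herm : IsHerm σ B
  un : Un B g
  blocks : Blocks g {P}
  ind : ∀ R : F[X], aeval g R v = 0 → P ∣ R
  zero : ∀ j < m, B v ((g ^ j) v) = 0
  top : B v ((g ^ m) v) = κ
  ne : κ ≠ 0

theorem cyc_pow_apply (j : ℕ) (v : AdjoinRoot P) : (cyc P ^ j) v = root P ^ j * v := by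
  rw [cyc, ← map_pow]; rfl

theorem str_even (hσ : IsBar q σ) (hP : P.Monic) (h0 : P.coeff 0 ≠ 0) (hd : dual σ P = P) {m : ℕ}
    (hn : P.natDegree = 2 * m + 2) {κ : F} (hκ : κ ≠ 0) (h : σ κ = -(P.coeff 0)⁻¹ * κ) :
    ∃ B, Str σ P B (cyc P) 1 (m + 1) κ := by
  suffices h5 : _ by
    obtain ⟨B, h1, h2, h3⟩ := exists_form hσ hP h0 hd (by omega) (κ • lcoeff F (2 * m + 1)) m
      h5 fun d d0 d1 _ => ⟨2 * m + 1 - d.natDegree, by omega, by
        have := coeff_mul_X_pow d (2 * m + 1 - d.natDegree) d.natDegree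
        rw [show d.natDegree + (2 * m + 1 - d.natDegree) = 2 * m + 1 by omega] at this
        simp [this, hκ, d0]⟩
    have h4 : ∀ j ≤ m + 1, B 1 ((cyc P ^ j) 1) = κ * if j = m + 1 then 1 else 0 := fun j hj => by
      have := h3 0 (root P ^ j) (X ^ (m + j)) (by simp; omega) (by simp [pow_add])
      rw [cyc_pow_apply, mul_one, ← pow_zero (root P), this]
      simp [coeff_X_pow, show 2 * m + 1 = m + j ↔ j = m + 1 by omega]
    exact ⟨B, h1, h2, blocks_cyc hP, fun R hR => mk_eq_zero.1 (by simpa [aeval_cyc] using hR),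
      fun j hj => by simp [h4 j hj.le, hj.ne], by simp [h4], hκ⟩
  intro i hi
  by_cases e : i ≤ 2 * m
  · exact ⟨X ^ (2 * m - i), by simp; omega, by simp [← pow_add, e], by
      simp [coeff_X_pow, show 2 * m + 1 ≠ 2 * m - i by omega, show 2 * m + 1 ≠ i by omega]⟩
  obtain rfl : i = 2 * m + 1 := by omega
  refine ⟨C (-(P.coeff 0)⁻¹) * divX P, (natDegree_C_mul_le _ _).trans_lt (by
    rw [natDegree_divX_eq_natDegree_tsub_one]; omega), ?_, ?_⟩
  · rw [← mk_X, ← map_pow, ← map_pow, ← map_mul, mk_eq_mk]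
    refine ⟨C (-(P.coeff 0)⁻¹) * X ^ (2 * m), ?_⟩
    have := congrArg C (mul_inv_cancel₀ h0)
    simp only [map_mul, map_one, map_neg] at this ⊢
    linear_combination (-C (P.coeff 0)⁻¹ * X ^ (2 * m)) * X_mul_divX_add P + X ^ (2 * m) * this
  · have : P.coeff (2 * m + 1 + 1) = 1 := hn ▸ hP.coeff_natDegree
    simp [coeff_divX, this, h]; ring

theorem str_odd (hσ : IsBar q σ) (hP : P.Monic) (h0 : P.coeff 0 ≠ 0) (hd : dual σ P = P) {m : ℕ}
    (hn : P.natDegree = 2 * (m + 1) + 1) {c : F} (hc : c * σ c = 1) (h : P.eval c ≠ 0) :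
    ∃ B v κ, Str σ P B (cyc P) v (m + 1) κ := by
  have c0 := left_ne_zero_of_mul_eq_one hc
  have c1 : σ c = c⁻¹ := eq_inv_of_mul_eq_one_right hc
  obtain ⟨B, h1, h2, h3⟩ := exists_form hσ hP h0 hd (by omega) (c⁻¹ ^ (m + 1) • leval c) (m + 1)
    (fun i hi => ⟨X ^ (2 * (m + 1) - i), by simp; omega, by
      simp [← pow_add, show i ≤ 2 * (m + 1) by omega], by
        simp [c1, pow_sub₀ _ c0 (show i ≤ 2 * (m + 1) by omega)]; field_simp; ring⟩)
    fun d d0 d1 d2 => ⟨0, d1, by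
      simpa [c0] using fun e => h (eval_eq_zero_of_dvd_of_eval_eq_zero d2 e)⟩
  have h4 : ∀ j (p : F[X]), j ≤ m + 1 → p.natDegree < P.natDegree →
      mk P p = mk P (X ^ (m + 1 + j) * (X - C c)) → B (root P - algebraMap F _ c)
        ((cyc P ^ j) (root P - algebraMap F _ c)) = -σ c * (c⁻¹ ^ (m + 1) * p.eval c) :=
    fun j p hj p1 p2 => by
      have e1 := h3 1 (root P ^ j * (root P - algebraMap F _ c)) (X ^ (m + j) * (X - C c)) (by
        rw [(monic_X_pow _).natDegree_mul (monic_X_sub_C c)]; simp; omega) (by simp; ring)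
      have e2 := h3 0 (root P ^ j * (root P - algebraMap F _ c)) p p1 (by simp [p2]; ring)
      rw [pow_one] at e1
      rw [pow_zero] at e2
      rw [cyc_pow_apply, map_sub B, Algebra.algebraMap_eq_smul_one c, LinearMap.map_smulₛₗ,
        ← Algebra.algebraMap_eq_smul_one, LinearMap.sub_apply, e1, LinearMap.smul_apply (σ c), e2]
      simp
  have h5 : (X ^ (m + 1 + (m + 1)) * (X - C c)).Monic := (monic_X_pow _).mul (monic_X_sub_C c)
  refine ⟨B, root P - algebraMap F _ c, _, h1, h2, blocks_cyc hP, fun R hR => ?_,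
    fun j hj => ?_, h4 _ (X ^ (m + 1 + (m + 1)) * (X - C c) - P) le_rfl ?_ (by simp),
    by simp [c0, h]⟩
  · refine (cop_of_eval h).symm.dvd_of_dvd_mul_right (mk_eq_zero.1 ?_)
    simpa [aeval_cyc] using hR
  · rw [h4 j _ hj.le (by
      rw [(monic_X_pow _).natDegree_mul (monic_X_sub_C c)]; simp; omega) rfl]
    simp
  · have e : (X ^ (m + 1 + (m + 1)) * (X - C c)).natDegree = P.natDegree := by
      rw [(monic_X_pow _).natDegree_mul (monic_X_sub_C c)]; simp; omega
    have := degree_sub_lt (by rw [degree_eq_natDegree h5.ne_zero, e, ← degree_eq_natDegree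
      hP.ne_zero]) h5.ne_zero (h5.trans hP.symm)
    rw [degree_eq_natDegree h5.ne_zero, e] at this
    by_cases e0 : X ^ (m + 1 + (m + 1)) * (X - C c) - P = 0
    · rw [e0, natDegree_zero]; omega
    · exact (natDegree_lt_iff_degree_lt e0).2 this

end Cfsg.Lib.OreU
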