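import Cfsg.Agent.Lib.OreU.Opp

/-! The field with four elements: models of decompositions. -/

set_option autoImplicit false

namespace Cfsg.Lib.OreU

open Module Polynomial Matrix Cfsg.Lib.GLC Cfsg.Lib.Unitary Cfsg.Lib.Ore

universe u

variable {F : Type u} [Field F] {σ : F →+* F} {G : F[X] → Prop} {μ μ' ν ν' : Multiset F[X]}

section field

variable (hσ : IsBar 2 σ) {x y : F}
include hσ

theorem two0 : (2 : F) = 0 := by simpa using hσ.cast_q

theorem cube (h : x ≠ 0) : x ^ 3 = 1 := by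
  have := hσ.finite
  cases nonempty_fintype F
  have h1 := FiniteField.pow_card_sub_one_eq_one x h
  rwa [← Nat.card_eq_fintype_card, hσ.card] at h1

theorem nrm (h : x ≠ 0) : x * σ x = 1 := (hσ.norm_eq x).trans (cube hσ h)

theorem inv_eq (h : x ≠ 0) : x⁻¹ = x ^ 2 :=
  inv_eq_of_mul_eq_one_right (by rw [← cube hσ h]; ring)

theorem sq_eq (h0 : x ≠ 0) (h1 : x ≠ 1) : x ^ 2 = x + 1 :=
  mul_left_cancel₀ (sub_ne_zero.2 h1) (by linear_combination cube hσ h0 + (1 - x ^ 2) * two0 hσ)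

theorem cases4 (h0 : x ≠ 0) (h1 : x ≠ 1) (h : y ≠ 0) : y = 1 ∨ y = x ∨ y = x⁻¹ := by
  have : (y - 1) * ((y - x) * (y - x ^ 2)) = 0 := by
    have := cube hσ h; have := cube hσ h0; have := sq_eq hσ h0 h1; have := two0 hσ
    grind
  simpa only [mul_eq_zero, sub_eq_zero, ← inv_eq hσ h0] using this

theorem eq_one_of_sq (h : x * x = 1) : x = 1 :=
  (mul_self_eq_one_iff.1 h).elim id fun e => by rw [e]; linear_combination -two0 hσ

theorem ne_inv (h0 : x ≠ 0) (h1 : x ≠ 1) : x ≠ x⁻¹ := fun e =>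
  h1 (eq_one_of_sq hσ (by nth_rw 2 [e]; exact mul_inv_cancel₀ h0))

theorem exists_om : ∃ x : F, x ≠ 0 ∧ x ≠ 1 :=
  let ⟨x, h1, h2⟩ := hσ.exists_norm_one_ne_one; ⟨x, left_ne_zero_of_mul_eq_one h1, h2⟩

theorem ind4 {p : Multiset F → Prop} (h0 : p 0) (ha : ∀ M N, p M → p N → p (M + N)) (h1 : p {1})
    (h2 : ∀ x, x ≠ 0 → x ≠ 1 → p {x, x⁻¹}) (h3 : ∀ x, x ≠ 0 → x ≠ 1 → p {x, x, x}) (M : Multiset F)
    (hM : ∀ x ∈ M, x ≠ 0) : ∃ N E, M = N + E ∧ p N ∧ N.prod = 1 ∧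
      (E = 0 ∨ ∃ x, x ≠ 0 ∧ x ≠ 1 ∧ (E = {x} ∨ E = {x, x})) := by
  induction M using Multiset.induction_on with
  | empty => exact ⟨0, 0, rfl, h0, rfl, .inl rfl⟩
  | cons y M ih =>
  obtain ⟨N, E, rfl, p1, p2, p3⟩ := ih fun x hx => hM x (Multiset.mem_cons_of_mem hx)
  have y0 := hM y (Multiset.mem_cons_self _ _)
  simp only [Multiset.insert_eq_cons, ← Multiset.singleton_add] at h2 h3 p3 ⊢
  by_cases y1 : y = 1
  · exact ⟨N + {1}, E, by rw [y1]; abel, ha _ _ p1 h1, by simp [p2], p3⟩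
  obtain rfl | ⟨x, x0, x1, e⟩ := p3
  · exact ⟨N, {y}, by abel, p1, p2, .inr ⟨y, y0, y1, .inl rfl⟩⟩
  obtain rfl | rfl := (cases4 hσ x0 x1 y0).resolve_left y1 <;> obtain rfl | rfl := e
  · exact ⟨N, _, by abel, p1, p2, .inr ⟨y, y0, y1, .inr rfl⟩⟩
  · exact ⟨_, 0, by abel, ha _ _ p1 (h3 y y0 y1), by
      simp [p2, ← pow_three, cube hσ y0], .inl rfl⟩
  · exact ⟨_, 0, by abel, ha _ _ p1 (h2 x x0 x1), by simp [p2, x0], .inl rfl⟩
  · exact ⟨_, {x}, by abel, ha _ _ p1 (h2 x x0 x1), by simp [p2, x0], .inr ⟨x, x0, x1, .inl rfl⟩⟩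

theorem ind4' {p : Multiset F → Prop} (h0 : p 0) (ha : ∀ M N, p M → p N → p (M + N)) (h1 : p {1})
    (h2 : ∀ x, x ≠ 0 → x ≠ 1 → p {x, x⁻¹}) (h3 : ∀ x, x ≠ 0 → x ≠ 1 → p {x, x, x}) (M : Multiset F)
    (hM : ∀ x ∈ M, x ≠ 0) (hp : M.prod = 1) : p M := by
  obtain ⟨N, E, rfl, p1, p2, rfl | ⟨x, -, x1, rfl | rfl⟩⟩ := ind4 hσ h0 ha h1 h2 h3 M hM
  · simpa
  · exact (x1 (by simpa [p2] using hp)).elim
  · exact (x1 (eq_one_of_sq hσ (by simpa [p2] using hp))).elim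

theorem exists_t {κ : Type*} [Fintype κ] {ρ : End F (κ → F)} (hu : Un (stdForm σ κ) ρ)
    (h3 : ρ ^ 3 = 1) (hd : LinearMap.det ρ = 1) : ∃ (t : End F (κ → F)) (N : Multiset F),
      Un (stdForm σ κ) t ∧ Blocks t (lt N) ∧ (∀ x ∈ N, x ≠ 0) ∧ Sim (ρ * t) t ∧
        LinearMap.det t = 1 := by
  classical
  have := hσ.finite
  have h := hσ.isHerm (ι := κ)
  obtain ⟨M, b⟩ := exists_lt_of_pow (f := ρ) (r := 3) (by simp [hσ.card]) one_ne_zero (by simpa)
  have m0 : ∀ x ∈ M, x ≠ 0 := by simpa [forall_lt] using b.isUnit_iff.1 (hu.isUnit h)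
  obtain ⟨S, s1, s2, s3, s4⟩ := ind4' hσ (p := fun M => ∃ S : Multiset (F × F), S.map Prod.fst = M ∧
      S.map (fun z => z.1 * z.2) = S.map Prod.snd ∧ (S.map Prod.snd).prod = 1 ∧
      ∀ x ∈ S.map Prod.snd, x ≠ 0) ⟨0, by simp⟩ (by
      rintro _ _ ⟨S, rfl, a, b, c⟩ ⟨T, rfl, a', b', c'⟩
      refine ⟨S + T, by simp, by simp only [Multiset.map_add, a, a'], by simp [b, b'], ?_⟩
      rw [Multiset.map_add]
      exact fun x hx => (Multiset.mem_add.1 hx).elim (c x) (c' x)) ⟨{(1, 1)}, by simp⟩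
    (fun x x0 x1 => ⟨{(x, x), (x⁻¹, x⁻¹)}, by simp, by
      have e1 : x * x = x⁻¹ := by rw [inv_eq hσ x0, pow_two]
      have e2 : x⁻¹ * x⁻¹ = x := by rw [← mul_inv, e1, inv_inv]
      simpa [e1, e2] using Multiset.pair_comm _ _, by simp [x0], by simp [x0]⟩)
    (fun x x0 x1 => ⟨{(x, 1), (x, x), (x, x⁻¹)}, by simp, by
      have e1 : x * x = x⁻¹ := by rw [inv_eq hσ x0, pow_two]
      simp only [Multiset.insert_eq_cons, Multiset.map_cons, Multiset.map_singleton, e1, mul_one,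
        mul_inv_cancel₀ x0]
      simp only [← Multiset.singleton_add]
      abel, by simp [x0], by simp [x0]⟩) M m0 (b.lt_det ▸ hd)
  obtain ⟨v, rfl⟩ := exists_univ_map_eq (n := κ) S (by simpa [← s1] using b.lt_card)
  have k : ∀ w : κ → F, (∀ i, w i ≠ 0) → Un (stdForm σ κ) (toLin' (diagonal w)) := fun w hw a b =>
    Finset.sum_congr rfl fun i _ => by
      simp only [toLin'_apply, mulVec_diagonal, map_mul]
      linear_combination σ (a i) * b i * nrm hσ (hw i)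
  have k1 := k (Prod.fst ∘ v) fun i => m0 _ (by simp [← s1])
  have k2 := k (Prod.snd ∘ v) fun i => s4 _ (by simp)
  obtain ⟨e, e1, e2⟩ := h.exists_isometry_of_sim h hσ (g := .ofInjectiveEndo ρ (hu.inj h)) hu
    (g' := .ofInjectiveEndo _ (k1.inj h)) k1 (b.sim (by
      rw [← s1, Multiset.map_map]; exact blocks_diagonal _))
  have b2 := blocks_diagonal (Prod.snd ∘ v)
  have e3 : Sim (e.symm.conjAlgEquiv F (toLin' (diagonal (Prod.snd ∘ v)))) _ := (sim_conj _ _).symm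
  refine ⟨_, _, fun a b => (e1 _ _).symm.trans (by simpa using (k2 _ _).trans (e1 a b)), e3.blocks b2, by simpa using s4,
    Sim.trans (g := toLin' (diagonal fun i => (v i).1 * (v i).2)) ⟨e, fun a => ?_⟩
      (((blocks_diagonal _).sim (by
        rw [Multiset.map_map, Multiset.map_map] at s2; exact s2 ▸ b2)).trans e3.symm),
    by simpa [e3.det_eq, b2.lt_det] using s3⟩
  refine (e2 _).trans ?_
  simp [← diagonal_mul_diagonal]; rfl

theorem cube_of_two {ρ : End F (Fin 2 → F)} (hu : Un (stdForm σ _) ρ) {c₁ c₂ : Fin 2 → F}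
    {a s β κ : F} (h0 : a ≠ 0) (h1 : s ≠ 0) (h2 : stdForm σ _ c₁ c₁ = 0)
    (h3 : stdForm σ _ c₂ c₂ = 0) (h4 : stdForm σ _ c₂ c₁ = κ) (h5 : κ ≠ 0) (r2 : ρ c₂ = a • c₁)
    (r1 : ρ c₁ = s • c₁ + β • c₂) : ρ ^ 3 = 1 := by
  have h6 : stdForm σ _ c₁ c₂ = σ κ := by rw [← h4, hσ.isHerm.symm]
  have e1 := hu c₂ c₁
  have e2 := hu c₁ c₁
  simp only [r1, r2, map_add, LinearMap.map_smulₛₗ, LinearMap.add_apply, LinearMap.smul_apply, h2,
    h3, h4, h6, smul_eq_mul, RingHom.id_apply, hσ.eq] at e1 e2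
  have t0 := two0 hσ
  have t1 := cube hσ h0
  have t2 := cube hσ h1
  have t3 := cube hσ h5
  have e3 : β = a * κ ^ 2 := by grind
  have e4 : s = a * κ := by grind
  refine LinearMap.ext fun c => ?_
  obtain ⟨x, y, rfl⟩ := span_two hσ.isHerm (by simp) h2 h3 (h4 ▸ h5) c
  simp only [pow_three, End.mul_apply, map_add, map_smul, r1, r2, End.one_apply]
  match_scalars <;> grind

theorem cube_of_le {κ : Type*} [Fintype κ] {ρ : End F (κ → F)} (hu : Un (stdForm σ κ) ρ)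
    (h : Fintype.card κ ≤ 1) : ρ ^ 3 = 1 := by
  have := hσ.finite
  rcases h.eq_or_lt with h | h
  · obtain ⟨c, rfl⟩ := (LinearMap.existsUnique_eq_smul_id_of_finrank_eq_one (by simpa) ρ).exists
    have h1 : c ≠ 0 := by simpa [h] using ((hu.isUnit hσ.isHerm).map LinearMap.det).ne_zero
    rw [_root_.smul_pow, cube hσ h1]; simp [End.one_eq_id]
  · have := Fintype.card_eq_zero_iff.1 (show Fintype.card κ = 0 by omega)
    exact Subsingleton.elim _ _

end field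

variable (G μ) in
/-- A map of type `μ` is `x * y⁻¹` with similar `x`, `y` whose blocks are in the family `G`. -/
def FL : Prop := ∀ (U : Type u) [AddCommGroup U] [Module F U] (l : End F U), Blocks l μ →
  ∃ (y : End F U) (ν : Multiset F[X]), Blocks y ν ∧ (∀ P ∈ ν, G P) ∧ Sim (l * y) y ∧
    LinearMap.det y = 1

theorem fl_of_model {W : Type*} [AddCommGroup W] [Module F W] {l y : End F W} (h1 : Blocks l μ)
    (h2 : Blocks y ν) (h3 : ∀ P ∈ ν, G P) (h4 : Sim (l * y) y) (h5 : LinearMap.det y = 1) :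
    FL G μ := fun _ _ _ _ b =>
  let ⟨y', e1, e2⟩ := exists_mul_sim (b.sim h1) y
  ⟨y', ν, e1.blocks h2, h3, e2.trans (h4.trans e1.symm), e1.det_eq ▸ h5⟩

theorem fl_zero : FL G 0 := fl_of_model (W := Empty → F) (l := 1) (y := 1) blocks_zero blocks_zero
  (by simp) (by rw [one_mul]) (map_one _)

theorem FL.add (h : FL G μ) (h' : FL G μ') : FL G (μ + μ') := fun U _ _ l b => by
  obtain ⟨A, B, hA, hB, -, b1, b2⟩ := b.exists_isCompl
  obtain ⟨y, ν, y1, y2, y3, y4⟩ := h _ _ b1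
  obtain ⟨y', ν', y1', y2', y3', y4'⟩ := h' _ _ b2
  have := y1.finite
  have := y1'.finite
  exact fl_of_model (b1.prodMap b2) (y1.prodMap y1')
    (fun P hP => (Multiset.mem_add.1 hP).elim (y2 P) (y2' P))
    (by rw [LinearMap.prodMap_mul]; exact y3.prodMap y3')
    (by rw [LinearMap.det_prodMap, y4, y4', one_mul]) U l b

variable (σ) in
/-- A unitary map of type `ν` has a decomposition with Levi component of type `μ` and diagonal
middle part. -/
def DB (ν μ : Multiset F[X]) : Prop := ∃ (V : Type u) (_ : AddCommGroup V) (_ : Module F V) (B : V →ₛₗ[σ] V →ₗ[F] F)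
  (g : End F V) (ι κ : Type) (_ : Fintype ι) (_ : Fintype κ) (l : End F (ι → F))
  (ρ : End F (κ → F)), IsHerm σ B ∧ Un B g ∧ Blocks g ν ∧ Dec B g l ρ ∧ Blocks l μ ∧ ρ ^ 3 = 1

theorem DB.add (h : DB σ ν μ) (h' : DB σ ν' μ') : DB σ (ν + ν') (μ + μ') := by
  obtain ⟨V, _, _, B, g, ι, κ, _, _, l, ρ, h1, h2, h3, h4, h5, h6⟩ := h
  obtain ⟨V', _, _, B', g', ι', κ', _, _, l', ρ', h1', h2', h3', h4', h5', h6'⟩ := h'
  obtain ⟨L, R, H, s1, s2⟩ := h4.sum h4'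
  exact ⟨_, _, _, _, _, _, _, _, _, L, R, isHerm_hsum h1 h1', h2.prodMap h2', h3.prodMap h3', H,
    s1.blocks (h5.prodMap h5'), (s2.pow 3).eq_one_iff.2 (by rw [prodMap_pow, h6, h6']; rfl)⟩

theorem DB.congr (h : DB σ ν μ) (h1 : ∀ (V : Type u) [AddCommGroup V] [Module F V] (g : End F V),
    Blocks g ν → Blocks g ν') (h2 : ∀ (V : Type u) [AddCommGroup V] [Module F V] (g : End F V),
    Blocks g μ → Blocks g μ') : DB σ ν' μ' :=
  let ⟨V, _, _, B, g, ι, κ, _, _, l, ρ, a, b, c, d, e, f⟩ := h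
  ⟨V, _, _, B, g, ι, κ, _, _, l, ρ, a, b, h1 _ _ c, d, h2 _ _ e, f⟩

variable (σ G) in
/-- A family of irreducible polynomials no two of which are dual. -/
def Gf : Prop :=
  ∀ P, G P → P.Monic ∧ Irreducible P ∧ P.coeff 0 ≠ 0 ∧ ∀ Q, G Q → Q ≠ dual σ P

theorem DB.cu (hσ : IsBar 2 σ) (hG : Gf σ G) (h : DB σ ν μ) (h' : FL G μ) {W : Type*}
    [AddCommGroup W] [Module F W] [Nontrivial W] {g₀ : End F W} (b : Blocks g₀ ν)
    (hd : LinearMap.det g₀ = 1) : Cu 2 g₀ := by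
  obtain ⟨V, _, _, B, g, ι, κ, _, _, l, ρ, h1, h2, h3, h4, h5, h6⟩ := h
  have := hσ.finite
  have := h3.finite
  have := b.finite
  obtain ⟨y, ξ, y1, y2, y3, y4⟩ := h' _ l h5
  have ok : Ok σ ξ := fun P hP => let ⟨a, b, c, d⟩ := hG P (y2 P hP)
    ⟨a, b, c, fun Q hQ => d Q (y2 Q hQ)⟩
  have d1 : LinearMap.det l = 1 := by simpa [y4] using y3.det_eq
  obtain ⟨t, N, t1, t2, t3, t4, t5⟩ := exists_t hσ (h4.un h1 h2) h6 (by
    simpa [d1, ← (b.sim h3).det_eq, hd] using (h4.det hσ h1 h2).symm)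
  have c1 := ok.cop hσ
  have m1 : ξ.prod.Monic := monic_multiset_prod_of_monic _ id (fun P hP => (ok P hP).1) |>
    (by simpa using ·)
  refine (h4.cu hσ h1 h2 t1 ok.coeff (y1.aeval_eq_zero_iff.2 fun _ => Multiset.dvd_prod)
    (t2.aeval_eq_zero_iff.2 fun _ => Multiset.dvd_prod) c1
    (cop_prod (forall_lt.2 fun a ha => cop_norm c1 (nrm hσ (t3 a ha)))).symm
    (cop_prod (forall_lt.2 fun a ha => cop_norm (by
      rw [hσ.dual_dual m1 ok.coeff]; exact c1.symm) (nrm hσ (t3 a ha)))) y3 t4 (by simp [y4, t5])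
    ?_).of_sim (b.sim h3)
  have e := h4.finrank_eq h1
  rw [← (b.sim h3).finrank_eq] at e
  have := finrank_pos (R := F) (M := W)
  by_cases h7 : Nonempty ι
  · exact .inl (detC_eq_top_of_isSemisimple (y1.isSemisimple fun P hP => (ok P hP).2.1))
  · have : Nonempty κ := Fintype.card_pos_iff.1 (by
      have := Fintype.card_eq_zero_iff.2 (not_nonempty_iff.1 h7); omega)
    exact .inr (detC_eq_top_of_isSemisimple t2.lt_isSemisimple)

end Cfsg.Lib.OreU
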